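import Cfsg.Agent.LE.J3U.Eqs
import Cfsg.Agent.BSW.Ident
import Cfsg.Agent.H14.SubField

/-!
# Groups of `J₃` type, VI: the centralizer of `y` (owner: helper80)
-/
set_option autoImplicit false
set_option linter.all false

namespace Cfsg.Agent.LE.J3U

open Subgroup Cfsg.Agent.H90 Equiv Cfsg.Agent.LE Cfsg.Agent.LE.J2U Cfsg.Agent.CosetEnum

set_option maxRecDepth 100000 in
theorem inv_vec2 : ∀ s : Fin 5 → ZMod 2, (∑ i, s i = 0 ∧ ∀ i, s (py i) = s i) →
    (s = (0 : Fin 5 → ZMod 2) ∨ s = (fun j => if j = 3 then (0 : ZMod 2) else 1) ∨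
      s = (fun j => if j = 4 then (0 : ZMod 2) else 1) ∨ s = fun k => if k = 3 ∨ k = 4 then (1 : ZMod 2) else 0) := by
  decide +kernel

namespace C3

variable {G : Type*} [Group G] [Finite G] {Q : Subgroup G} {z f y a : G} (c : C3 Q z f y a)
include c

theorem cent_yz {u : G} (uz : u * z = z * u) (uy : u * y = y * u) :
    ∃ (b : ZMod 2) (m : G), (m = 1 ∨ m = a ∨ m = tp a f y 4 ∨ m = a * tp a f y 4) ∧ ∃ i < 3, u = zp z b * m * y ^ i := by
  have B := c.B
  obtain ⟨σ, hσ, s, hs, hact⟩ := B.act uz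
  have h1 := act_mul B.pl uz hact c.F.acty
  have h2 := act_mul B.pl c.F.yz c.F.acty hact
  rw [uy] at h1
  have h3 := (act_unique B.pl B.pts h1 h2).1
  obtain ⟨i, hi, hσi⟩ : ∃ i < 3, σ = py ^ i := by
    rcases cent_py σ (Equiv.Perm.mem_alternatingGroup.mp hσ) h3 with h4 | h4 | h4
    · exact ⟨0, by norm_num, by rw [h4, pow_zero]⟩
    · exact ⟨1, by norm_num, by rw [h4, pow_one]⟩
    · exact ⟨2, by norm_num, by rw [h4, pow_two]⟩
  -- powers of y
  have hyz : ∀ n : ℕ, y ^ n * z = z * y ^ n := fun n => (show Commute y z from c.F.yz).pow_left n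
  have hactp : ∀ n : ℕ, Act z (tp a f y) (y ^ n) (py ^ n) 0 := by
    intro n
    induction n with
    | zero => simpa using act_one B.pl
    | succ n ih =>
      have := act_mul B.pl (hyz n) ih c.F.acty
      rw [pow_succ, pow_succ]
      intro j
      rw [this j]
      simp
  set q := u * (y ^ i)⁻¹ with hq
  have hyi : (y ^ i)⁻¹ * z = z * (y ^ i)⁻¹ := by
    rw [inv_mul_eq_iff_eq_mul, ← mul_assoc, hyz i]; group
  have qz : q * z = z * q := by rw [hq, mul_assoc, hyi, ← mul_assoc, uz, mul_assoc]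
  have qact := act_mul B.pl uz hact (act_inv B.pl (hyz i) (hactp i))
  rw [← hq, hσi, mul_inv_cancel] at qact
  have hqQ : q ∈ Q := B.mem_of_act_one qz qact
  have uyi : ∀ n : ℕ, u * y ^ n = y ^ n * u := fun n => (show Commute u y from uy).pow_right n
  have qy : q * y = y * q := by
    rw [hq]
    calc u * (y ^ i)⁻¹ * y = u * y * (y ^ i)⁻¹ := by group
      _ = y * (u * (y ^ i)⁻¹) := by rw [uy]; group
  obtain ⟨s', hs', hact'⟩ := act_q B.pl B.pts B.cardQ hqQ
  have h6 := act_mul B.pl qz hact' c.F.acty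
  have h7 := act_mul B.pl c.F.yz c.F.acty hact'
  rw [qy] at h6
  have h8 := (act_unique B.pl B.pts h6 h7).2
  have h9 : ∀ j, s' (py j) = s' j := by
    intro j
    have := congrFun h8 j
    simpa using this
  have ha : tp a f y 3 = a := by simp [tp]
  have hu : u = q * y ^ i := by rw [hq]; group
  rcases inv_vec2 s' ⟨hs', h9⟩ with h | h | h | h <;> rw [h] at hact'
  · obtain ⟨b, hb⟩ := act_trivial B.pl B.pts B.cardQ hqQ hact'
    exact ⟨b, 1, Or.inl rfl, i, hi, by rw [hu, hb, mul_one]⟩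
  · obtain ⟨b, hb⟩ := B.ext qz (B.pts.comm_z B.pl 3) hact' (act_self B.pl B.pts 3)
    rw [ha] at hb
    exact ⟨b, a, Or.inr (Or.inl rfl), i, hi, by rw [hu, hb]⟩
  · obtain ⟨b, hb⟩ := B.ext qz (B.pts.comm_z B.pl 4) hact' (act_self B.pl B.pts 4)
    exact ⟨b, _, Or.inr (Or.inr (Or.inl rfl)), i, hi, by rw [hu, hb]⟩
  · have h34 : tp a f y 3 * tp a f y 4 * z = z * (tp a f y 3 * tp a f y 4) :=
      B.pl.central _ (Q.mul_mem (B.pts.mem 3) (B.pts.mem 4))
    obtain ⟨b, hb⟩ := B.ext qz h34 hact' (act_pair B.pl B.pts (by decide : (3 : Fin 5) ≠ 4))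
    rw [ha] at hb
    exact ⟨b, _, Or.inr (Or.inr (Or.inr rfl)), i, hi, by rw [hu, hb]⟩

/-- involutions commuting with `y` are conjugate in `C(y)` to `z` -/
theorem conj_in_Cy {w : G} (wz : w * z = z * w) (wy : w * y * w = y⁻¹) (ww : w * w = 1) {u : G} (uu : u * u = 1)
    (u1 : u ≠ 1) (uy : u * y = y * u) : ∃ n : G, n * y = y * n ∧ n * u * n⁻¹ = z := by
  obtain ⟨h, hh⟩ := c.oc u uu u1
  have wi : w⁻¹ = w := inv_eq_of_mul_eq_one_left ww
  have yyy : y * y * y = 1 := c.F.fy.yyy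
  have y1 := c.y1
  have hM9 : ¬ 9 ∣ Nat.card (centralizer ({z} : Set G)) := by
    rw [c.B.cardC]; norm_num
  have e1 : h⁻¹ * u * h⁻¹⁻¹ = z := by rw [← hh]; group
  have hy' : (h⁻¹ * y * h⁻¹⁻¹) * z = z * (h⁻¹ * y * h⁻¹⁻¹) := comm_of_conj uy.symm rfl e1
  obtain ⟨m, hm, hmm⟩ := conj_three hM9 (mem_centralizer_singleton_iff.2 hy') (mem_centralizer_singleton_iff.2 c.F.yz)
    (by
      calc h⁻¹ * y * h⁻¹⁻¹ * (h⁻¹ * y * h⁻¹⁻¹) * (h⁻¹ * y * h⁻¹⁻¹) = h⁻¹ * (y * y * y) * h := by group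
        _ = 1 := by rw [yyy]; group) (fun h' => y1 (by
      have : y = h * (h⁻¹ * y * h⁻¹⁻¹) * h⁻¹ := by group
      rw [this, h']; group)) yyy y1
  have hmz := mem_centralizer_singleton_iff.1 hm
  obtain ⟨m', mz, my⟩ : ∃ m' : G, m' * z = z * m' ∧ m' * (h⁻¹ * y * h⁻¹⁻¹) * m'⁻¹ = y := by
    rcases hmm with h1 | h1
    · exact ⟨m, hmz, h1⟩
    · refine ⟨w * m, by rw [mul_assoc, hmz, ← mul_assoc, wz, mul_assoc], ?_⟩
      have h2 : w * y⁻¹ * w = y := by
        calc w * y⁻¹ * w = w * (w * y * w) * w := by rw [wy]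
          _ = (w * w) * y * (w * w) := by group
          _ = y := by rw [ww]; simp
      calc w * m * (h⁻¹ * y * h⁻¹⁻¹) * (w * m)⁻¹ = w * (m * (h⁻¹ * y * h⁻¹⁻¹) * m⁻¹) * w⁻¹ := by group
        _ = y := by rw [h1, wi, h2]
  refine ⟨m' * h⁻¹, ?_, ?_⟩
  · have h3 : (m' * h⁻¹) * y * (m' * h⁻¹)⁻¹ = y := by
      calc (m' * h⁻¹) * y * (m' * h⁻¹)⁻¹ = m' * (h⁻¹ * y * h⁻¹⁻¹) * m'⁻¹ := by group
        _ = y := my
    rwa [mul_inv_eq_iff_eq_mul] at h3
  · calc (m' * h⁻¹) * u * (m' * h⁻¹)⁻¹ = m' * (h⁻¹ * u * h⁻¹⁻¹) * m'⁻¹ := by group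
      _ = z := by rw [e1, mz]; group

end C3

section quot

universe u

variable {X : Type u} [Group X]

/-- the configuration in the quotient, abstractly -/
theorem conf_of {z a e : X} (zz : z * z = 1) (aa : a * a = 1) (ee : e * e = 1) (az : a * z = z * a)
    (ez : e * z = z * e) (ae : a * e = z * (e * a)) (z1 : z ≠ 1)
    (ct : ∀ x : X, x * z = z * x → ∃ (b : X) (m : X), (b = 1 ∨ b = z) ∧ (m = 1 ∨ m = a ∨ m = e ∨ m = a * e) ∧ x = b * m)
    (cj : ∀ x : X, x ≠ 1 → x * x = 1 → ∃ g : X, g * x * g⁻¹ = z) : BSW.Conf (zpowers (a * e)) z a := by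
  obtain ⟨r, hr⟩ : ∃ r, r = a * e := ⟨_, rfl⟩
  have ai : a⁻¹ = a := inv_eq_of_mul_eq_one_left aa
  have ei : e⁻¹ = e := inv_eq_of_mul_eq_one_left ee
  have rr : r * r = z := by
    rw [hr]
    calc (a * e) * (a * e) = (z * (e * a)) * (a * e) := congrArg (· * (a * e)) ae
      _ = z * e * (a * a) * e := by group
      _ = z := by rw [aa, mul_one, mul_assoc, ee, mul_one]
  have hra : a * r * a⁻¹ = r⁻¹ := by
    rw [hr, ai, mul_inv_rev, ai, ei]
    calc a * (a * e) * a = (a * a) * (e * a) := by group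
      _ = e * a := by rw [aa, one_mul]
  have ar : a * r = r⁻¹ * a := by rwa [mul_inv_eq_iff_eq_mul] at hra
  have r4 : r ^ 4 = 1 := by
    calc r ^ 4 = (r * r) * (r * r) := by simp only [pow_succ, pow_zero, one_mul, mul_assoc]
      _ = 1 := by rw [rr, zz]
  have ho : orderOf r ∣ 4 := orderOf_dvd_of_pow_eq_one r4
  have hz4 : ∀ u ∈ zpowers r, ∃ n < 4, u = r ^ n := by
    intro u hu
    obtain ⟨n, rfl⟩ := mem_zpowers_iff.1 hu
    refine ⟨(n % 4).toNat, by omega, ?_⟩
    rw [← zpow_natCast, Int.toNat_of_nonneg (Int.emod_nonneg n (by norm_num))]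
    have h1 : r ^ (4 : ℤ) = 1 := by exact_mod_cast r4
    conv_lhs => rw [← Int.emod_add_mul_ediv n 4]
    rw [zpow_add, zpow_mul, h1, one_zpow, mul_one]
  have r1 : r ≠ 1 := by
    intro h; rw [h, one_mul] at rr; exact z1 rr.symm
  have hrz : r * z = z * r := by rw [← rr]; group
  have hK : zpowers (a * e) = zpowers r := by rw [hr]
  rw [hK]
  have uniq : ∀ u ∈ zpowers r, u * u = 1 → u = 1 ∨ u = z := by
    intro u hu huu
    obtain ⟨n, hn, rfl⟩ := hz4 u hu
    have hn' : n = 0 ∨ n = 1 ∨ n = 2 ∨ n = 3 := by omega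
    rcases hn' with rfl | rfl | rfl | rfl
    · left; rw [pow_zero]
    · exfalso; rw [pow_one, rr] at huu; exact z1 huu
    · right; rw [pow_two, rr]
    · exfalso
      apply z1
      calc z = r * r * (r ^ 4) := by rw [r4, mul_one, rr]
        _ = r ^ 3 * r ^ 3 := by group
        _ = 1 := huu
  have inv' : ∀ u ∈ zpowers r, a * u * a⁻¹ = u⁻¹ := by
    intro u hu
    obtain ⟨n, hn, rfl⟩ := hz4 u hu
    have : (a * r * a⁻¹) ^ n = a * r ^ n * a⁻¹ := conj_pow
    rw [← this, hra, inv_pow]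
  have sK : a ∉ zpowers r := by
    intro h
    rcases uniq a h aa with h1 | h1
    · rw [h1, one_mul] at hr
      rw [hr, ee] at rr
      exact z1 rr.symm
    · rw [h1] at hr
      rw [hr] at rr
      apply z1
      calc z = z * e * (z * e) := rr.symm
        _ = z * (e * z) * e := by group
        _ = 1 := by rw [ez, ← mul_assoc, zz, one_mul, ee]
  have ct' : ∀ x : X, x * z = z * x → x ∈ zpowers r ∨ x * a ∈ zpowers r := by
    intro x hx
    obtain ⟨b, m, hb, hm, rfl⟩ := ct x hx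
    have hbK : b ∈ zpowers r := by
      rcases hb with rfl | rfl
      · exact one_mem _
      · rw [← rr]; exact mul_mem (mem_zpowers r) (mem_zpowers r)
    rcases hm with rfl | rfl | rfl | rfl
    · left; rw [mul_one]; exact hbK
    · right; rw [mul_assoc, aa, mul_one]; exact hbK
    · right
      rw [mul_assoc]
      refine mul_mem hbK ?_
      have : m * a = r⁻¹ := by rw [hr, mul_inv_rev, ai, ei]
      rw [this]; exact inv_mem (mem_zpowers r)
    · left
      rw [← hr]; exact mul_mem hbK (mem_zpowers r)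
  refine ⟨?_, ?_, z1, zz, uniq, sK, aa, inv', ct', ?_, cj⟩
  · intro u hu v hv
    obtain ⟨n, -, rfl⟩ := hz4 u hu
    obtain ⟨m, -, rfl⟩ := hz4 v hv
    rw [← pow_add, ← pow_add, add_comm]
  · rw [← rr]; exact mul_mem (mem_zpowers r) (mem_zpowers r)
  · intro u hu hu1 huz x hx
    obtain ⟨n, hn, rfl⟩ := hz4 u hu
    have hn' : n = 0 ∨ n = 1 ∨ n = 2 ∨ n = 3 := by omega
    have hxr : x * r = r * x := by
      rcases hn' with rfl | rfl | rfl | rfl
      · exact absurd (pow_zero r) hu1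
      · simpa using hx
      · exact absurd (by rw [pow_two, rr]) huz
      · have h1 : Commute x (r ^ 3) := hx
        have h2 : r = (r ^ 3) ^ 3 := by
          calc r = r ^ 4 * r ^ 4 * r := by rw [r4, one_mul, one_mul]
            _ = (r ^ 3) ^ 3 := by group
        rw [h2]; exact h1.pow_right 3
    have hxz : x * z = z * x := by
      rw [← rr]
      have : Commute x r := hxr
      exact this.mul_right this
    rcases ct' x hxz with h | h
    · exact h
    · exfalso
      obtain ⟨k, -, hk⟩ := hz4 _ h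
      have h2 : Commute (x * a) r := by rw [hk]; exact (Commute.refl r).pow_left k
      have h3 : Commute a r := by
        have h4 : Commute x⁻¹ r := (show Commute x r from hxr).inv_left
        have h5 : Commute (x⁻¹ * (x * a)) r := h4.mul_left h2
        rwa [inv_mul_cancel_left] at h5
      rw [h3.eq, mul_inv_cancel_right] at hra
      apply z1
      rw [← rr]
      nth_rewrite 1 [hra]
      exact inv_mul_cancel r

end quot

end Cfsg.Agent.LE.J3U
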