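import Cfsg.Agent.LE.J3U.Bsw
import Mathlib.LinearAlgebra.Matrix.Charpoly.LinearMap

/-!
# Groups of `J₃` type, VII: element orders in the centralizer of `y` (owner: helper80)
-/
set_option autoImplicit false
set_option linter.all false

namespace Cfsg.Agent.LE.J3U

open Subgroup Cfsg.Agent.H90 Equiv Cfsg.Agent.LE Cfsg.Agent.LE.J2U Cfsg.Agent.CosetEnum

universe u

section psl

open Matrix Polynomial

theorem nil_two {F : Type*} [Field F] (N : Matrix (Fin 2) (Fin 2) F) (h : IsNilpotent N) : N ^ 2 = 0 := by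
  have h1 := Matrix.isNilpotent_charpoly_sub_pow_of_isNilpotent h
  have h2 : N.charpoly = X ^ 2 := by
    have := h1.eq_zero
    rw [sub_eq_zero] at this
    simpa using this
  have h3 := Matrix.aeval_self_charpoly N
  rw [h2] at h3
  simpa using h3

theorem pow_three_of_pow_nine {F : Type*} [Field F] [CharP F 3]
    (w : Matrix.ProjectiveSpecialLinearGroup (Fin 2) F) (hw : w ^ 9 = 1) : w ^ 3 = 1 := by
  induction w using QuotientGroup.induction_on with
  | H A =>
    have h1 : A ^ 9 ∈ center (Matrix.SpecialLinearGroup (Fin 2) F) := by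
      rw [← QuotientGroup.eq_one_iff, QuotientGroup.mk_pow]
      exact hw
    rw [Matrix.SpecialLinearGroup.mem_center_iff] at h1
    obtain ⟨r, hr, hA⟩ := h1
    rw [Fintype.card_fin] at hr
    have hA' : (A : Matrix (Fin 2) (Fin 2) F) ^ 9 = Matrix.scalar (Fin 2) r := by
      rw [hA]; simp
    obtain ⟨B, hB⟩ : ∃ B : Matrix (Fin 2) (Fin 2) F, B = r • (A : Matrix (Fin 2) (Fin 2) F) := ⟨_, rfl⟩
    have hr9 : r ^ 9 = r := by
      have : r ^ 9 = (r ^ 2) ^ 4 * r := by ring
      rw [this, hr, one_pow, one_mul]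
    have hB9 : B ^ 9 = 1 := by
      rw [hB, _root_.smul_pow, hA', hr9]
      ext i j
      fin_cases i <;> fin_cases j <;> simp [Matrix.scalar, ← pow_two, hr]
    have hnil : (B - 1) ^ 9 = 0 := by
      have h3 : (B - 1) ^ 3 ^ 2 = B ^ 3 ^ 2 - 1 ^ 3 ^ 2 := sub_pow_char_pow_of_commute 3 2 (Commute.one_right B)
      norm_num at h3
      rw [h3, hB9, sub_self]
    have h2 := nil_two (B - 1) ⟨9, hnil⟩
    have h3 : (B - 1) ^ 3 = 0 := by rw [pow_succ, h2, zero_mul]
    have h4 : B ^ 3 = 1 := by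
      have h5 : (B - 1) ^ 3 = B ^ 3 - 1 ^ 3 := sub_pow_char_of_commute 3 (Commute.one_right B)
      rw [h3, one_pow] at h5
      exact (sub_eq_zero.1 h5.symm)
    have h5 : (A : Matrix (Fin 2) (Fin 2) F) ^ 3 = Matrix.scalar (Fin 2) r := by
      have h6 : r ^ 3 • (A : Matrix (Fin 2) (Fin 2) F) ^ 3 = 1 := by rw [← _root_.smul_pow, ← hB, h4]
      have hr3 : r ^ 3 = r := by
        have : r ^ 3 = r ^ 2 * r := by ring
        rw [this, hr, one_mul]
      rw [hr3] at h6
      calc (A : Matrix (Fin 2) (Fin 2) F) ^ 3 = r ^ 2 • (A : Matrix (Fin 2) (Fin 2) F) ^ 3 := by rw [hr, one_smul]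
        _ = r • (r • (A : Matrix (Fin 2) (Fin 2) F) ^ 3) := by rw [smul_smul, pow_two]
        _ = r • (1 : Matrix (Fin 2) (Fin 2) F) := by rw [h6]
        _ = _ := by rw [Matrix.scalar_apply, Matrix.smul_one_eq_diagonal]
    have h7 : A ^ 3 ∈ center (Matrix.SpecialLinearGroup (Fin 2) F) := by
      rw [Matrix.SpecialLinearGroup.mem_center_iff]
      refine ⟨r, by rw [Fintype.card_fin]; exact hr, ?_⟩
      rw [← h5]; simp
    rw [← QuotientGroup.eq_one_iff, QuotientGroup.mk_pow] at h7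
    exact h7

theorem card_nine {F : Type*} [Field F] [Fintype F] (hodd : Odd (Fintype.card F))
    (h : Nat.card (Matrix.ProjectiveSpecialLinearGroup (Fin 2) F) = 360) : Fintype.card F = 9 := by
  have h1 := H14.SubField.card_PSL2_odd hodd
  rw [h] at h1
  obtain ⟨r, hr⟩ : ∃ r, r = Fintype.card F := ⟨_, rfl⟩
  rw [← hr] at h1 ⊢
  have h2 : r < 10 := by
    by_contra h3
    push Not at h3
    have h4 : 9 ≤ r - 1 := by omega
    have h5 : 11 ≤ r + 1 := by omega
    have h6 : 10 * (9 * 11) ≤ r * ((r - 1) * (r + 1)) := Nat.mul_le_mul h3 (Nat.mul_le_mul h4 h5)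
    omega
  interval_cases r <;> omega

end psl

section conf

variable {X : Type u} [Group X] [Finite X] {K : Subgroup X} {t s : X}

theorem no_nine (H : BSW.Conf K t s) (hk : 4 ≤ Nat.card K) (hX : Nat.card X = 360) {w : X} (hw : w ^ 9 = 1) : w ^ 3 = 1 := by
  obtain ⟨F, _, _, hodd, ⟨e⟩⟩ := BSW.psl_of_conf H hk
  have h1 : Nat.card (Matrix.ProjectiveSpecialLinearGroup (Fin 2) F) = 360 := by
    rw [← Nat.card_congr e.toEquiv, hX]
  have h2 := card_nine hodd h1
  haveI : CharP F 3 := by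
    obtain ⟨p, hp⟩ := CharP.exists F
    obtain ⟨n, hp', hc⟩ := FiniteField.card F p
    rw [h2] at hc
    have h3 : p ∣ 9 := by rw [hc]; exact dvd_pow_self p n.pos.ne'
    have h4 : p ∣ 3 := by
      have : (9 : ℕ) = 3 ^ 2 := by norm_num
      rw [this] at h3
      exact hp'.dvd_of_dvd_pow h3
    have h5 : p = 3 := (Nat.prime_dvd_prime_iff_eq hp' Nat.prime_three).1 h4
    rwa [h5] at hp
  apply e.injective
  rw [map_pow, map_one]
  apply pow_three_of_pow_nine
  rw [← map_pow, hw, map_one]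

theorem prime_pow_of {w : X} {p : ℕ} (hp : p.Prime) (h : ∀ r : ℕ, r.Prime → r ∣ orderOf w → r = p) :
    ∃ k, orderOf w = p ^ k :=
  ⟨_, Nat.eq_prime_pow_of_unique_prime_dvd (orderOf_pos w).ne' fun {r} hr hd => h r hr hd⟩

theorem conf_orders (H : BSW.Conf K t s) (hk : Nat.card K = 4) :
    (∀ w : X, ∃ n, (n = 3 ∨ n = 4 ∨ n = 5) ∧ w ^ n = 1) ∨ (∀ w : X, ∃ n, (n = 3 ∨ n = 4 ∨ n = 7) ∧ w ^ n = 1) := by
  letI := Fintype.ofFinite X
  obtain ⟨δ, q, ψ, χ, ν, Dt⟩ := H.exists_data (by omega : 4 ≤ Nat.card K)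
  have hn0 : 0 ≤ (Nat.card K : ℤ) + δ := by
    rcases Dt.hδ with h | h <;> rw [h] <;> omega
  obtain ⟨n, hn⟩ : ∃ n : ℕ, (n : ℤ) = Nat.card K + δ := ⟨_, Int.toNat_of_nonneg hn0⟩
  have N : BSW.Num (Nat.card K) q n (Nat.card X) δ := by
    refine ⟨Dt.hδ, (by omega), H.even_card, hn, Dt.hq, ?_⟩
    have := Dt.hg
    rw [← hn] at this
    exact_mod_cast this
  have hK4 : ∀ w : X, (∃ g : X, g * w * g⁻¹ ∈ K) → w ^ 4 = 1 := by
    rintro w ⟨g, hg⟩
    have h1 : (⟨g * w * g⁻¹, hg⟩ : K) ^ Nat.card K = 1 := pow_card_eq_one'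
    rw [hk] at h1
    have h2 : (g * w * g⁻¹) ^ 4 = 1 := congrArg Subtype.val h1
    rw [conj_pow] at h2
    calc w ^ 4 = g⁻¹ * (g * w ^ 4 * g⁻¹) * g := by group
      _ = 1 := by rw [h2]; group
  have hg := N.hg
  have hnn := N.hn
  have hqq := N.hq
  rw [hk] at hg hnn hqq
  rcases N.hδ with h | h
  · left
    have hn5 : n = 5 := by rw [h] at hnn; omega
    have hq9 : q = 9 := by rw [h] at hqq; omega
    rw [hn5, hq9] at hg
    have hX : Nat.card X = 360 := by rw [hg]
    intro w
    by_cases hw : w = 1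
    · exact ⟨3, Or.inl rfl, by rw [hw, one_pow]⟩
    rcases BSW.trichotomy H Dt N hw with ⟨-, h1⟩ | ⟨-, -, h1⟩ | ⟨-, -, h1⟩
    · exact ⟨4, Or.inr (Or.inl rfl), hK4 w h1⟩
    · obtain ⟨k, hk'⟩ := prime_pow_of (w := w) Nat.prime_three (by
        intro r hr hd
        have h2 := h1 r hr hd
        rw [hq9, show (9 : ℕ) = 3 ^ 2 by norm_num] at h2
        exact (Nat.prime_dvd_prime_iff_eq hr Nat.prime_three).1 (hr.dvd_of_dvd_pow h2))
      have h2 : 3 ^ k ∣ 360 := by rw [← hk', ← hX]; exact orderOf_dvd_natCard w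
      have h3 : k ≤ 2 := by
        by_contra h4
        have h5 : 3 ^ 3 ∣ 360 := (pow_dvd_pow 3 (by omega)).trans h2
        norm_num at h5
      have h4 : w ^ 9 = 1 := by
        apply orderOf_dvd_iff_pow_eq_one.1
        rw [hk', show (9 : ℕ) = 3 ^ 2 by norm_num]
        exact pow_dvd_pow 3 h3
      exact ⟨3, Or.inl rfl, no_nine H (by omega) hX h4⟩
    · obtain ⟨k, hk'⟩ := prime_pow_of (w := w) Nat.prime_five (by
        intro r hr hd
        have h2 := h1 r hr hd
        rw [hn5] at h2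
        exact (Nat.prime_dvd_prime_iff_eq hr Nat.prime_five).1 h2)
      have h2 : 5 ^ k ∣ 360 := by rw [← hk', ← hX]; exact orderOf_dvd_natCard w
      have h3 : k ≤ 1 := by
        by_contra h4
        have h5 : 5 ^ 2 ∣ 360 := (pow_dvd_pow 5 (by omega)).trans h2
        norm_num at h5
      refine ⟨5, Or.inr (Or.inr rfl), ?_⟩
      apply orderOf_dvd_iff_pow_eq_one.1
      rw [hk']
      exact (pow_dvd_pow 5 h3).trans (by norm_num)
  · right
    have hn5 : n = 3 := by rw [h] at hnn; omega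
    have hq9 : q = 7 := by rw [h] at hqq; omega
    rw [hn5, hq9] at hg
    have hX : Nat.card X = 168 := by rw [hg]
    intro w
    by_cases hw : w = 1
    · exact ⟨3, Or.inl rfl, by rw [hw, one_pow]⟩
    have p7 : Nat.Prime 7 := by norm_num
    rcases BSW.trichotomy H Dt N hw with ⟨-, h1⟩ | ⟨-, -, h1⟩ | ⟨-, -, h1⟩
    · exact ⟨4, Or.inr (Or.inl rfl), hK4 w h1⟩
    · obtain ⟨k, hk'⟩ := prime_pow_of (w := w) p7 (by
        intro r hr hd
        have h2 := h1 r hr hd
        rw [hq9] at h2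
        exact (Nat.prime_dvd_prime_iff_eq hr p7).1 h2)
      have h2 : 7 ^ k ∣ 168 := by rw [← hk', ← hX]; exact orderOf_dvd_natCard w
      have h3 : k ≤ 1 := by
        by_contra h4
        have h5 : 7 ^ 2 ∣ 168 := (pow_dvd_pow 7 (by omega)).trans h2
        norm_num at h5
      refine ⟨7, Or.inr (Or.inr rfl), ?_⟩
      apply orderOf_dvd_iff_pow_eq_one.1
      rw [hk']
      exact (pow_dvd_pow 7 h3).trans (by norm_num)
    · obtain ⟨k, hk'⟩ := prime_pow_of (w := w) Nat.prime_three (by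
        intro r hr hd
        have h2 := h1 r hr hd
        rw [hn5] at h2
        exact (Nat.prime_dvd_prime_iff_eq hr Nat.prime_three).1 h2)
      have h2 : 3 ^ k ∣ 168 := by rw [← hk', ← hX]; exact orderOf_dvd_natCard w
      have h3 : k ≤ 1 := by
        by_contra h4
        have h5 : 3 ^ 2 ∣ 168 := (pow_dvd_pow 3 (by omega)).trans h2
        norm_num at h5
      refine ⟨3, Or.inl rfl, ?_⟩
      apply orderOf_dvd_iff_pow_eq_one.1
      rw [hk']
      exact (pow_dvd_pow 3 h3).trans (by norm_num)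

end conf

section quotient

variable {G : Type u} [Group G]

/-- the subgroup `⟨y⟩` of `C(y)` -/
def Ny (y : G) : Subgroup (centralizer ({y} : Set G)) := (zpowers y).subgroupOf (centralizer ({y} : Set G))

instance (y : G) : (Ny y).Normal := by
  constructor
  intro n hn g
  rw [Ny, mem_subgroupOf] at hn ⊢
  have hg := mem_centralizer_singleton_iff.1 g.2
  obtain ⟨k, hk⟩ := mem_zpowers_iff.1 hn
  have h1 : Commute (g : G) (n : G) := by
    rw [← hk]; exact (show Commute (g : G) y from hg).zpow_right k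
  have h2 : ((g * n * g⁻¹ : centralizer ({y} : Set G)) : G) = n := by
    show (g : G) * (n : G) * (g : G)⁻¹ = n
    rw [h1.eq, mul_inv_cancel_right]
  rw [h2]; exact hn

/-- `C(y)/⟨y⟩` -/
abbrev Cb (y : G) : Type u := centralizer ({y} : Set G) ⧸ Ny y

open Classical in
/-- the image of an element -/
noncomputable def mq (y u : G) : Cb y :=
  if hu : u * y = y * u then QuotientGroup.mk (⟨u, mem_centralizer_singleton_iff.2 hu⟩ : centralizer ({y} : Set G))
  else 1

theorem mq_def {y u : G} (hu : u * y = y * u) :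
    mq y u = QuotientGroup.mk (⟨u, mem_centralizer_singleton_iff.2 hu⟩ : centralizer ({y} : Set G)) := by
  rw [mq, dif_pos hu]

theorem mq_mul {y u v : G} (hu : u * y = y * u) (hv : v * y = y * v) : mq y (u * v) = mq y u * mq y v := by
  have huv : (u * v) * y = y * (u * v) := (show Commute u y from hu).mul_left hv
  rw [mq_def hu, mq_def hv, mq_def huv]; rfl

theorem mq_one (y : G) : mq y 1 = 1 := by
  rw [mq_def (by simp)]; rfl

theorem mq_inv {y u : G} (hu : u * y = y * u) : mq y u⁻¹ = (mq y u)⁻¹ := by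
  have huv : u⁻¹ * y = y * u⁻¹ := (show Commute u y from hu).inv_left
  rw [mq_def hu, mq_def huv]; rfl

theorem mq_pow {y u : G} (hu : u * y = y * u) (n : ℕ) : mq y (u ^ n) = (mq y u) ^ n := by
  have huv : u ^ n * y = y * u ^ n := (show Commute u y from hu).pow_left n
  rw [mq_def hu, mq_def huv]; rfl

theorem mq_eq_one {y u : G} (hu : u * y = y * u) : mq y u = 1 ↔ u ∈ zpowers y := by
  rw [mq_def hu, QuotientGroup.eq_one_iff, Ny, mem_subgroupOf]

theorem mq_surj {y : G} (x : Cb y) : ∃ u : G, u * y = y * u ∧ x = mq y u := by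
  induction x using QuotientGroup.induction_on with
  | H a => exact ⟨a, mem_centralizer_singleton_iff.1 a.2, (mq_def (mem_centralizer_singleton_iff.1 a.2)).symm⟩

theorem mq_eq {y u v : G} (hu : u * y = y * u) (hv : v * y = y * v) (h : mq y u = mq y v) : u⁻¹ * v ∈ zpowers y := by
  rw [mq_def hu, mq_def hv] at h
  have h2 := QuotientGroup.eq.1 h
  rw [Ny, mem_subgroupOf] at h2
  exact h2

end quotient

namespace C3

variable {G : Type u} [Group G] [Finite G] {Q : Subgroup G} {z f y a : G} (c : C3 Q z f y a)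
include c

theorem y3z (n : ℤ) : (y ^ n) ^ 3 = 1 := by
  have h3 : y ^ 3 = 1 := by rw [pow_succ, pow_two]; exact c.F.fy.yyy
  rw [← zpow_natCast, ← zpow_mul, mul_comm, zpow_mul, zpow_natCast, h3, one_zpow]

theorem one_of_sq {u : G} (hu : u ∈ zpowers y) (h2 : u * u = 1) : u = 1 := by
  obtain ⟨n, rfl⟩ := mem_zpowers_iff.1 hu
  have h3 := c.y3z n
  rw [pow_succ, pow_two, h2, one_mul] at h3
  exact h3

theorem zbar : z ∉ zpowers y := fun h => c.B.pl.ne_one (c.one_of_sq h c.F.zz)

/-- the relations in the quotient -/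
theorem bar {k w : G} (E : E3 f y k z a (tp a f y 4) w) :
    mq y z * mq y z = 1 ∧ mq y a * mq y a = 1 ∧ mq y (tp a f y 4) * mq y (tp a f y 4) = 1 ∧
    mq y a * mq y z = mq y z * mq y a ∧ mq y (tp a f y 4) * mq y z = mq y z * mq y (tp a f y 4) ∧
    mq y a * mq y (tp a f y 4) = mq y z * (mq y (tp a f y 4) * mq y a) ∧ mq y z ≠ 1 := by
  have ey := c.y_e.symm
  have zy : z * y = y * z := c.F.yz.symm
  have ay : a * y = y * a := c.F.ya.symm
  obtain ⟨e, he⟩ : ∃ e, e = tp a f y 4 := ⟨_, rfl⟩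
  rw [← he] at ey ⊢
  have zz := E.zz
  have aa := E.aa
  have ee := E.ee
  have az := E.az
  have ez := E.ez
  have ae := E.ae
  rw [← he] at ee ez ae
  refine ⟨?_, ?_, ?_, ?_, ?_, ?_, ?_⟩
  · rw [← mq_mul zy zy, zz, mq_one]
  · rw [← mq_mul ay ay, aa, mq_one]
  · rw [← mq_mul ey ey, ee, mq_one]
  · rw [← mq_mul ay zy, ← mq_mul zy ay, az]
  · rw [← mq_mul ey zy, ← mq_mul zy ey, ez]
  · have eay : (e * a) * y = y * (e * a) := (show Commute e y from ey).mul_left ay
    rw [← mq_mul ay ey, ← mq_mul ey ay, ← mq_mul zy eay, ae]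
  · rw [ne_eq, mq_eq_one zy]; exact c.zbar

theorem conf {k w : G} (E : E3 f y k z a (tp a f y 4) w) :
    BSW.Conf (zpowers (mq y a * mq y (tp a f y 4))) (mq y z) (mq y a) ∧
    Nat.card (zpowers (mq y a * mq y (tp a f y 4))) = 4 := by
  obtain ⟨zzb, aab, eeb, azb, ezb, aeb, z1⟩ := c.bar E
  have ey := c.y_e.symm
  have zy : z * y = y * z := c.F.yz.symm
  have ay : a * y = y * a := c.F.ya.symm
  obtain ⟨e, he⟩ : ∃ e, e = tp a f y 4 := ⟨_, rfl⟩
  rw [← he] at ey eeb ezb aeb ⊢
  have zz := E.zz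
  have yyy := E.yyy
  have C : BSW.Conf (zpowers (mq y a * mq y e)) (mq y z) (mq y a) := by
    refine conf_of zzb aab eeb azb ezb aeb z1 ?_ ?_
    · intro x hx
      obtain ⟨u, hu, rfl⟩ := mq_surj x
      have hzu : (z * u) * y = y * (z * u) := (show Commute z y from zy).mul_left hu
      have huz : (u * z) * y = y * (u * z) := (show Commute u y from hu).mul_left zy
      rw [← mq_mul hu zy, ← mq_mul zy hu] at hx
      have h1 : (z * u)⁻¹ * (u * z) ∈ zpowers y := mq_eq hzu huz hx.symm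
      have h3 : (z * u)⁻¹ * (u * z) = 1 := by
        have zi : z⁻¹ = z := inv_eq_of_mul_eq_one_left zz
        obtain ⟨n, hn⟩ := mem_zpowers_iff.1 h1
        have h4 : (u⁻¹ * z * u) * z = y ^ n := by
          rw [hn, mul_inv_rev, zi]; group
        have h5 : u⁻¹ * z * u = y ^ n * z := by
          rw [← h4, mul_assoc _ z z, zz, mul_one]
        have h6 : (y ^ n * z) * (y ^ n * z) = 1 := by
          rw [← h5]
          calc u⁻¹ * z * u * (u⁻¹ * z * u) = u⁻¹ * (z * z) * u := by group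
            _ = 1 := by rw [zz]; group
        have h7 : z * y ^ n = y ^ n * z := (show Commute z y from zy).zpow_right n
        have h8 : y ^ n * y ^ n = 1 := by
          calc y ^ n * y ^ n = y ^ n * (y ^ n * (z * z)) := by rw [zz, mul_one]
            _ = y ^ n * (y ^ n * z) * z := by group
            _ = y ^ n * (z * y ^ n) * z := by rw [← h7]
            _ = (y ^ n * z) * (y ^ n * z) := by group
            _ = 1 := h6
        rw [← hn]
        exact c.one_of_sq (zpow_mem (mem_zpowers y) n) h8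
      have h4 : u * z = z * u := by
        have := inv_mul_eq_one.1 h3
        exact this.symm
      obtain ⟨b, m, hm, i, hi, hu'⟩ := c.cent_yz h4 hu
      have hbz : zp z b * y = y * zp z b := (zp_comm c.F.yz b).symm
      have hyi : y ^ i * y = y * y ^ i := by rw [← pow_succ, ← pow_succ']
      have hyi1 : mq y (y ^ i) = 1 := (mq_eq_one hyi).2 (pow_mem (mem_zpowers y) i)
      have hb : mq y (zp z b) = 1 ∨ mq y (zp z b) = mq y z := by
        rcases zp_cases (z := z) b with ⟨_, h2⟩ | ⟨_, h2⟩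
        · left; rw [h2, mq_one]
        · right; rw [h2]
      rw [← he] at hm
      have hmy : m * y = y * m := by
        rcases hm with rfl | rfl | rfl | rfl
        · simp
        · exact ay
        · exact ey
        · exact (show Commute a y from ay).mul_left ey
      refine ⟨mq y (zp z b), mq y m, hb, ?_, ?_⟩
      · rcases hm with h | h | h | h
        · left; rw [h, mq_one]
        · right; left; rw [h]
        · right; right; left; rw [h]
        · right; right; right; rw [h, mq_mul ay ey]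
      · have hbm : (zp z b * m) * y = y * (zp z b * m) := (show Commute (zp z b) y from hbz).mul_left hmy
        rw [hu', mq_mul hbm hyi, mq_mul hbz hmy, hyi1, mul_one]
    · intro x hx1 hx2
      obtain ⟨u, hu, rfl⟩ := mq_surj x
      have huu : (u * u) * y = y * (u * u) := (show Commute u y from hu).mul_left hu
      rw [← mq_mul hu hu, mq_eq_one huu] at hx2
      obtain ⟨n, hn⟩ := mem_zpowers_iff.1 hx2
      have hyn : y ^ n * y = y * y ^ n := ((Commute.refl y).zpow_left n)
      have huy : Commute u (y ^ n) := (show Commute u y from hu).zpow_right n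
      have hv2 : (u * y ^ n) * (u * y ^ n) = 1 := by
        calc (u * y ^ n) * (u * y ^ n) = u * (y ^ n * u) * y ^ n := by group
          _ = (u * u) * (y ^ n * y ^ n) := by rw [← huy.eq]; group
          _ = (y ^ n) ^ 3 := by rw [← hn]; simp only [pow_succ, pow_zero, one_mul, mul_assoc]
          _ = 1 := c.y3z n
      have hvy : (u * y ^ n) * y = y * (u * y ^ n) := (show Commute u y from hu).mul_left hyn
      have hq : mq y (u * y ^ n) = mq y u := by
        rw [mq_mul hu hyn, (mq_eq_one hyn).2 (zpow_mem (mem_zpowers y) n), mul_one]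
      have hv1 : u * y ^ n ≠ 1 := by
        intro h
        apply hx1
        rw [← hq, h, mq_one]
      obtain ⟨g, hg, hgz⟩ := c.conj_in_Cy E.wz E.wy E.ww hv2 hv1 hvy
      have hgi : g⁻¹ * y = y * g⁻¹ := (show Commute g y from hg).inv_left
      have hgv : (g * (u * y ^ n)) * y = y * (g * (u * y ^ n)) := (show Commute g y from hg).mul_left hvy
      exact ⟨mq y g, by rw [← hq, ← mq_inv hg, ← mq_mul hg hvy, ← mq_mul hgv hgi, hgz]⟩
  refine ⟨C, ?_⟩
  have h1 : (mq y a * mq y e) * (mq y a * mq y e) = mq y z := by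
    calc (mq y a * mq y e) * (mq y a * mq y e)
        = (mq y z * (mq y e * mq y a)) * (mq y a * mq y e) := congrArg (· * (mq y a * mq y e)) aeb
      _ = mq y z * mq y e * (mq y a * mq y a) * mq y e := by group
      _ = mq y z := by rw [aab, mul_one, mul_assoc, eeb, mul_one]
  rw [Nat.card_zpowers]
  have h2 : orderOf (mq y a * mq y e) = 2 ^ 2 := by
    apply orderOf_eq_prime_pow
    · rw [pow_one, pow_two, h1]; exact z1
    · rw [show 2 ^ (1 + 1) = 4 by norm_num, pow_succ, pow_succ, pow_two, mul_assoc, h1, zzb]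
  rw [h2]; norm_num

/-- orders modulo `y` of the elements commuting with `y` -/
theorem orders {k w : G} (E : E3 f y k z a (tp a f y 4) w) :
    (∀ u : G, u * y = y * u → ∃ n, (n = 3 ∨ n = 4 ∨ n = 5) ∧ u ^ n ∈ zpowers y) ∨
    (∀ u : G, u * y = y * u → ∃ n, (n = 3 ∨ n = 4 ∨ n = 7) ∧ u ^ n ∈ zpowers y) := by
  obtain ⟨C, hC⟩ := c.conf E
  rcases conf_orders C hC with h | h
  · left
    intro u hu
    obtain ⟨n, hn, h1⟩ := h (mq y u)
    have hun : u ^ n * y = y * u ^ n := (show Commute u y from hu).pow_left n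
    exact ⟨n, hn, (mq_eq_one hun).1 (by rw [mq_pow hu]; exact h1)⟩
  · right
    intro u hu
    obtain ⟨n, hn, h1⟩ := h (mq y u)
    have hun : u ^ n * y = y * u ^ n := (show Commute u y from hu).pow_left n
    exact ⟨n, hn, (mq_eq_one hun).1 (by rw [mq_pow hu]; exact h1)⟩

end C3

end Cfsg.Agent.LE.J3U
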