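import Cfsg.Agent.LE.J3U.C1Data

/-! Coset enumeration certificate (generated; owner: helper80, tool of helper28). -/

set_option autoImplicit false
set_option maxRecDepth 1000000

namespace Cfsg.Agent.CosetEnum.J3U
open Cfsg.Agent.CosetEnum Cfsg.Agent.CosetEnum.Part
namespace C1

def ck2 : CP := .cons 64 0x32011034800881e4010400040420000880e4001480440920000002011010812400088024002400201901480048044006400148000020002000a4000401200900000400440024014439200900190206a4041002100012000040020110000202101880488184012000200044002402200104052000e400000c40084004400a40520000880009 ( .cons 64 0x880001200100032049000900110005203100010208000220002009002100481040520090000c4008404200144002080640320490009000020510031005900110048024000080008024002c81040024012400a40000901880640220000190039000814400205101880a40620000480019002100880009 ( .cons 64 0x24052001000101480440220052000000200220290008200000808403200100c80088000024000c800310000c401200900032009003100190048014816400a4012019001902c800410048064002009000120001c80c400c40d20000080a40220002880000048003900080001200320410004200901080440420210008000020070405200520010088004052001 ( .cons 64 0x6400a400088003900022000200020008401205900002000c400c400200a201901c800400a4062001508024482040d280620110001200101080240003900080c400a400148064002480011002100082000e4022000a40920062000440420002000c48064000400240120000400200320002005200e200100080008024092001 ( .cons 64 0x900080c400a4002000e4032021018800080a406201101c8084032001200100062029001101c810400200020010008000800400019000902480640420032009006100081040520090019003100000403200184022001000104032008202100010001204900022029002900080a401240520110009200c20310000240820110003200900310011000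 ( .cons 64 0x42004201900480a400002202100010009000d2029000900310001200900000090029018800480440720022000240044000310007200320001080000000009004802400019000900000000405203100490009 ( .cons 36 0x24002000000019018800012000e4010402204100004480640a20000000012008202100480040620000c8 ( .nil )))))))

theorem part2 : Part.chunks P L 8484 ck2 8064 = true := by decide +kernel

end C1
end Cfsg.Agent.CosetEnum.J3U
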