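import Cfsg.Agent.LE.J3U.Inv

/-!
# Groups of `J₃` type, II: the context (owner: helper80)
-/
set_option autoImplicit false
set_option linter.all false

namespace Cfsg.Agent.LE.J3U

open Subgroup Cfsg.Agent.H90 Equiv Cfsg.Agent.LE Cfsg.Agent.LE.J2U

variable {G : Type*} [Group G]

/-- the situation after the choice of the points -/
structure C3 (Q : Subgroup G) (z f y a : G) : Prop where
  B : Base Q z (tp a f y)
  F : Four z a f y
  aQ : a ∈ Q
  oc : ∀ u : G, u * u = 1 → u ≠ 1 → ∃ g : G, g * z * g⁻¹ = u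

theorem fy_of_three {f y : G} (ff : f * f = 1) (yyy : y * y * y = 1) (h : (f * y) * (f * y) * (f * y) = 1) :
    FY f y := by
  have fi : f⁻¹ = f := inv_eq_of_mul_eq_one_left ff
  have yi : y⁻¹ = y * y := inv_eq_of_mul_eq_one_left yyy
  have h1 : f * y * f = y⁻¹ * f * y⁻¹ := by
    calc f * y * f = ((f * y) * (f * y) * (f * y)) * (y⁻¹ * f⁻¹ * y⁻¹) := by group
      _ = y⁻¹ * f * y⁻¹ := by rw [h, fi, one_mul]
  have h2 : f * y⁻¹ * f = y * f * y := by
    calc f * y⁻¹ * f = (f * y * f)⁻¹ := by rw [mul_inv_rev, mul_inv_rev, fi, mul_assoc]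
      _ = y * f * y := by rw [h1, mul_inv_rev, mul_inv_rev, inv_inv, fi, mul_assoc]
  have h3 : f * (y⁻¹ * f * y) = y * f * y⁻¹ := by
    calc f * (y⁻¹ * f * y) = (f * y⁻¹ * f) * y := by group
      _ = y * f * (y * y) := by rw [h2]; group
      _ = y * f * y⁻¹ := by rw [yi]
  refine ⟨ff, yyy, h3, ?_⟩
  have h4 : (f * (y⁻¹ * f * y)) * (f * (y⁻¹ * f * y)) = 1 := by
    rw [h3]
    calc y * f * y⁻¹ * (y * f * y⁻¹) = y * (f * f) * y⁻¹ := by group
      _ = 1 := by rw [ff]; group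
  have h5 : (y⁻¹ * f * y) * (y⁻¹ * f * y) = 1 := by
    calc y⁻¹ * f * y * (y⁻¹ * f * y) = y⁻¹ * (f * f) * y := by group
      _ = 1 := by rw [ff]; group
  calc f * (y⁻¹ * f * y) = (f * (y⁻¹ * f * y))⁻¹ := (inv_eq_of_mul_eq_one_left h4).symm
    _ = (y⁻¹ * f * y)⁻¹ * f⁻¹ := mul_inv_rev _ _
    _ = (y⁻¹ * f * y) * f := by rw [fi, inv_eq_of_mul_eq_one_left h5]

variable [Finite G] {Q : Subgroup G} {z : G} {x : Fin 5 → G}

theorem pfpy : pf ≠ 1 ∧ pf * pf = 1 ∧ pf 3 = 0 ∧ Perm.sign pf = 1 ∧ Perm.sign py = 1 ∧ py * py * py = 1 ∧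
    py 3 = 3 ∧ (pf * py) * (pf * py) * (pf * py) = 1 := by decide

/-- **The context.** -/
theorem exists_c3 (B : Base Q z x) (oc : ∀ u : G, u * u = 1 → u ≠ 1 → ∃ g : G, g * z * g⁻¹ = u) :
    ∃ f y a : G, C3 Q z f y a := by
  have zz := B.pl.sq
  have z1 := B.pl.ne_one
  have nwc : ∃ g : G, g * z * g⁻¹ ∈ Q ∧ g * z * g⁻¹ ≠ z := by
    have e1 : x 4 ≠ 1 := by have := B.pts.ne_zp B.pl 0 4; rwa [zp_zero] at this
    have ez : x 4 ≠ z := by have := B.pts.ne_zp B.pl 1 4; rwa [zp_one] at this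
    obtain ⟨g, hg⟩ := oc (x 4) (B.pts.sq 4) e1
    exact ⟨g, by rw [hg]; exact B.pts.mem 4, by rw [hg]; exact ez⟩
  obtain ⟨v, vz, vQ, vv⟩ := exists_v B nwc
  obtain ⟨p1, p2, p3, p4, p5, p6, p7, p8⟩ := pfpy
  obtain ⟨y, Ay, yyy⟩ := A0.exists_three B (Equiv.Perm.mem_alternatingGroup.mpr p5) p6
  obtain ⟨f0, hfz, hf⟩ := B.exists_act (σ := pf) (Equiv.Perm.mem_alternatingGroup.mpr p4) (s := 0) (by simp)
  have Af0 : A0 z x f0 pf := ⟨hfz, hf⟩
  obtain ⟨f, Af, h3⟩ : ∃ f, A0 z x f pf ∧ (f * y) * (f * y) * (f * y) = 1 := by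
    have h2 := A0.mul B (A0.mul B (A0.mul B Af0 Ay) (A0.mul B Af0 Ay)) (A0.mul B Af0 Ay)
    rw [p8] at h2
    rcases A0.ext B h2 (A0.one B) with h3 | h3
    · exact ⟨f0, Af0, h3⟩
    · rw [mul_one] at h3
      refine ⟨z * f0, ⟨by rw [mul_assoc, hfz], ?_⟩, ?_⟩
      · have := act_zp_mul B.pl B.pts 1 hf
        rw [zp_one] at this
        exact this
      · have e : ∀ w, (f0 * y) * (z * w) = z * ((f0 * y) * w) := fun w => by
          calc (f0 * y) * (z * w) = f0 * (y * z) * w := by group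
            _ = (f0 * z) * y * w := by rw [Ay.1]; group
            _ = _ := by rw [hfz]; group
        calc (z * f0 * y) * (z * f0 * y) * (z * f0 * y)
            = z * ((f0 * y) * (z * ((f0 * y) * (z * (f0 * y))))) := by group
          _ = z * (z * (z * ((f0 * y) * ((f0 * y) * (f0 * y))))) := by rw [e (f0 * y), e, e]
          _ = (z * z) * z * ((f0 * y) * (f0 * y) * (f0 * y)) := by group
          _ = 1 := by rw [h3, zz, one_mul, zz]
  have ff : f * f = 1 := A0.invol B vz vQ vv Af p1 p2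
  have fi : f⁻¹ = f := inv_eq_of_mul_eq_one_left ff
  have hfaf : f * x 3 * f = x 0 := by
    have := A0.conj B Af 3
    rwa [p3, fi] at this
  have F : Four z (x 3) f y := by
    refine ⟨zz, B.pts.sq 3, Af.1, Ay.1, B.pts.comm_z B.pl 3, ?_, fy_of_three ff yyy h3, ?_⟩
    · have := A0.conj B Ay 3
      rwa [p7, mul_inv_eq_iff_eq_mul] at this
    · rw [hfaf]; exact B.pts.anti 3 0 (by decide)
  exact ⟨f, y, x 3, F.base B (B.pts.mem 3), F, B.pts.mem 3, oc⟩

theorem eq_one_of_sq_three {u : G} (h2 : u * u = 1) (h3 : u * u * u = 1) : u = 1 := by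
  rw [h2, one_mul] at h3; exact h3

namespace C3

variable {f y a : G} (c : C3 Q z f y a)
include c

theorem e1 : tp a f y 4 ≠ 1 := by
  have := c.B.pts.ne_zp c.B.pl 0 4; rwa [zp_zero] at this

theorem ez : tp a f y 4 ≠ z := by
  have := c.B.pts.ne_zp c.B.pl 1 4; rwa [zp_one] at this

theorem Af : A0 z (tp a f y) f pf := ⟨c.F.fz, c.F.actf⟩
theorem Ay : A0 z (tp a f y) y py := ⟨c.F.yz, c.F.acty⟩

theorem fQ : f ∉ Q := A0.not_mem c.B c.Af pfpy.1

theorem y1 : y ≠ 1 := by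
  rintro rfl
  have h2 : f * f = f := by
    have := c.F.fy.rel
    rwa [inv_one, one_mul, mul_one] at this
  rw [c.F.fy.ff] at h2
  have := c.fQ
  rw [← h2] at this
  exact this Q.one_mem

theorem f1 : f ≠ 1 := fun h => c.fQ (by rw [h]; exact Q.one_mem)

theorem ordy : orderOf y = 3 := by
  have h3 : y ^ 3 = 1 := by rw [pow_succ, pow_two]; exact c.F.fy.yyy
  exact orderOf_eq_prime h3 c.y1

theorem eq_of_pow_y {i : ℕ} (h : y ^ i = 1) : 3 ∣ i := by
  have h5 := orderOf_dvd_of_pow_eq_one h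
  rwa [c.ordy] at h5

theorem e_z : tp a f y 4 * z = z * tp a f y 4 := c.F.zt 4
theorem e_e : tp a f y 4 * tp a f y 4 = 1 := c.F.sq 4
/-- `a e = z e a` -/
theorem a_e : a * tp a f y 4 = z * (tp a f y 4 * a) := c.B.pts.anti 3 4 (by decide)
theorem e_a : tp a f y 4 * a = z * (a * tp a f y 4) := c.B.pts.anti 4 3 (by decide)
theorem y_e : y * tp a f y 4 = tp a f y 4 * y := by
  have := c.F.cy4; rwa [mul_inv_eq_iff_eq_mul] at this
theorem f_e : f * tp a f y 4 = tp a f y 4 * f := by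
  have := c.F.cf4; rwa [mul_inv_eq_iff_eq_mul] at this

theorem cent_form {r : Fin 5} (hr : r = 3 ∨ r = 4) {u : G} (uz : u * z = z * u) (uy : u * y = y * u)
    (ur : u * tp a f y r = tp a f y r * u) :
    ∃ w, (w = 1 ∨ w = z ∨ w = tp a f y r ∨ w = z * tp a f y r) ∧ ∃ i < 3, u = w * y ^ i := by
  have B := c.B
  obtain ⟨σ, hσ, s, hs, hact⟩ := B.act uz
  have h1 := act_mul B.pl uz hact c.F.acty
  have h2 := act_mul B.pl c.F.yz c.F.acty hact
  rw [uy] at h1
  have h3 := (act_unique B.pl B.pts h1 h2).1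
  obtain ⟨i, hi, hσi⟩ : ∃ i < 3, σ = py ^ i := by
    rcases cent_py σ (Equiv.Perm.mem_alternatingGroup.mp hσ) h3 with h4 | h4 | h4
    · exact ⟨0, by norm_num, by rw [h4, pow_zero]⟩
    · exact ⟨1, by norm_num, by rw [h4, pow_one]⟩
    · exact ⟨2, by norm_num, by rw [h4, pow_two]⟩
  -- powers of y
  have hyz : ∀ n : ℕ, y ^ n * z = z * y ^ n := fun n => (show Commute y z from c.F.yz).pow_left n
  have hactp : ∀ n : ℕ, Act z (tp a f y) (y ^ n) (py ^ n) 0 := by
    intro n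
    induction n with
    | zero => simpa using act_one B.pl
    | succ n ih =>
      have := act_mul B.pl (hyz n) ih c.F.acty
      rw [pow_succ, pow_succ]
      intro j
      rw [this j]
      simp
  set q := u * (y ^ i)⁻¹ with hq
  have hyi : (y ^ i)⁻¹ * z = z * (y ^ i)⁻¹ := by
    rw [inv_mul_eq_iff_eq_mul, ← mul_assoc, hyz i]; group
  have qz : q * z = z * q := by rw [hq, mul_assoc, hyi, ← mul_assoc, uz, mul_assoc]
  have qact := act_mul B.pl uz hact (act_inv B.pl (hyz i) (hactp i))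
  rw [← hq, hσi, mul_inv_cancel] at qact
  have hqQ : q ∈ Q := B.mem_of_act_one qz qact
  have uyi : ∀ n : ℕ, u * y ^ n = y ^ n * u := fun n => (show Commute u y from uy).pow_right n
  have qy : q * y = y * q := by
    rw [hq]
    calc u * (y ^ i)⁻¹ * y = u * y * (y ^ i)⁻¹ := by group
      _ = y * (u * (y ^ i)⁻¹) := by rw [uy]; group
  have yr : y * tp a f y r = tp a f y r * y := by
    have := c.F.acty r
    rw [fix_perm r hr, Pi.zero_apply, zp_zero, one_mul, mul_inv_eq_iff_eq_mul] at this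
    exact this
  have yir : (y ^ i) * tp a f y r = tp a f y r * (y ^ i) :=
    (show Commute y (tp a f y r) from yr).pow_left i
  have qr : q * tp a f y r = tp a f y r * q := by
    rw [hq]
    have h5 : (y ^ i)⁻¹ * tp a f y r = tp a f y r * (y ^ i)⁻¹ := by
      rw [inv_mul_eq_iff_eq_mul, ← mul_assoc, yir]; group
    rw [mul_assoc, h5, ← mul_assoc, ur, mul_assoc]
  obtain ⟨s', hs', hact'⟩ := act_q B.pl B.pts B.cardQ hqQ
  have h6 := act_mul B.pl qz hact' c.F.acty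
  have h7 := act_mul B.pl c.F.yz c.F.acty hact'
  rw [qy] at h6
  have h8 := (act_unique B.pl B.pts h6 h7).2
  have h9 : ∀ j, s' (py j) = s' j := by
    intro j
    have := congrFun h8 j
    simpa using this
  have h10 : s' r = 0 := by
    have := hact' r
    rw [qr, mul_inv_cancel_right, Equiv.Perm.one_apply] at this
    have h11 : zp z 0 * tp a f y r = zp z (s' r) * tp a f y r := by rw [zp_zero, one_mul]; exact this
    exact (B.pts.eq_of B.pl h11).2.symm
  have key : ∃ w, (w = 1 ∨ w = z ∨ w = tp a f y r ∨ w = z * tp a f y r) ∧ q = w := by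
    rcases inv_vec r hr s' ⟨hs', h10, h9⟩ with h11 | h11
    · rw [h11] at hact'
      obtain ⟨b, hb⟩ := act_trivial B.pl B.pts B.cardQ hqQ hact'
      rcases zp_cases (z := z) b with ⟨_, h12⟩ | ⟨_, h12⟩
      · exact ⟨1, Or.inl rfl, by rw [hb, h12]⟩
      · exact ⟨z, Or.inr (Or.inl rfl), by rw [hb, h12]⟩
    · rw [h11] at hact'
      obtain ⟨b, hb⟩ := B.ext qz (B.pts.comm_z B.pl r) hact' (act_self B.pl B.pts r)
      rcases zp_cases (z := z) b with ⟨_, h12⟩ | ⟨_, h12⟩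
      · exact ⟨_, Or.inr (Or.inr (Or.inl rfl)), by rw [hb, h12, one_mul]⟩
      · exact ⟨_, Or.inr (Or.inr (Or.inr rfl)), by rw [hb, h12]⟩
  obtain ⟨w, hw, hqw⟩ := key
  exact ⟨w, hw, i, hi, by rw [← hqw, hq]; group⟩

end C3

end Cfsg.Agent.LE.J3U
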