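import Cfsg.Agent.LE.J3U.Ctx

/-!
# Groups of `J₃` type, III: the element `d` (owner: helper80)
-/
set_option autoImplicit false
set_option linter.all false

namespace Cfsg.Agent.LE.J3U

open Subgroup Cfsg.Agent.H90 Equiv Cfsg.Agent.LE Cfsg.Agent.LE.J2U

variable {G : Type*} [Group G]

open scoped Pointwise in
theorem conj_three [Finite G] {M : Subgroup G} (h9 : ¬ 9 ∣ Nat.card M) {u v : G} (hu : u ∈ M) (hv : v ∈ M)
    (u3 : u * u * u = 1) (u1 : u ≠ 1) (v3 : v * v * v = 1) (v1 : v ≠ 1) :
    ∃ m ∈ M, m * u * m⁻¹ = v ∨ m * u * m⁻¹ = v⁻¹ := by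
  haveI : Fact (Nat.Prime 3) := ⟨Nat.prime_three⟩
  have oU : orderOf (⟨u, hu⟩ : M) = 3 := by
    rw [Subgroup.orderOf_mk]
    exact orderOf_eq_prime (by rw [pow_succ, pow_two]; exact u3) u1
  have oV : orderOf (⟨v, hv⟩ : M) = 3 := by
    rw [Subgroup.orderOf_mk]
    exact orderOf_eq_prime (by rw [pow_succ, pow_two]; exact v3) v1
  have h3 : 3 ∣ Nat.card M := by
    have := orderOf_dvd_natCard (⟨u, hu⟩ : M)
    rwa [oU] at this
  have hfac : (Nat.card M).factorization 3 = 1 := by
    have h0 : Nat.card M ≠ 0 := Nat.card_pos.ne'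
    apply le_antisymm
    · by_contra h
      push Not at h
      apply h9
      have : 3 ^ 2 ∣ Nat.card M := (Nat.Prime.pow_dvd_iff_le_factorization Nat.prime_three h0).2 h
      simpa using this
    · exact (Nat.Prime.pow_dvd_iff_le_factorization Nat.prime_three h0).1 (by simpa using h3)
  let P : Sylow 3 M := Sylow.ofCard (zpowers (⟨u, hu⟩ : M)) (by rw [Nat.card_zpowers, oU, hfac, pow_one])
  let R : Sylow 3 M := Sylow.ofCard (zpowers (⟨v, hv⟩ : M)) (by rw [Nat.card_zpowers, oV, hfac, pow_one])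
  obtain ⟨m, hm⟩ := MulAction.exists_smul_eq M P R
  have h1 : m * ⟨u, hu⟩ * m⁻¹ ∈ (R : Subgroup M) := by
    rw [← hm]
    have : m * ⟨u, hu⟩ * m⁻¹ ∈ (MulAut.conj m • (P : Subgroup M)) := by
      rw [Subgroup.mem_pointwise_smul_iff_inv_smul_mem]
      have e : (MulAut.conj m)⁻¹ • (m * ⟨u, hu⟩ * m⁻¹) = (⟨u, hu⟩ : M) := by
        rw [← map_inv, MulAut.smul_def, MulAut.conj_apply]; group
      rw [e]
      exact mem_zpowers _
    exact this
  have h2 : m * ⟨u, hu⟩ * m⁻¹ ∈ zpowers (⟨v, hv⟩ : M) := h1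
  obtain ⟨n, hn⟩ := mem_zpowers_iff.1 h2
  refine ⟨m, m.2, ?_⟩
  have hn' : (m : G) * u * (m : G)⁻¹ = v ^ n := (congrArg Subtype.val hn).symm
  have v3' : v ^ (3 : ℤ) = 1 := by
    have : v ^ (3 : ℕ) = 1 := by rw [pow_succ, pow_two]; exact v3
    exact_mod_cast this
  have hmod : v ^ n = v ^ (n % 3) := by
    conv_lhs => rw [← Int.emod_add_mul_ediv n 3]
    rw [zpow_add, zpow_mul, v3', one_zpow, mul_one]
  have hcase : n % 3 = 0 ∨ n % 3 = 1 ∨ n % 3 = 2 := by omega
  rcases hcase with h | h | h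
  · exfalso
    rw [hmod, h, zpow_zero] at hn'
    apply u1
    have : u = (m : G)⁻¹ * ((m : G) * u * (m : G)⁻¹) * m := by group
    rw [this, hn']; group
  · left; rw [hn', hmod, h, zpow_one]
  · right
    rw [hn', hmod, h]
    apply eq_inv_of_mul_eq_one_left
    have : v ^ (2 : ℤ) * v = v * v * v := by
      rw [show (2 : ℤ) = ((2 : ℕ) : ℤ) from rfl, zpow_natCast, pow_two]
    rw [this, v3]

/-- properties of `d` -/
structure DD (z e a y d : G) : Prop where
  dz : z * d = d * e
  de : e * d = d * (z * e)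
  dy : y * d = d * y
  ddd : d * d * d = 1
  da : (d * a) * (d * a) = 1

theorem cyc_pow {z e d : G} (zz : z * z = 1) (ee : e * e = 1) (ez : e * z = z * e) (dz : z * d = d * e)
    (de : e * d = d * (z * e)) : z * (d * d * d * d) = (d * d * d * d) * e ∧
    e * (d * d * d * d) = (d * d * d * d) * (z * e) ∧ z * (d * d * d) = (d * d * d) * z ∧
    e * (d * d * d) = (d * d * d) * e := by
  have zz' : ∀ w, z * (z * w) = w := fun w => by rw [← mul_assoc, zz, one_mul]
  have ee' : ∀ w, e * (e * w) = w := fun w => by rw [← mul_assoc, ee, one_mul]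
  have ez' : ∀ w, e * (z * w) = z * (e * w) := fun w => by rw [← mul_assoc, ez, mul_assoc]
  have dz' : ∀ w, z * (d * w) = d * (e * w) := fun w => by rw [← mul_assoc, dz, mul_assoc]
  have de' : ∀ w, e * (d * w) = d * (z * (e * w)) := fun w => by rw [← mul_assoc, de]; simp only [mul_assoc]
  refine ⟨?_, ?_, ?_, ?_⟩ <;>
    simp only [mul_assoc, dz', de', dz, de, ez, ez', zz, zz', ee, ee', mul_one]

namespace C3

variable [Finite G] {Q : Subgroup G} {z f y a : G} (c : C3 Q z f y a)
include c

theorem exists_dd : ∃ d, DD z (tp a f y 4) a y d := by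
  obtain ⟨e, he⟩ : ∃ e, e = tp a f y 4 := ⟨_, rfl⟩
  have zz := c.F.zz
  have ee : e * e = 1 := by rw [he]; exact c.e_e
  have aa := c.F.aa
  have az := c.F.az
  have ae : a * e = z * (e * a) := by rw [he]; exact c.a_e
  have ea : e * a = z * (a * e) := by rw [he]; exact c.e_a
  have ez : e * z = z * e := by rw [he]; exact c.e_z
  have ye : y * e = e * y := by rw [he]; exact c.y_e
  have ya : y * a = a * y := c.F.ya
  have yz : y * z = z * y := c.F.yz
  have yyy : y * y * y = 1 := c.F.fy.yyy
  have nez : e ≠ z := by rw [he]; exact c.ez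
  have e1 : e ≠ 1 := by rw [he]; exact c.e1
  obtain ⟨g0, hg0⟩ : ∃ g : G, g * z * g⁻¹ = e := c.oc e ee e1
  have nwc : ∃ g : G, g * z * g⁻¹ ∈ Q ∧ g * z * g⁻¹ ≠ z :=
    ⟨g0, by rw [hg0, he]; exact c.B.pts.mem 4, by rw [hg0]; exact nez⟩
  obtain ⟨δ, hδ1, hδ2⟩ := exists_delta c.B nwc 4
  rw [← he] at hδ1 hδ2
  -- the first approximation
  obtain ⟨d0, hd0⟩ : ∃ d0, d0 = δ⁻¹ := ⟨_, rfl⟩
  have d0z : z * d0 = d0 * e := by rw [← hδ1, hd0]; group
  have d0e : e * d0 = d0 * (z * e) := by rw [← hδ2, hd0]; group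
  have d0ze : (z * e) * d0 = d0 * z := by
    calc (z * e) * d0 = z * (e * d0) := by group
      _ = (z * d0) * (z * e) := by rw [d0e]; group
      _ = d0 * (e * z) * e := by rw [d0z]; group
      _ = d0 * z * (e * e) := by rw [ez]; group
      _ = d0 * z := by rw [ee, mul_one]
  -- Frattini
  obtain ⟨M, hM⟩ : ∃ M : Subgroup G, M = centralizer ({z} : Set G) ⊓ centralizer ({e} : Set G) := ⟨_, rfl⟩
  have memM : ∀ u, u ∈ M ↔ u * z = z * u ∧ u * e = e * u := by
    intro u
    rw [hM, mem_inf, mem_centralizer_singleton_iff, mem_centralizer_singleton_iff]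
  have hM9 : ¬ 9 ∣ Nat.card M := by
    intro h
    have h1 : Nat.card M ∣ 1920 := by
      rw [← c.B.cardC, hM]
      exact Subgroup.card_dvd_of_le inf_le_left
    have := h.trans h1
    norm_num at this
  have hyM : y ∈ M := (memM y).2 ⟨yz, ye⟩
  have hy'M : d0 * y * d0⁻¹ ∈ M := by
    have hyze : y * (z * e) = (z * e) * y := by rw [← mul_assoc, yz, mul_assoc, ye, mul_assoc]
    have c1 : d0 * e * d0⁻¹ = z := by rw [← d0z]; group
    have c2 : d0 * (z * e) * d0⁻¹ = e := by rw [← d0e]; group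
    exact (memM _).2 ⟨comm_of_conj ye rfl c1, comm_of_conj hyze rfl c2⟩
  have y1 := c.y1
  obtain ⟨m, hmM, hm⟩ := conj_three hM9 hy'M hyM (by
      calc d0 * y * d0⁻¹ * (d0 * y * d0⁻¹) * (d0 * y * d0⁻¹) = d0 * (y * y * y) * d0⁻¹ := by group
        _ = 1 := by rw [yyy]; group) (fun h => y1 (by
      have : y = d0⁻¹ * (d0 * y * d0⁻¹) * d0 := by group
      rw [this, h]; group)) yyy y1
  obtain ⟨mz, me⟩ := (memM m).1 hmM
  obtain ⟨d1, hd1⟩ : ∃ d1, d1 = m * d0 := ⟨_, rfl⟩
  have d1z : z * d1 = d1 * e := by rw [hd1, ← mul_assoc, ← mz, mul_assoc, d0z, mul_assoc]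
  have d1e : e * d1 = d1 * (z * e) := by rw [hd1, ← mul_assoc, ← me, mul_assoc, d0e, mul_assoc]
  have d1y : d1 * y * d1⁻¹ = y ∨ d1 * y * d1⁻¹ = y⁻¹ := by
    have : d1 * y * d1⁻¹ = m * (d0 * y * d0⁻¹) * m⁻¹ := by rw [hd1]; group
    rw [this]; exact hm
  have d1y2 : (d1 * d1) * y = y * (d1 * d1) := by
    rcases d1y with h | h
    · rw [mul_inv_eq_iff_eq_mul] at h
      calc (d1 * d1) * y = d1 * (d1 * y) := by group
        _ = d1 * (y * d1) := by rw [h]
        _ = (d1 * y) * d1 := by group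
        _ = _ := by rw [h]; group
    · have h' : d1 * y⁻¹ * d1⁻¹ = y := by
        calc d1 * y⁻¹ * d1⁻¹ = (d1 * y * d1⁻¹)⁻¹ := by group
          _ = y := by rw [h, inv_inv]
      rw [mul_inv_eq_iff_eq_mul] at h h'
      calc (d1 * d1) * y = d1 * (d1 * y) := by group
        _ = d1 * (y⁻¹ * d1) := by rw [h]
        _ = (d1 * y⁻¹) * d1 := by group
        _ = _ := by rw [h']; group
  obtain ⟨p1, p2, -, -⟩ := cyc_pow zz ee ez d1z d1e
  obtain ⟨d2, hd2⟩ : ∃ d2, d2 = d1 * d1 * d1 * d1 := ⟨_, rfl⟩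
  rw [← hd2] at p1 p2
  have d2y : y * d2 = d2 * y := by
    have : d2 = (d1 * d1) * (d1 * d1) := by rw [hd2]; group
    rw [this]
    exact ((show Commute y (d1 * d1) from d1y2.symm).mul_right d1y2.symm)
  -- everything in `E` is moved to the right
  have key : ∀ d : G, z * d = d * e → e * d = d * (z * e) → y * d = d * y →
      ∃ i < 3, (d * a) * (d * a) = y ^ i ∨ (d * a) * (d * a) = e * y ^ i := by
    intro d hdz hde hdy
    have zz' : ∀ w, z * (z * w) = w := fun w => by rw [← mul_assoc, zz, one_mul]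
    have aa' : ∀ w, a * (a * w) = w := fun w => by rw [← mul_assoc, aa, one_mul]
    have ee' : ∀ w, e * (e * w) = w := fun w => by rw [← mul_assoc, ee, one_mul]
    have za1 : z * a = a * z := az.symm
    have za' : ∀ w, z * (a * w) = a * (z * w) := fun w => by rw [← mul_assoc, za1, mul_assoc]
    have ez' : ∀ w, e * (z * w) = z * (e * w) := fun w => by rw [← mul_assoc, ez, mul_assoc]
    have ea1 : e * a = a * (z * e) := by rw [ea, ← mul_assoc, za1, mul_assoc]
    have ea' : ∀ w, e * (a * w) = a * (z * (e * w)) := fun w => by rw [← mul_assoc, ea1]; simp only [mul_assoc]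
    have dz' : ∀ w, z * (d * w) = d * (e * w) := fun w => by rw [← mul_assoc, hdz, mul_assoc]
    have de' : ∀ w, e * (d * w) = d * (z * (e * w)) := fun w => by rw [← mul_assoc, hde]; simp only [mul_assoc]
    have uz : (d * a) * (d * a) * z = z * ((d * a) * (d * a)) := by
      simp only [mul_assoc, dz', de', hdz, hde, za1, za', ea1, ea', ez, ez', zz, zz', ee, ee', aa, aa', mul_one]
    have ue : (d * a) * (d * a) * e = e * ((d * a) * (d * a)) := by
      simp only [mul_assoc, dz', de', hdz, hde, za1, za', ea1, ea', ez, ez', zz, zz', ee, ee', aa, aa', mul_one]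
    have uy : (d * a) * (d * a) * y = y * ((d * a) * (d * a)) := by
      have h1 : Commute y (d * a) := (show Commute y d from hdy).mul_right ya
      exact (h1.mul_right h1).symm
    obtain ⟨w, hw, i, hi, hu⟩ := c.cent_form (Or.inr rfl) uz uy (by rw [← he]; exact ue)
    rw [← he] at hw
    have hwb : w * (d * a) = (d * a) * w := by
      have h1 : w = (d * a) * (d * a) * (y ^ i)⁻¹ := by rw [hu]; group
      have h2 : Commute (y ^ i) (d * a) := ((show Commute y d from hdy).mul_right ya).pow_left i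
      have h3 : (y ^ i)⁻¹ * (d * a) = (d * a) * (y ^ i)⁻¹ := h2.inv_left
      rw [h1, mul_assoc ((d * a) * (d * a)), h3]; group
    rcases hw with hw | hw | hw | hw <;> subst w
    · exact ⟨i, hi, Or.inl (by rw [hu, one_mul])⟩
    · exfalso
      have h1 : z * (d * a) = d * a * (z * e) := by
        simp only [mul_assoc, dz', de', hdz, hde, za1, za', ea1, ea', ez, ez', zz, zz', ee, ee', aa, aa', mul_one]
      rw [h1, ← mul_assoc] at hwb
      exact e1 (mul_left_cancel (a := d * a * z) (by rw [mul_one]; exact hwb))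
    · exact ⟨i, hi, Or.inr hu⟩
    · exfalso
      have h1 : z * e * (d * a) = d * a * z := by
        simp only [mul_assoc, dz', de', hdz, hde, za1, za', ea1, ea', ez, ez', zz, zz', ee, ee', aa, aa', mul_one]
      rw [h1, ← mul_assoc] at hwb
      exact e1 (mul_left_cancel (a := d * a * z) (by rw [mul_one]; exact hwb.symm))
  obtain ⟨d3, d3z, d3e, d3y, i, hi, d3a⟩ : ∃ d, z * d = d * e ∧ e * d = d * (z * e) ∧ y * d = d * y ∧
      ∃ i < 3, (d * a) * (d * a) = y ^ i := by
    obtain ⟨i, hi, h | h⟩ := key d2 p1 p2 d2y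
    · exact ⟨d2, p1, p2, d2y, i, hi, h⟩
    · have eze : e * z * e = z := by rw [ez, mul_assoc, ee, mul_one]
      refine ⟨e * d2 * e, ?_, ?_, ?_, i, hi, ?_⟩
      · calc z * (e * d2 * e) = (z * e) * d2 * e := by group
          _ = e * (z * d2) * e := by rw [← ez]; group
          _ = (e * d2 * e) * e := by rw [p1]; group
      · calc e * (e * d2 * e) = e * (e * d2) * e := by group
          _ = e * (d2 * (z * e)) * e := by rw [p2]
          _ = (e * d2) * (z * e) * e := by group
          _ = (e * d2) * (e * z) * e := by rw [ez]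
          _ = _ := by group
      · have h1 : Commute y e := ye
        exact (h1.mul_right d2y).mul_right h1
      · have yi_e : (y ^ i) * e = e * (y ^ i) := (show Commute y e from ye).pow_left i
        calc (e * d2 * e * a) * (e * d2 * e * a) = e * d2 * (e * a) * (e * d2) * (e * a) := by group
          _ = e * d2 * (z * (a * e)) * (e * d2) * (z * (a * e)) := by rw [ea]
          _ = e * d2 * (z * a) * (e * e) * d2 * (z * (a * e)) := by group
          _ = e * d2 * (z * a) * d2 * (z * a) * e := by rw [ee]; group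
          _ = e * d2 * (a * z) * d2 * (z * a) * e := by rw [az]
          _ = e * d2 * a * (z * d2) * (z * a) * e := by group
          _ = e * d2 * a * d2 * (e * z) * a * e := by rw [p1]; group
          _ = e * d2 * a * d2 * (z * (e * a)) * e := by rw [ez]; group
          _ = e * d2 * a * d2 * (z * z) * a * (e * e) := by rw [ea]; group
          _ = e * ((d2 * a) * (d2 * a)) := by rw [zz, ee]; group
          _ = (e * e) * y ^ i := by rw [h]; group
          _ = y ^ i := by rw [ee, one_mul]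
  -- multiply with a power of `y`
  have yp : ∀ n : ℕ, Commute (y ^ n) a ∧ Commute (y ^ n) e ∧ Commute (y ^ n) z ∧ Commute (y ^ n) d3 := fun n =>
    ⟨(show Commute y a from ya).pow_left n, (show Commute y e from ye).pow_left n,
      (show Commute y z from yz).pow_left n, (show Commute y d3 from d3y).pow_left n⟩
  obtain ⟨d, dz, de, dy, da⟩ : ∃ d, z * d = d * e ∧ e * d = d * (z * e) ∧ y * d = d * y ∧
      (d * a) * (d * a) = 1 := by
    obtain ⟨ha, hee, hz, hd⟩ := yp i
    refine ⟨d3 * y ^ i, ?_, ?_, ?_, ?_⟩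
    · rw [← mul_assoc, d3z, mul_assoc, ← hee.eq, mul_assoc]
    · have : Commute (y ^ i) (z * e) := hz.mul_right hee
      rw [← mul_assoc, d3e, mul_assoc, ← this.eq, mul_assoc]
    · exact (show Commute y d3 from d3y).mul_right ((Commute.refl y).pow_right i)
    · have h3 : y ^ i * (y ^ i * y ^ i) = 1 := by
        rw [← pow_add, ← pow_add]
        have : i + (i + i) = 3 * i := by ring
        rw [this, pow_mul, pow_succ, pow_two, yyy, one_pow]
      calc d3 * y ^ i * a * (d3 * y ^ i * a) = d3 * (y ^ i * a) * (d3 * (y ^ i * a)) := by group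
        _ = d3 * a * (y ^ i * d3) * a * y ^ i := by rw [ha.eq]; group
        _ = d3 * a * d3 * (y ^ i * a) * y ^ i := by rw [hd.eq]; group
        _ = (d3 * a) * (d3 * a) * (y ^ i * y ^ i) := by rw [ha.eq]; group
        _ = 1 := by rw [d3a]; exact h3
  refine ⟨d, ?_⟩
  rw [← he]
  refine ⟨dz, de, dy, ?_, da⟩
  -- the cube
  obtain ⟨-, -, q1, q2⟩ := cyc_pow zz ee ez dz de
  have qy : (d * d * d) * y = y * (d * d * d) := by
    have h1 : Commute y d := dy
    exact ((h1.mul_right h1).mul_right h1).symm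
  obtain ⟨w, hw, j, hj, hu⟩ := c.cent_form (Or.inr rfl) q1.symm qy (by rw [← he]; exact q2.symm)
  rw [← he] at hw
  have hwd : w * d = d * w := by
    have h1 : w = (d * d * d) * (y ^ j)⁻¹ := by rw [hu]; group
    have h2 : Commute (y ^ j) d := (show Commute y d from dy).pow_left j
    have h3 : (y ^ j)⁻¹ * d = d * (y ^ j)⁻¹ := h2.inv_left
    rw [h1, mul_assoc (d * d * d), h3]; group
  have hw1 : w = 1 := by
    rcases hw with h | h | h | h
    · exact h
    · rw [h, dz] at hwd
      exact absurd (mul_left_cancel hwd) nez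
    · rw [h, de] at hwd
      have := mul_left_cancel hwd
      exact absurd (mul_right_cancel (b := e) (by rw [one_mul]; exact this)) c.B.pl.ne_one
    · rw [h] at hwd
      have h5 : (z * e) * d = d * z := by
        calc (z * e) * d = z * (e * d) := by group
          _ = (z * d) * (z * e) := by rw [de]; group
          _ = d * (e * z) * e := by rw [dz]; group
          _ = d * z * (e * e) := by rw [ez]; group
          _ = d * z := by rw [ee, mul_one]
      rw [h5] at hwd
      have := mul_left_cancel hwd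
      exact absurd (mul_left_cancel (a := z) (by rw [mul_one]; exact this.symm)) e1
  rw [hw1, one_mul] at hu
  have hadi : a * d * a = d⁻¹ := by
    apply eq_inv_of_mul_eq_one_right
    calc d * (a * d * a) = (d * a) * (d * a) := by group
      _ = 1 := da
  have h6 : a * (d * d * d) * a = (d * d * d)⁻¹ := by
    calc a * (d * d * d) * a = (a * d) * (a * a) * d * (a * a) * (d * a) := by rw [aa]; group
      _ = (a * d * a) * (a * d * a) * (a * d * a) := by group
      _ = _ := by rw [hadi]; group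
  have h7 : a * y ^ j * a = y ^ j := by
    have := (yp j).1.eq
    rw [← this, mul_assoc, aa, mul_one]
  rw [hu, h7] at h6
  have h8 : y ^ (j + j) = 1 := by
    rw [pow_add]; nth_rewrite 1 [h6]; rw [inv_mul_cancel]
  have h9 := c.eq_of_pow_y h8
  have hj0 : j = 0 := by omega
  rw [hu, hj0, pow_zero]

end C3

end Cfsg.Agent.LE.J3U
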