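import Cfsg.Agent.LE.J3U.TData

/-! Permutation table (generated data, owner: helper80, tool of helper28). -/

set_option autoImplicit false
set_option maxRecDepth 1000000

namespace Cfsg.Agent.CosetEnum.J3UT

theorem h2_1 : allR (orbC P letsk [] 1361 3401) 2361 1000 = true := by decide +kernel

theorem h2_2 : allR (orbC P letsk [] 1361 3401) 3361 40 = true := by decide +kernel

theorem h3_0 : allR (orbC P letsk [] 3401 3911) 3401 510 = true := by decide +kernel

theorem h4_0 : allR (orbC P letsk [] 3911 3996) 3911 85 = true := by decide +kernel

theorem h5_0 : allR (orbC P letsk [] 3996 4116) 3996 120 = true := by decide +kernel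

theorem h6_0 : allR (orbC P letsk [] 4116 5476) 4116 1000 = true := by decide +kernel

end Cfsg.Agent.CosetEnum.J3UT
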