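import Cfsg.Agent.CosetEnum.Level
import Cfsg.Agent.LE.J3U.TR0
import Cfsg.Agent.LE.J3U.TR1
import Cfsg.Agent.LE.J3U.TR2
import Cfsg.Agent.LE.J3U.TR3
import Cfsg.Agent.LE.J3U.TR4
import Cfsg.Agent.LE.J3U.TR5
import Cfsg.Agent.LE.J3U.TR6
import Cfsg.Agent.LE.J3U.TH0
import Cfsg.Agent.LE.J3U.TH1
import Cfsg.Agent.LE.J3U.TH2

/-! Permutation table (generated data, owner: helper80, tool of helper28). -/

set_option autoImplicit false
set_option maxRecDepth 1000000

namespace Cfsg.Agent.CosetEnum.J3UT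

theorem st : letsB 13 iv lets RL = true := by decide +kernel

theorem sk : subB 4 iv letsk = true := by decide +kernel

theorem tabOK : TabOK P 13 iv lets RL := ⟨st, ((((((Cov.of r0 rfl).trans (Cov.of r1 rfl)).trans (Cov.of r2 rfl)).trans (Cov.of r3 rfl)).trans (Cov.of r4 rfl)).trans (Cov.of r5 rfl)).trans (Cov.of r6 rfl)⟩

theorem covO : Cov (orbC P lets [] 0 P.m) 0 P.m := ((((((Cov.of o0 rfl).trans (Cov.of o1 rfl)).trans (Cov.of o2 rfl)).trans (Cov.of o3 rfl)).trans (Cov.of o4 rfl)).trans (Cov.of o5 rfl)).trans (Cov.of o6 rfl)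

theorem orbs : Orbs P letsk [] [0, 1, 1361, 3401, 3911, 3996, 4116, 5476, 6156] :=
  ⟨by decide +kernel, by decide +kernel, Cov.of h0_0 rfl, ⟨by decide +kernel, by decide +kernel, (Cov.of h1_0 rfl).trans (Cov.of h1_1 rfl), ⟨by decide +kernel, by decide +kernel, ((Cov.of h2_0 rfl).trans (Cov.of h2_1 rfl)).trans (Cov.of h2_2 rfl), ⟨by decide +kernel, by decide +kernel, Cov.of h3_0 rfl, ⟨by decide +kernel, by decide +kernel, Cov.of h4_0 rfl, ⟨by decide +kernel, by decide +kernel, Cov.of h5_0 rfl, ⟨by decide +kernel, by decide +kernel, (Cov.of h6_0 rfl).trans (Cov.of h6_1 rfl), ⟨by decide +kernel, by decide +kernel, Cov.of h7_0 rfl, trivial⟩⟩⟩⟩⟩⟩⟩⟩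

theorem last : lastD 1 [1361, 3401, 3911, 3996, 4116, 5476, 6156] = P.m := rfl

end Cfsg.Agent.CosetEnum.J3UT
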