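import Cfsg.Agent.CosetEnum.Level
import Cfsg.Agent.LE.J3U.TData

/-! Words (generated data, owner: helper80, tool of helper28). -/

set_option autoImplicit false
set_option maxRecDepth 1000000

namespace Cfsg.Agent.CosetEnum.J3UT

theorem kd4 : allR (trivB P [List.flatten (List.replicate 19 [8, 12])]) 4400 1100 = true := by decide +kernel

end Cfsg.Agent.CosetEnum.J3UT
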