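import Cfsg.Agent.LE.J3U.FCerts
import Cfsg.Agent.LE.J3U.KCert
import Cfsg.Agent.LE.J3U.T
import Cfsg.Agent.LE.J3U.X
import Cfsg.Agent.LE.J3U.TK0
import Cfsg.Agent.LE.J3U.TK1
import Cfsg.Agent.LE.J3U.TK2
import Cfsg.Agent.LE.J3U.TK3
import Cfsg.Agent.LE.J3U.TK4
import Cfsg.Agent.LE.J3U.TK5
import Cfsg.Agent.LE.J2U.Certs
import Cfsg.Agent.CosetEnum.Rename

/-!
# The third Janko group as a presented group: order and simplicity (owner: helper80)
-/
set_option autoImplicit false
set_option maxRecDepth 1000000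
set_option linter.all false

namespace Cfsg.Agent.LE.J3U

open Subgroup Cfsg.Agent.CosetEnum MulAction

/-- the presented `J₃`; letters `z w b b⁻¹ f y y⁻¹ k k⁻¹ a e d d⁻¹` -/
abbrev QJ : Type := QG 13 J3UT.iv J3UT.RL

/-- its letters -/
abbrev qj : ℕ → QJ := qg 13 J3UT.iv J3UT.RL

theorem UJ : Univ qj 13 J3UT.iv J3UT.RL := univ_qg _ _ _

/-- the letters `f y y⁻¹ k k⁻¹ z a e d d⁻¹ w` -/
def pl : List ℕ := [5, 6, 7, 8, 9, 1, 10, 11, 12, 13, 2]

/-- the letters of the first presentation -/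
abbrev qo : ℕ → QJ := ren qj 11 pl

theorem good_o : Good qo 11 CosetEnum.J3U.F0.iv CosetEnum.J3U.F0.RL := UJ.good.ren (by decide +kernel)

theorem b_eq : qj 3 = (([8, 13, 8, 13, 9, 12, 8, 13, 6] : List ℕ).map qj).prod := by
  have h := UJ.good.rel ([4, 8, 13, 8, 13, 9, 12, 8, 13, 6], 1) (by decide +kernel)
  rw [pow_one, List.map_cons, List.prod_cons] at h
  have h1 : qj 4 = (qj 3)⁻¹ := UJ.good.inv 3
  rw [h1] at h
  exact (inv_mul_eq_one.1 h)

theorem cl_o : Cl qo 11 = ⊤ := by
  rw [show Cl qo 11 = ClL qj pl from Cl_ren qj rfl]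
  have h : Cl qj 13 ≤ ClL qj pl := by
    unfold Cl
    rw [closure_le]
    rintro _ ⟨x, hx, rfl⟩
    have hx : isLet 13 x = true := hx
    rw [isLet_iff] at hx
    have hb : qj 3 ∈ ClL qj pl := by
      rw [b_eq]
      exact word_mem qj _ (by
        intro x hx
        apply mem_ClL
        revert x; decide)
    have hx' : x = 3 ∨ x = 4 ∨ x ∈ pl := by
      have h1 : ∀ x : Fin 14, 1 ≤ x.val → (x.val = 3 ∨ x.val = 4 ∨ x.val ∈ pl) := by decide
      exact h1 ⟨x, by omega⟩ hx.1
    rcases hx' with rfl | rfl | hx'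
    · exact hb
    · have h1 : qj 4 = (qj 3)⁻¹ := UJ.good.inv 3
      show qj 4 ∈ _
      rw [h1]; exact inv_mem hb
    · exact mem_ClL qj hx'
  rw [UJ.top] at h
  exact top_le_iff.1 h

theorem w_mem : qo 11 ∈ Cl qo 8 := by
  have h := good_o.rel ([11, 2, 4, 2, 1], 1) (by decide +kernel)
  simp only [pow_one, List.map_cons, List.map_nil, List.prod_cons, List.prod_nil, mul_one] at h
  have h1 : qo 11 = (qo 2 * (qo 4 * (qo 2 * qo 1)))⁻¹ := eq_inv_of_mul_eq_one_left h
  rw [h1]
  exact inv_mem (mul_mem (mem_Cl _ (by decide)) (mul_mem (mem_Cl _ (by decide)) (mul_mem (mem_Cl _ (by decide))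
    (mem_Cl _ (by decide)))))

theorem bd8 : Bd (Cl qo 8) 1920 := by
  have g := good_o
  have h3 := (Bd.zero qo).cl (M := 12) J2U.Good3.cert g (by decide +kernel) (by decide +kernel) (by norm_num) rfl
  have h5 := h3.cl (M := 60) J2U.Good5.cert g (by decide +kernel) (by decide +kernel) (by norm_num) rfl
  exact h5.cl (M := 1920) J2U.Good8.cert g (by decide +kernel) (by decide +kernel) (by norm_num) rfl

theorem bdJ : Bd (⊤ : Subgroup QJ) 50232960 := by
  have h := CosetEnum.J3U.F0.cert.apply good_o (H := Cl qo 8) (by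
    intro r hr
    simp only [CosetEnum.J3U.F0.subs, List.mem_cons, List.not_mem_nil, or_false] at hr
    rcases hr with rfl | rfl | rfl | rfl | rfl | rfl | rfl <;>
      simp only [List.map_cons, List.map_nil, List.prod_cons, List.prod_nil, mul_one]
    · exact mem_Cl _ (by decide)
    · exact mem_Cl _ (by decide)
    · exact mem_Cl _ (by decide)
    · exact mem_Cl _ (by decide)
    · exact mem_Cl _ (by decide)
    · exact mem_Cl _ (by decide)
    · exact w_mem)
  rw [cl_o] at h
  exact bd8.step h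

theorem LJ : Lvl qj 13 J3UT.iv J3UT.lets J3UT.P 4 [1361, 3401, 3911, 3996, 4116, 5476, 6156] := by
  refine lvl_of UJ J3UT.tabOK J3UT.sk (by norm_num) J3UT.covO J3UT.orbs J3UT.last (show 1 < 6156 by norm_num) ?_
  have h := CosetEnum.J3U.T6.cert.apply good_o (H := Cl qj 4) (by
    intro r hr
    simp only [CosetEnum.J3U.T6.subs, List.mem_cons, List.not_mem_nil, or_false] at hr
    rcases hr with rfl | rfl | rfl
    · show _ ∈ _
      simp only [List.map_cons, List.map_nil, List.prod_cons, List.prod_nil, mul_one]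
      exact mem_Cl qj (show isLet 4 1 = true by decide)
    · simp only [List.map_cons, List.map_nil, List.prod_cons, List.prod_nil, mul_one]
      exact mem_Cl qj (show isLet 4 2 = true by decide)
    · have : (List.map qo [4, 10, 4, 10, 5, 9, 4, 10, 2]).prod = qj 3 := by rw [b_eq]; rfl
      rw [this]
      exact mem_Cl qj (by decide))
  rw [cl_o, ← UJ.top] at h
  exact h

theorem FJ : Faith qj J3UT.lets J3UT.P ∧
    ((∃ A : MulAction QJ (Fin J3UT.P.m), @Acts QJ _ J3UT.P A qj J3UT.lets) → Nat.card QJ = 50232960) :=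
  faith_of_chain J3UT.tabOK.subB UJ.top J3UT.chain bdJ (by decide +kernel)

theorem cardJ : Nat.card QJ = 50232960 := by
  obtain ⟨A, _, _, _, _, hA, _⟩ := LJ.ex
  exact FJ.2 ⟨A, hA⟩

theorem kd19 : (qj 8 * qj 12) ^ 19 = 1 := by
  have hc : Cov (trivB J3UT.P [List.flatten (List.replicate 19 [8, 12])]) 0 J3UT.P.m :=
    (((((Cov.of J3UT.kd0 rfl).trans (Cov.of J3UT.kd1 rfl)).trans (Cov.of J3UT.kd2 rfl)).trans
      (Cov.of J3UT.kd3 rfl)).trans (Cov.of J3UT.kd4 rfl)).trans (Cov.of J3UT.kd5 rfl)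
  have h := LJ.rels FJ.1 (us := [List.flatten (List.replicate 19 [8, 12])]) (by decide +kernel) hc
    (List.flatten (List.replicate 19 [8, 12])) (List.mem_singleton.2 rfl)
  simp only [List.replicate, List.flatten_cons, List.flatten_nil, List.append_nil, List.cons_append, List.nil_append,
    List.map_cons, List.map_nil, List.prod_cons, List.prod_nil, mul_one] at h
  simpa only [pow_succ, pow_zero, one_mul, mul_assoc] using h

instance finJ : Finite QJ := Nat.finite_of_card_ne_zero (by rw [cardJ]; norm_num)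

theorem simpleJ : IsSimpleGroup QJ := by
  have hpos := LJ.pos
  have hfaith := FJ.1
  obtain ⟨A, letsk, cw, h1, h2, h3, h3k, h4, h5, h6, h7⟩ := LJ.ex
  have hprim := prim_of_orbs hpos h2 UJ.good.inv h3k h4 h5 h6 h7 (by decide +kernel)
  have hinj := hfaith A h3
  haveI : Nontrivial QJ := by
    rw [← Finite.one_lt_card_iff_nontrivial, cardJ]; norm_num
  refine ⟨fun N hN => ?_⟩
  by_cases hb : N = ⊥
  · exact Or.inl hb
  right
  have htr : IsPretransitive N (Fin J3UT.P.m) := by
    apply IsQuasiPreprimitive.isPretransitive_of_normal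
    intro h
    apply hb
    rw [Subgroup.eq_bot_iff_forall]
    intro n hn
    apply hinj
    rw [map_one]
    ext x
    have := Set.eq_univ_iff_forall.1 h x ⟨n, hn⟩
    exact congrArg Fin.val this
  -- the index divides 8160
  have hidx : N.index ∣ 8160 := by
    have h8 : N ⊔ stabilizer QJ (⟨0, by omega⟩ : Fin J3UT.P.m) = ⊤ := by
      rw [eq_top_iff]
      intro y _
      obtain ⟨n, hn⟩ := exists_smul_eq N (⟨0, by omega⟩ : Fin J3UT.P.m) (y • (⟨0, by omega⟩ : Fin J3UT.P.m))
      have h11 : (n : QJ)⁻¹ * y ∈ stabilizer QJ (⟨0, by omega⟩ : Fin J3UT.P.m) := by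
        rw [mem_stabilizer_iff, mul_smul, inv_smul_eq_iff]
        exact hn.symm
      have h12 : y = (n : QJ) * ((n : QJ)⁻¹ * y) := by group
      rw [h12]
      exact Subgroup.mul_mem_sup n.2 h11
    have h9 : Nat.card (stabilizer QJ (⟨0, by omega⟩ : Fin J3UT.P.m)) = 8160 := by
      have h10 : 50232960 = 6156 * Nat.card (Cl qj 4) := by
        have := LJ.card
        rw [cardJ] at this
        exact this
      rw [h7]
      omega
    have h10 : N.relIndex (stabilizer QJ (⟨0, by omega⟩ : Fin J3UT.P.m)) = N.index := by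
      rw [← Subgroup.relIndex_sup_right, sup_comm, h8, Subgroup.relIndex_top_right]
    rw [← h10, ← h9]
    exact Subgroup.relIndex_dvd_card _ _
  have hu : qj 8 * qj 12 ∈ N := by
    have h8 : ((qj 8 * qj 12 : QJ) : QJ ⧸ N) ^ 19 = 1 := by
      rw [← QuotientGroup.mk_pow, kd19]; rfl
    have h9 : ((qj 8 * qj 12 : QJ) : QJ ⧸ N) ^ N.index = 1 := by
      rw [Subgroup.index]; exact pow_card_eq_one'
    have h10 : orderOf ((qj 8 * qj 12 : QJ) : QJ ⧸ N) ∣ 1 := by
      have h11 : Nat.Coprime 19 8160 := by norm_num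
      rw [← Nat.Coprime.gcd_eq_one h11]
      exact Nat.dvd_gcd (orderOf_dvd_of_pow_eq_one h8) ((orderOf_dvd_of_pow_eq_one h9).trans hidx)
    have h11 : ((qj 8 * qj 12 : QJ) : QJ ⧸ N) = 1 := orderOf_eq_one_iff.1 (Nat.dvd_one.1 h10)
    exact (QuotientGroup.eq_one_iff _).1 h11
  exact collapse UJ.good UJ.top N (es := [[8, 12]]) (by
    intro e he
    simp only [List.mem_cons, List.not_mem_nil, or_false] at he
    subst he
    simpa using hu) CosetEnum.J3U.KJ.cert

end Cfsg.Agent.LE.J3U
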