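import Cfsg.Agent.LE.J3U.Pres
import Cfsg.Agent.LE.J3U.Order

/-!
# Groups of `J₃` type, XI: the subgroup `J₃` (owner: helper80)
-/
set_option autoImplicit false
set_option maxRecDepth 1000000
set_option linter.all false

namespace Cfsg.Agent.LE.J3U

open Subgroup Cfsg.Agent.CosetEnum Cfsg.Agent.H90 Equiv Cfsg.Agent.LE Cfsg.Agent.LE.J2U

universe u

/-- the thirteen letters -/
def g13 {G : Type*} [Group G] (g : ℕ → G) : ℕ → G
  | 1 => g 6 | 2 => g 11 | 3 => g 4 * g 10 * g 4 * g 10 * g 5 * g 9 * g 4 * g 10 * g 2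
  | 4 => (g 4 * g 10 * g 4 * g 10 * g 5 * g 9 * g 4 * g 10 * g 2)⁻¹
  | 5 => g 1 | 6 => g 2 | 7 => g 3 | 8 => g 4 | 9 => g 5 | 10 => g 7 | 11 => g 8 | 12 => g 9 | 13 => g 10
  | _ => 1

/-- the renaming -/
def rn (x : ℕ) : ℕ := pl.getD (x - 1) 0

theorem g13_rn {G : Type*} [Group G] (g : ℕ → G) : ∀ x, isLet 11 x = true → g13 g (rn x) = g x := by
  intro x hx
  rw [isLet_iff] at hx
  obtain ⟨h1, h2⟩ := hx
  interval_cases x <;> rfl

theorem RL_eq : ∀ p ∈ J3UT.RL, p = ([4, 8, 13, 8, 13, 9, 12, 8, 13, 6], 1) ∨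
    ∃ q ∈ j3RL, wOK 11 q.1 = true ∧ p = (q.1.map rn, q.2) := by
  decide +kernel

theorem good13 {G : Type*} [Group G] {g : ℕ → G} (hg : Good g 11 J2U.iv j3RL) :
    Good (g13 g) 13 J3UT.iv J3UT.RL := by
  have e : ∀ x, g (ivL J2U.iv x) = (g x)⁻¹ := hg.inv
  have i1 : g 1 = (g 1)⁻¹ := e 1
  have i2 : g 3 = (g 2)⁻¹ := e 2
  have i3 : g 2 = (g 3)⁻¹ := e 3
  have i4 : g 5 = (g 4)⁻¹ := e 4
  have i5 : g 4 = (g 5)⁻¹ := e 5
  have i6 : g 6 = (g 6)⁻¹ := e 6
  have i7 : g 7 = (g 7)⁻¹ := e 7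
  have i8 : g 8 = (g 8)⁻¹ := e 8
  have i9 : g 10 = (g 9)⁻¹ := e 9
  have i10 : g 9 = (g 10)⁻¹ := e 10
  have i11 : g 11 = (g 11)⁻¹ := e 11
  have key : ∀ x, 13 < x → ivL J3UT.iv x = x ∧ g13 g x = 1 := by
    intro x hx
    constructor
    · simp only [J3UT.iv, ivL]
      have h1 : x ≠ 3 ∧ x ≠ 4 ∧ x ≠ 6 ∧ x ≠ 7 ∧ x ≠ 8 ∧ x ≠ 9 ∧ x ≠ 12 ∧ x ≠ 13 := by omega
      simp [h1]
    · unfold g13
      split <;> first | omega | rfl
  constructor
  · intro x
    by_cases hx : 13 < x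
    · obtain ⟨h1, h2⟩ := key x hx
      rw [h1, h2, inv_one]
    · interval_cases x
      · show (1 : G) = 1⁻¹
        rw [inv_one]
      · exact i6
      · exact i11
      · rfl
      · exact (inv_inv _).symm
      · exact i1
      · exact i2
      · exact i3
      · exact i4
      · exact i5
      · exact i7
      · exact i8
      · exact i9
      · exact i10
  · intro x hx
    by_cases h13 : 13 < x
    · exact (key x h13).2
    · have h0 : x = 0 := by
        by_contra h0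
        have : isLet 13 x = true := by rw [isLet_iff]; omega
        rw [this] at hx; cases hx
      subst h0; rfl
  · intro p hp
    rcases RL_eq p hp with rfl | ⟨q, hq, hq1, rfl⟩
    · simp only [List.map_cons, List.map_nil, List.prod_cons, List.prod_nil, mul_one, pow_one, g13]
      rw [inv_mul_eq_one]
      simp only [mul_assoc]
    · have h1 : (q.1.map rn).map (g13 g) = q.1.map g := by
        rw [List.map_map]
        apply List.map_congr_left
        intro x hx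
        simp only [wOK, List.all_eq_true] at hq1
        exact g13_rn g x (hq1 x hx)
      show (((q.1.map rn).map (g13 g)).prod) ^ q.2 = 1
      rw [h1]
      exact hg.rel q hq

namespace C3

variable {G : Type u} [Group G] [Finite G] {Q : Subgroup G} {z f y a : G} (c : C3 Q z f y a)
include c

/-- **The embedding.** -/
theorem exists_emb : ∃ (k w d : G) (φ : QJ →* G), Function.Injective φ ∧
    (∀ x, φ (qj x) = g13 (gg f y k z a (tp a f y 4) d w) x) ∧ DD z (tp a f y 4) a y d ∧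
    (∀ u : G, u * z = z * u → u ∈ φ.range) := by
  obtain ⟨k, w, d, E, D, Ak, hg⟩ := c.exists_pres
  obtain ⟨φ, hφ⟩ := qg_univ (good13 hg)
  haveI := simpleJ
  have h1 : φ (qj 1) = z := hφ 1
  have hinj : Function.Injective φ := by
    rw [← MonoidHom.ker_eq_bot_iff]
    rcases (inferInstance : φ.ker.Normal).eq_bot_or_eq_top with h | h
    · exact h
    · exfalso
      have h2 : qj 1 ∈ φ.ker := by rw [h]; exact mem_top _
      rw [MonoidHom.mem_ker, h1] at h2
      exact c.B.pl.ne_one h2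
  refine ⟨k, w, d, φ, hinj, hφ, D, fun u hu => ?_⟩
  refine c.gen Ak φ.range ⟨qj 5, hφ 5⟩ ⟨qj 6, hφ 6⟩ ⟨qj 8, hφ 8⟩ ⟨qj 1, hφ 1⟩ ⟨qj 10, hφ 10⟩ ⟨qj 11, hφ 11⟩ hu

end C3

end Cfsg.Agent.LE.J3U
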