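import Cfsg.Agent.LE.J3U.FD

/-!
# Groups of `J₃` type, V: the relations (owner: helper80)
-/
set_option autoImplicit false
set_option linter.all false

namespace Cfsg.Agent.LE.J3U

open Subgroup Cfsg.Agent.H90 Equiv Cfsg.Agent.LE Cfsg.Agent.LE.J2U Cfsg.Agent.CosetEnum

variable {G : Type*} [Group G]

/-- the equations inside `C(z)` -/
structure E3 (f y k z a e w : G) : Prop where
  ff : f * f = 1
  zz : z * z = 1
  aa : a * a = 1
  ee : e * e = 1
  ww : w * w = 1
  yyy : y * y * y = 1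
  kkk : k * k * k = 1
  fy3 : (f * y) * (f * y) * (f * y) = 1
  fYK : (f * y⁻¹ * k⁻¹) * (f * y⁻¹ * k⁻¹) = 1
  wd : w = f * y⁻¹ * k⁻¹ * y⁻¹
  fz : f * z = z * f
  yz : y * z = z * y
  kz : k * z = z * k
  az : a * z = z * a
  ez : e * z = z * e
  wz : w * z = z * w
  ya : y * a = a * y
  ake : k * e = a * k
  fe : f * e = e * f
  ye : y * e = e * y
  ae : a * e = z * (e * a)
  u : (y * f * y⁻¹ * k) * a = a * (y * f * y⁻¹ * k)
  T : f * a * f * ((y⁻¹ * f * y) * a * (y⁻¹ * f * y)) * ((y * f * y⁻¹) * a * (y * f * y⁻¹)) * a * e = 1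
  T3 : (f * a * f) * a * ((f * a * f) * a) = z
  wa : w * a = e * w
  we : w * e = a * w
  wy : w * y * w = y⁻¹
  nz : z ≠ 1
  nez : e ≠ z

/-- the basic relators -/
def base3 : List (List ℕ × ℕ) := [([2, 2, 2], 1), ([4, 4, 4], 1), ([1, 2], 3), ([1, 3, 5], 2), ([1, 3, 5, 3], 2),
  ([6, 1], 2), ([6, 2, 6, 3], 1), ([6, 7], 2), ([6, 8], 2), ([6, 4, 6, 5], 1), ([7, 2, 7, 3], 1), ([5, 7, 4, 8], 1),
  ([8, 1], 2), ([8, 2, 8, 3], 1), ([7, 2, 1, 3, 4, 7, 5, 2, 1, 3], 1),
  ([1, 7, 1, 3, 1, 2, 7, 3, 1, 2, 2, 1, 3, 7, 2, 1, 3, 7, 8], 1), ([1, 7, 1, 7, 1, 7, 1, 7, 6], 1),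
  ([11, 2, 4, 2, 1], 1), ([11, 7, 11, 8], 1), ([6, 11], 2), ([11, 2, 11, 2], 1),
  ([9, 9, 9], 1), ([10, 6, 9, 8], 1), ([10, 8, 9, 8, 6], 1), ([9, 2, 10, 3], 1), ([9, 7], 2)]

theorem E3.good {f y k z a e d w : G} (E : E3 f y k z a e w) (D : DD z e a y d) {ex : List (List ℕ × ℕ)}
    (hex : ∀ p ∈ ex, ((p.1.map (gg f y k z a e d w)).prod) ^ p.2 = 1) :
    Good (gg f y k z a e d w) 11 J2U.iv (base3 ++ ex) := by
  have fi : f⁻¹ = f := inv_eq_of_mul_eq_one_left E.ff
  have zi : z⁻¹ = z := inv_eq_of_mul_eq_one_left E.zz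
  have ai : a⁻¹ = a := inv_eq_of_mul_eq_one_left E.aa
  have ei : e⁻¹ = e := inv_eq_of_mul_eq_one_left E.ee
  have si : w⁻¹ = w := inv_eq_of_mul_eq_one_left E.ww
  refine ⟨?_, ?_, ?_⟩
  · intro x
    match x with
    | 0 => simp [J2U.iv, ivL, gg]
    | 1 => simp [J2U.iv, ivL, gg, fi]
    | 2 => simp [J2U.iv, ivL, gg]
    | 3 => simp [J2U.iv, ivL, gg]
    | 4 => simp [J2U.iv, ivL, gg]
    | 5 => simp [J2U.iv, ivL, gg]
    | 6 => simp [J2U.iv, ivL, gg, zi]
    | 7 => simp [J2U.iv, ivL, gg, ai]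
    | 8 => simp [J2U.iv, ivL, gg, ei]
    | 9 => simp [J2U.iv, ivL, gg]
    | 10 => simp [J2U.iv, ivL, gg]
    | 11 => simp [J2U.iv, ivL, gg, si]
    | (n + 12) => simp [J2U.iv, ivL, gg]
  · intro x hx
    match x with
    | 0 => rfl
    | 1 | 2 | 3 | 4 | 5 | 6 | 7 | 8 | 9 | 10 | 11 => exact absurd hx (by decide)
    | (n + 12) => rfl
  · intro r hr
    rw [List.mem_append] at hr
    rcases hr with hr | hr
    · simp only [base3, List.mem_cons, List.not_mem_nil, or_false] at hr
      rcases hr with rfl | rfl | rfl | rfl | rfl | rfl | rfl | rfl | rfl | rfl | rfl | rfl | rfl | rfl | rfl | rfl |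
        rfl | rfl | rfl | rfl | rfl | rfl | rfl | rfl | rfl | rfl <;>
      simp only [List.map_cons, List.map_nil, List.prod_cons, List.prod_nil, mul_one, pow_succ, pow_zero, one_mul, gg]
      · rw [← mul_assoc]; exact E.yyy
      · rw [← mul_assoc]; exact E.kkk
      · exact E.fy3
      · rw [← mul_assoc f]; exact E.fYK
      · have := E.ww
        rw [E.wd] at this
        simp only [mul_assoc] at this ⊢; exact this
      · exact cc1 E.fz E.zz E.ff
      · exact cc2 E.yz E.zz
      · exact cc1 E.az E.zz E.aa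
      · exact cc1 E.ez E.zz E.ee
      · exact cc2 E.kz E.zz
      · exact cc2 E.ya E.aa
      · rw [E.ake, ← mul_assoc a, E.aa]; group
      · exact cc1 E.fe E.ee E.ff
      · exact cc2 E.ye E.ee
      · have h1 : k⁻¹ * (y * (f * y⁻¹)) = (y * f * y⁻¹ * k)⁻¹ := by
          simp only [mul_inv_rev, fi, inv_inv, mul_assoc]
        rw [h1]
        calc a * (y * (f * (y⁻¹ * (k * (a * (y * f * y⁻¹ * k)⁻¹))))) = a * ((y * f * y⁻¹ * k) * a) * (y * f * y⁻¹ * k)⁻¹ := by
              group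
          _ = a * a := by rw [E.u]; group
          _ = 1 := E.aa
      · have := E.T
        simp only [mul_assoc] at this ⊢; exact this
      · have := E.T3
        have h1 : (f * a * f) * a * ((f * a * f) * a) * z = 1 := by rw [this, E.zz]
        simp only [mul_assoc] at h1 ⊢; exact h1
      · rw [E.wd]
        calc f * y⁻¹ * k⁻¹ * y⁻¹ * (y * (k * (y * f))) = f * f := by group
          _ = 1 := E.ff
      · calc w * (a * (w * e)) = (w * a) * (w * e) := by group
          _ = e * (w * w) * e := by rw [E.wa]; group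
          _ = 1 := by rw [E.ww, mul_one, E.ee]
      · exact cc1 E.wz E.zz E.ww
      · calc w * (y * (w * y)) = (w * y * w) * y := by group
          _ = 1 := by rw [E.wy, inv_mul_cancel]
      · rw [← mul_assoc]; exact D.ddd
      · rw [← D.dz, ← mul_assoc z, E.zz]; group
      · calc d⁻¹ * (e * (d * (e * z))) = d⁻¹ * (e * d) * (e * z) := by group
          _ = z * (e * e) * z := by rw [D.de]; group
          _ = 1 := by rw [E.ee, mul_one, E.zz]
      · calc d * (y * (d⁻¹ * y⁻¹)) = (d * y) * d⁻¹ * y⁻¹ := by group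
          _ = 1 := by rw [← D.dy]; group
      · exact D.da
    · exact hex r hr

/-- all permutations needed -/
theorem perm_facts3 : (pf * py⁻¹ * pk⁻¹) ≠ 1 := perm_facts.1.1

namespace C3

variable [Finite G] {Q : Subgroup G} {z f y a : G} (c : C3 Q z f y a)
include c

theorem exists_e3 : ∃ k w : G, E3 f y k z a (tp a f y 4) w ∧ A0 z (tp a f y) k pk ∧
    A0 z (tp a f y) w (pf * py⁻¹ * pk⁻¹ * py⁻¹) := by
  have B := c.B
  obtain ⟨e, he⟩ : ∃ e, e = tp a f y 4 := ⟨_, rfl⟩
  have ha : tp a f y 3 = a := by simp [tp]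
  have Af : A0 z (tp a f y) f pf := ⟨c.F.fz, c.F.actf⟩
  have Ay : A0 z (tp a f y) y py := ⟨c.F.yz, c.F.acty⟩
  obtain ⟨pa, pb, p34, p43, pyy, pu, pk3, pkm⟩ := perm_facts
  obtain ⟨k, Ak, hk3⟩ := A0.exists_three B pkm pk3
  have A1 : A0 z (tp a f y) (f * y⁻¹ * k⁻¹) (pf * py⁻¹ * pk⁻¹) := A0.mul B (A0.mul B Af (A0.inv B Ay)) (A0.inv B Ak)
  have AW : A0 z (tp a f y) (f * y⁻¹ * k⁻¹ * y⁻¹) (pf * py⁻¹ * pk⁻¹ * py⁻¹) := A0.mul B A1 (A0.inv B Ay)
  have fz := c.F.fz
  have fQ := c.fQ
  have ff := c.F.fy.ff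
  have hV := A0.invol B fz fQ ff A1 pa.1 pa.2
  have hWW := A0.invol B fz fQ ff AW pb.1 pb.2
  have hya : y * a = a * y := c.F.ya
  have hye : y * e = e * y := by rw [he]; exact c.y_e
  have hfe : f * e = e * f := by rw [he]; exact c.f_e
  have aa := c.F.aa
  have zz := c.F.zz
  have fi : f⁻¹ = f := inv_eq_of_mul_eq_one_left ff
  have hez : e * z = z * e := by rw [he]; exact c.e_z
  have hae : a * e = z * (e * a) := by rw [he]; exact c.a_e
  have ee : e * e = 1 := by rw [he]; exact c.e_e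
  have hake : k * e = a * k := by
    have := A0.conj B Ak 4
    rw [pk_spec.1, ha, ← he, mul_inv_eq_iff_eq_mul] at this
    exact this
  have hu : (y * f * y⁻¹ * k) * a = a * (y * f * y⁻¹ * k) := by
    have A2 : A0 z (tp a f y) (y * f * y⁻¹ * k) (py * pf * py⁻¹ * pk) :=
      A0.mul B (A0.mul B (A0.mul B Ay Af) (A0.inv B Ay)) Ak
    have := A0.conj B A2 3
    rw [pu, ha, mul_inv_eq_iff_eq_mul] at this
    exact this
  have hfy3 : (f * y) * (f * y) * (f * y) = 1 := by
    have h1 := c.F.fy.rel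
    have h2 := c.F.fy.comm
    have yyy := c.F.fy.yyy
    have yi : y⁻¹ = y * y := c.F.yi
    calc (f * y) * (f * y) * (f * y) = f * (y * f * y⁻¹) * (y * y * f * y) := by group
      _ = f * (f * (y⁻¹ * f * y)) * (y⁻¹ * f * y) := by rw [← h1, ← yi]
      _ = (f * f) * (y⁻¹ * (f * f) * y) := by group
      _ = 1 := by rw [ff]; group
  have hTT : f * a * f * ((y⁻¹ * f * y) * a * (y⁻¹ * f * y)) * ((y * f * y⁻¹) * a * (y * f * y⁻¹)) * a * e = 1 := by
    have h0 : f * a * f = tp a f y 0 := by simp [tp]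
    have h1 := Four.t4_eq (a := a) (f := f) (y := y)
    rw [ha] at h1
    rw [← c.F.t1_eq, ← c.F.t2_eq, h0, ← h1, ← he]
    exact ee
  have hT3 : (f * a * f) * a * ((f * a * f) * a) = z := by
    have h0 : f * a * f = tp a f y 0 := by simp [tp]
    have h1 := B.pts.anti 0 3 (by decide)
    rw [ha] at h1
    rw [h0]
    calc tp a f y 0 * a * (tp a f y 0 * a) = (z * (a * tp a f y 0)) * (tp a f y 0 * a) := by rw [h1]
      _ = z * a * (tp a f y 0 * tp a f y 0) * a := by group
      _ = z * (a * a) := by rw [c.F.sq0]; group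
      _ = z := by rw [aa, mul_one]
  obtain ⟨W, hW⟩ : ∃ W, W = f * y⁻¹ * k⁻¹ * y⁻¹ := ⟨_, rfl⟩
  rw [← hW] at AW hWW
  have Wi : W⁻¹ = W := inv_eq_of_mul_eq_one_left hWW
  have hWa : W * a = e * W := by
    have := A0.conj B AW 3
    rw [p34, ha, ← he, mul_inv_eq_iff_eq_mul] at this
    exact this
  have hWe : W * e = a * W := by
    have := A0.conj B AW 4
    rw [p43, ha, ← he, mul_inv_eq_iff_eq_mul] at this
    exact this
  have hWz : W * z = z * W := AW.1
  have hWy : W * y * W = y⁻¹ := by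
    have A3 : A0 z (tp a f y) (W * y * W) py⁻¹ := by
      have := A0.mul B (A0.mul B AW Ay) AW
      rw [pyy] at this
      exact this
    refine A0.eq_three B A3 (A0.inv B Ay) ?_ ?_
    · calc W * y * W * (W * y * W) * (W * y * W) = W * y * (W * W) * y * (W * W) * y * W := by group
        _ = W * (y * y * y) * W := by rw [hWW]; group
        _ = 1 := by rw [c.F.fy.yyy, mul_one, hWW]
    · rw [← mul_inv_rev, ← mul_inv_rev, ← mul_assoc, c.F.fy.yyy, inv_one]
  refine ⟨k, W, ?_, Ak, AW⟩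
  rw [← he]
  exact { ff := ff, zz := zz, aa := aa, ee := ee, ww := hWW, yyy := c.F.fy.yyy, kkk := hk3, fy3 := hfy3, fYK := hV,
          wd := hW, fz := c.F.fz, yz := c.F.yz, kz := Ak.1, az := c.F.az, ez := hez, wz := hWz, ya := hya,
          ake := hake, fe := hfe, ye := hye, ae := hae, u := hu, T := hTT, T3 := hT3, wa := hWa, we := hWe, wy := hWy,
          nz := B.pl.ne_one, nez := by rw [he]; exact c.ez }

end C3

/-- the second element of order 3 -/
structure GD (z e a y g : G) : Prop where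
  gz : z * g = g * a
  ga : a * g = g * (z * a)
  gy : y * g = g * y
  ggg : g * g * g = 1
  ge : (g * e) * (g * e) = 1

theorem gd_of {f y k z a e w d : G} (E : E3 f y k z a e w) (D : DD z e a y d) : GD z e a y (w * d * w) := by
  have ww := E.ww
  have hWyi : w * y⁻¹ = y * w := by
    have := E.wy
    calc w * y⁻¹ = w * (w * y * w) := by rw [this]
      _ = (w * w) * y * w := by group
      _ = y * w := by rw [ww, one_mul]
  have hWy' : w * y = y⁻¹ * w := by
    calc w * y = (w * y * w) * w := by rw [mul_assoc, ww, mul_one]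
      _ = y⁻¹ * w := by rw [E.wy]
  have dyi : y⁻¹ * d = d * y⁻¹ := (show Commute y d from D.dy).inv_left
  refine ⟨?_, ?_, ?_, ?_, ?_⟩
  · calc z * (w * d * w) = (z * w) * d * w := by group
      _ = w * (z * d) * w := by rw [← E.wz]; group
      _ = w * d * (e * w) := by rw [D.dz]; group
      _ = w * d * w * a := by rw [← E.wa]; group
  · calc a * (w * d * w) = (a * w) * d * w := by group
      _ = w * (e * d) * w := by rw [← E.we]; group
      _ = w * d * z * (e * w) := by rw [D.de]; group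
      _ = w * d * (z * w) * a := by rw [← E.wa]; group
      _ = w * d * w * (z * a) := by rw [← E.wz]; group
  · have : w * d * w * y = y * (w * d * w) := by
      calc w * d * w * y = w * d * (w * y) := by group
        _ = w * (d * y⁻¹) * w := by rw [hWy']; group
        _ = (w * y⁻¹) * d * w := by rw [← dyi]; group
        _ = y * (w * d * w) := by rw [hWyi]; group
    exact this.symm
  · calc w * d * w * (w * d * w) * (w * d * w) = w * d * (w * w) * d * (w * w) * d * w := by group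
      _ = w * (d * d * d) * w := by rw [ww]; group
      _ = 1 := by rw [D.ddd, mul_one, ww]
  · have h1 : w * d * w * e = w * (d * a) * w := by
      calc w * d * w * e = w * d * (w * e) := by group
        _ = w * (d * a) * w := by rw [E.we]; group
    rw [h1]
    calc w * (d * a) * w * (w * (d * a) * w) = w * (d * a) * (w * w) * (d * a) * w := by group
      _ = w * ((d * a) * (d * a)) * w := by rw [ww]; group
      _ = 1 := by rw [D.da, mul_one, ww]

end Cfsg.Agent.LE.J3U
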