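import Cfsg.Agent.CosetEnum.Level
import Cfsg.Agent.LE.J3U.F0Data
import Cfsg.Agent.LE.J3U.F0P0
import Cfsg.Agent.LE.J3U.F0P1
import Cfsg.Agent.LE.J3U.F0P2
import Cfsg.Agent.LE.J3U.F0P3
import Cfsg.Agent.LE.J3U.F0P4
import Cfsg.Agent.LE.J3U.F0P5
import Cfsg.Agent.LE.J3U.F0P6
import Cfsg.Agent.LE.J3U.T6Data
import Cfsg.Agent.LE.J3U.T6P0
import Cfsg.Agent.LE.J3U.T6P1
import Cfsg.Agent.LE.J3U.T6P2

/-! Coset enumeration certificate (generated; owner: helper80, tool of helper28). -/

set_option autoImplicit false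
set_option maxRecDepth 1000000

namespace Cfsg.Agent.CosetEnum.J3U
open Cfsg.Agent.CosetEnum

namespace F0

theorem st : staticOK 11 iv (RL.map expand) subs P L = true := by decide +kernel

theorem seg : Seg P L P.m 26163 :=
  (((((((Seg.nil).snoc part0).snoc part1).snoc part2).snoc part3).snoc part4).snoc part5).snoc part6

theorem cert : Cert 11 iv RL subs 26163 := fun g H hl hrels hsubs =>
  upper g H 11 iv hl (RL.map expand) subs hrels hsubs P L rfl st seg

end F0

namespace T6

theorem st : staticOK 11 iv (RL.map expand) subs P L = true := by decide +kernel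

theorem seg : Seg P L P.m 6156 :=
  (((Seg.nil).snoc part0).snoc part1).snoc part2

theorem cert : Cert 11 iv RL subs 6156 := fun g H hl hrels hsubs =>
  upper g H 11 iv hl (RL.map expand) subs hrels hsubs P L rfl st seg

end T6

end Cfsg.Agent.CosetEnum.J3U
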