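import Cfsg.Agent.LE.J3U.D

/-!
# Groups of `J₃` type, IV: the conjugate of `f` by `d` (owner: helper80)
-/
set_option autoImplicit false
set_option linter.all false

namespace Cfsg.Agent.LE.J3U

open Subgroup Cfsg.Agent.H90 Equiv Cfsg.Agent.LE Cfsg.Agent.LE.J2U

variable {G : Type*} [Group G]

set_option maxRecDepth 100000 in
theorem klein_py : ∀ σ : Perm (Fin 5), (σ = t1 ∨ σ = t2 ∨ σ = t3) → ∃ j < 3, (py ^ j)⁻¹ * σ * py ^ j = pf := by
  intro σ h
  rcases h with rfl | rfl | rfl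
  · first
      | exact ⟨0, by decide, by decide⟩
      | exact ⟨1, by decide, by decide⟩
      | exact ⟨2, by decide, by decide⟩
  · first
      | exact ⟨0, by decide, by decide⟩
      | exact ⟨1, by decide, by decide⟩
      | exact ⟨2, by decide, by decide⟩
  · first
      | exact ⟨0, by decide, by decide⟩
      | exact ⟨1, by decide, by decide⟩
      | exact ⟨2, by decide, by decide⟩

/-- signs of `a f a` -/
def sg1 : Fin 5 → ZMod 2 := ![1, 0, 0, 1, 0]
/-- signs of `e f` -/
def sg2 : Fin 5 → ZMod 2 := ![1, 1, 1, 1, 0]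
/-- signs of `e a f a` -/
def sg3 : Fin 5 → ZMod 2 := ![0, 1, 1, 0, 0]

set_option maxRecDepth 100000 in
theorem sg_cases : ∀ s : Fin 5 → ZMod 2, (s 4 = 0 ∧ ∀ i, s i + s (pf i) = 0) → s = 0 ∨ s = sg1 ∨ s = sg2 ∨ s = sg3 := by
  decide +kernel

/-- the product of the conjugates under `y` -/
def p3 (y u : G) : G := u * (y⁻¹ * u * y) * (y * u * y⁻¹)

theorem p3_mul {y t u : G} (ty : t * y = y * t) (tu : t * u = u * t) (tt : t * t = 1) :
    p3 y (t * u) = t * p3 y u := by
  unfold p3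
  have yt : y⁻¹ * t = t * y⁻¹ := by rw [inv_mul_eq_iff_eq_mul, ← mul_assoc, ← ty]; group
  have h1 : y⁻¹ * (t * u) * y = t * (y⁻¹ * u * y) := by rw [← mul_assoc, yt]; group
  have h2 : y * (t * u) * y⁻¹ = t * (y * u * y⁻¹) := by rw [← mul_assoc, ← ty]; group
  have h3 : u * (y⁻¹ * u * y) * t = t * (u * (y⁻¹ * u * y)) := by
    have c1 : Commute t u := tu
    have c2 : Commute t y := ty
    exact (c1.mul_right (((c2.inv_right).mul_right c1).mul_right c2)).eq.symm
  have h4 : u * t = t * u := tu.symm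
  rw [h1, h2]
  calc t * u * (t * (y⁻¹ * u * y)) * (t * (y * u * y⁻¹))
      = t * (u * t) * (y⁻¹ * u * y) * (t * (y * u * y⁻¹)) := by group
    _ = (t * t) * (u * (y⁻¹ * u * y) * t) * (y * u * y⁻¹) := by rw [h4]; group
    _ = t * (u * (y⁻¹ * u * y) * (y * u * y⁻¹)) := by rw [tt, h3]; group

theorem p3_conj {y t u : G} (ty : t * y = y * t) : p3 y (t * u * t⁻¹) = t * p3 y u * t⁻¹ := by
  unfold p3
  have yt : y⁻¹ * t = t * y⁻¹ := by rw [inv_mul_eq_iff_eq_mul, ← mul_assoc, ← ty]; group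
  have ty' : t⁻¹ * y = y * t⁻¹ := by rw [inv_mul_eq_iff_eq_mul, ← mul_assoc, ty]; group
  have yt' : t⁻¹ * y⁻¹ = y⁻¹ * t⁻¹ := by rw [← mul_inv_rev, ← mul_inv_rev, ty]
  have h1 : y⁻¹ * (t * u * t⁻¹) * y = t * (y⁻¹ * u * y) * t⁻¹ := by
    calc y⁻¹ * (t * u * t⁻¹) * y = (y⁻¹ * t) * u * (t⁻¹ * y) := by group
      _ = _ := by rw [yt, ty']; group
  have h2 : y * (t * u * t⁻¹) * y⁻¹ = t * (y * u * y⁻¹) * t⁻¹ := by
    calc y * (t * u * t⁻¹) * y⁻¹ = (y * t) * u * (t⁻¹ * y⁻¹) := by group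
      _ = _ := by rw [← ty, yt']; group
  rw [h1, h2]; group

theorem p3_f {f y : G} (h : FY f y) : p3 y f = 1 := by
  unfold p3
  rw [h.rel]
  calc y * f * y⁻¹ * (y * f * y⁻¹) = y * (f * f) * y⁻¹ := by group
    _ = 1 := by rw [h.ff]; group

theorem p3_one {y u : G} (uy : u * y = y * u) (uu : u * u = 1) (h : p3 y u = 1) : u = 1 := by
  unfold p3 at h
  have h1 : y⁻¹ * u * y = u := by rw [mul_assoc, uy]; group
  have h2 : y * u * y⁻¹ = u := by rw [← uy]; group
  rw [h1, h2, uu, one_mul] at h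
  exact h

namespace C3

variable [Finite G] {Q : Subgroup G} {z f y a : G} (c : C3 Q z f y a)
include c

theorem afa_e : (a * f * a) * tp a f y 4 = tp a f y 4 * (a * f * a) := by
  have h1 := c.a_e
  have h2 := c.e_a
  have h3 := c.f_e
  obtain ⟨e, he⟩ : ∃ e, e = tp a f y 4 := ⟨_, rfl⟩
  rw [← he] at h1 h2 h3 ⊢
  have zz := c.F.zz
  have az := c.F.az
  have fz := c.F.fz
  calc (a * f * a) * e = a * f * (a * e) := by group
    _ = a * (f * z) * e * a := by rw [h1]; group
    _ = (a * z) * (f * e) * a := by rw [fz]; group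
    _ = z * (a * e) * f * a := by rw [az, h3]; group
    _ = (z * z) * (e * (a * f * a)) := by rw [h1]; group
    _ = _ := by rw [zz, one_mul]

theorem p3_afa : p3 y (a * f * a) = 1 := by
  have aa := c.F.aa
  have ai : a⁻¹ = a := inv_eq_of_mul_eq_one_left aa
  have := p3_conj (y := y) (t := a) (u := f) c.F.ya.symm
  rw [ai, p3_f c.F.fy, mul_one, aa] at this
  exact this

theorem actAFA : Act z (tp a f y) (a * f * a) pf sg1 := by
  have h1 := act_self c.B.pl c.B.pts 3
  have ha : tp a f y 3 = a := by simp [tp]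
  rw [ha] at h1
  have h2 := act_mul c.B.pl c.F.az h1 c.F.actf
  have h3 : a * f * z = z * (a * f) := by rw [mul_assoc, c.F.fz, ← mul_assoc, c.F.az, mul_assoc]
  have h4 := act_mul c.B.pl h3 h2 h1
  intro i
  rw [h4 i]
  have : ∀ i : Fin 5, ((if i = 3 then (0 : ZMod 2) else 1) + ((0 : Fin 5 → ZMod 2) ((1 : Perm (Fin 5)) i) +
      (if pf ((1 : Perm (Fin 5)) i) = 3 then 0 else 1))) = sg1 i := by decide
  beta_reduce
  rw [this i]
  simp

theorem actEF : Act z (tp a f y) (tp a f y 4 * f) pf sg2 := by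
  have h1 := act_self c.B.pl c.B.pts 4
  have h2 := act_mul c.B.pl (c.B.pts.comm_z c.B.pl 4) h1 c.F.actf
  intro i
  rw [h2 i]
  have : ∀ i : Fin 5, ((0 : Fin 5 → ZMod 2) i + (if pf i = 4 then (0 : ZMod 2) else 1)) = sg2 i := by decide
  beta_reduce
  rw [this i]
  simp

theorem actEAFA : Act z (tp a f y) (tp a f y 4 * (a * f * a)) pf sg3 := by
  have h1 := act_self c.B.pl c.B.pts 4
  have h2 := act_mul c.B.pl (c.B.pts.comm_z c.B.pl 4) h1 c.actAFA
  intro i
  rw [h2 i]
  have : ∀ i : Fin 5, (sg1 i + (if pf i = 4 then (0 : ZMod 2) else 1)) = sg3 i := by decide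
  beta_reduce
  rw [this i]
  simp

theorem lemmaA {ψ : G} (hz : ψ * z = z * ψ) (he : ψ * tp a f y 4 = tp a f y 4 * ψ) (h2 : ψ * ψ = 1) (h1 : ψ ≠ 1)
    (h3 : p3 y ψ = 1) : ∃ j < 3, ψ = y ^ j * f * (y ^ j)⁻¹ ∨ ψ = y ^ j * (a * f * a) * (y ^ j)⁻¹ := by
  have B := c.B
  have zz := c.F.zz
  obtain ⟨e, hee⟩ : ∃ e, e = tp a f y 4 := ⟨_, rfl⟩
  have ye : y * e = e * y := by rw [hee]; exact c.y_e
  have e2 : e * e = 1 := by rw [hee]; exact c.e_e
  have ez : e * z = z * e := by rw [hee]; exact c.e_z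
  have yzp : ∀ b, zp z b * y = y * zp z b := fun b => (zp_comm c.F.yz b).symm
  -- `ψ ∉ Q`
  have hQ : ψ ∉ Q := by
    intro hQ
    have hzy : z * y = y * z := c.F.yz.symm
    by_cases hψz : ψ = z
    · rw [hψz] at h3
      exact B.pl.ne_one (p3_one hzy zz h3)
    obtain ⟨b, l, hl⟩ := invol_form B.pl B.pts B.cardQ hQ h1 hψz h2
    have hl4 : l = 4 := by
      by_contra hl4
      have h5 := B.pts.anti l 4 hl4
      rw [hl] at he
      have h6 : zp z b * (tp a f y l * tp a f y 4) = zp z b * (tp a f y 4 * tp a f y l) := by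
        calc zp z b * (tp a f y l * tp a f y 4) = zp z b * tp a f y l * tp a f y 4 := by group
          _ = (tp a f y 4 * zp z b) * tp a f y l := by rw [he]; group
          _ = _ := by rw [zp_comm (B.pts.comm_z B.pl 4)]; group
      have h7 := mul_left_cancel h6
      rw [h7] at h5
      exact B.pl.ne_one (by simpa using h5.symm)
    rw [hl4, ← hee] at hl
    apply h1
    refine p3_one ?_ h2 h3
    rw [hl, mul_assoc, ← ye, ← mul_assoc, yzp, mul_assoc]
  obtain ⟨σ, hσ, s, hs, hact⟩ := B.act hz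
  have hσ1 : σ ≠ 1 := by
    rintro rfl
    exact hQ (B.mem_of_act_one hz hact)
  have h4 := hact 4
  rw [he, mul_inv_cancel_right] at h4
  have h5 : zp z 0 * tp a f y 4 = zp z (s 4) * tp a f y (σ 4) := by rw [zp_zero, one_mul]; exact h4
  obtain ⟨h6, h7⟩ := B.pts.eq_of B.pl h5
  have h8 := act_mul B.pl hz hact hact
  rw [h2] at h8
  obtain ⟨h9, h10⟩ := act_unique B.pl B.pts (act_one B.pl) h8
  obtain ⟨j, hj, hjσ⟩ := klein_py σ (klein_form σ (Equiv.Perm.mem_alternatingGroup.mp hσ) h9.symm hσ1 h6.symm)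
  refine ⟨j, hj, ?_⟩
  -- conjugate
  have hyz : ∀ n : ℕ, y ^ n * z = z * y ^ n := fun n => (show Commute y z from c.F.yz).pow_left n
  have hyiz : (y ^ j)⁻¹ * z = z * (y ^ j)⁻¹ := by
    rw [inv_mul_eq_iff_eq_mul, ← mul_assoc, hyz j]; group
  have hyie : (y ^ j)⁻¹ * e = e * (y ^ j)⁻¹ := by
    have : (y ^ j) * e = e * (y ^ j) := (show Commute y e from ye).pow_left j
    rw [inv_mul_eq_iff_eq_mul, ← mul_assoc, this]; group
  have hactp : ∀ n : ℕ, Act z (tp a f y) (y ^ n) (py ^ n) 0 := by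
    intro n
    induction n with
    | zero => simpa using act_one B.pl
    | succ n ih =>
      have := act_mul B.pl (hyz n) ih c.F.acty
      rw [pow_succ, pow_succ]
      intro j
      rw [this j]
      simp
  obtain ⟨φ, hφ⟩ : ∃ φ, φ = (y ^ j)⁻¹ * ψ * (y ^ j) := ⟨_, rfl⟩
  have hψφ : ψ = y ^ j * φ * (y ^ j)⁻¹ := by rw [hφ]; group
  have hyψ : (y ^ j)⁻¹ * ψ * z = z * ((y ^ j)⁻¹ * ψ) := by rw [mul_assoc, hz, ← mul_assoc, hyiz, mul_assoc]
  have φz : φ * z = z * φ := by rw [hφ, mul_assoc, hyz j, ← mul_assoc, hyψ]; group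
  have φe : φ * e = e * φ := by
    rw [hφ]
    have hh : y ^ j * e = e * y ^ j := (show Commute y e from ye).pow_left j
    rw [← hee] at he
    calc (y ^ j)⁻¹ * ψ * y ^ j * e = (y ^ j)⁻¹ * ψ * (y ^ j * e) := by group
      _ = (y ^ j)⁻¹ * (ψ * e) * y ^ j := by rw [hh]; group
      _ = ((y ^ j)⁻¹ * e) * ψ * y ^ j := by rw [he]; group
      _ = _ := by rw [hyie]; group
  have φφ : φ * φ = 1 := by
    calc φ * φ = (y ^ j)⁻¹ * (ψ * ψ) * y ^ j := by rw [hφ]; group
      _ = 1 := by rw [h2]; group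
  have φp : p3 y φ = 1 := by
    have ty : (y ^ j)⁻¹ * y = y * (y ^ j)⁻¹ := by
      have : Commute (y ^ j) y := (Commute.refl y).pow_left j
      exact this.inv_left
    have := p3_conj (y := y) (t := (y ^ j)⁻¹) (u := ψ) ty
    rw [inv_inv, h3, mul_one, inv_mul_cancel, ← hφ] at this
    exact this
  have aφ := act_mul B.pl hyψ (act_mul B.pl hyiz (act_inv B.pl (hyz j) (hactp j)) hact) (hactp j)
  rw [← hφ, hjσ] at aφ
  obtain ⟨s', hs'⟩ : ∃ s' : Fin 5 → ZMod 2, Act z (tp a f y) φ pf s' := ⟨_, aφ⟩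
  have s4 : s' 4 = 0 := by
    have := hs' 4
    rw [← hee, φe, mul_inv_cancel_right] at this
    have h11 : zp z 0 * tp a f y 4 = zp z (s' 4) * tp a f y (pf 4) := by rw [zp_zero, one_mul, ← hee]; exact this
    exact (B.pts.eq_of B.pl h11).2.symm
  have s5 : ∀ i, s' i + s' (pf i) = 0 := by
    intro i
    have := act_mul B.pl φz hs' hs'
    rw [φφ] at this
    exact (congrFun (act_unique B.pl B.pts (act_one B.pl) this).2 i).symm
  -- the four cases
  have fin : ∀ u : G, u * z = z * u → u * e = e * u → p3 y u = 1 → ∀ t : G, t * y = y * t → t * u = u * t → t * t = 1 →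
      φ = t * u → φ = u := by
    intro u uz ue up t ty tu tt hφ
    have := p3_mul ty tu tt
    rw [← hφ, φp, up, mul_one] at this
    rw [hφ, ← this, one_mul]
  have zpc : ∀ b (u : G), u * z = z * u → zp z b * u = u * zp z b := fun b u hu => (zp_comm hu b).symm
  have zpt : ∀ b : ZMod 2, zp z b * zp z b = 1 := fun b => by rw [zp_self B.pl.toXS]
  have fe : f * e = e * f := by rw [hee]; exact c.f_e
  have afae : (a * f * a) * e = e * (a * f * a) := by rw [hee]; exact c.afa_e
  have afaz : (a * f * a) * z = z * (a * f * a) := by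
    have h1 : Commute a z := c.F.az
    have h2 : Commute f z := c.F.fz
    exact ((h1.mul_left h2).mul_left h1)
  have zet : ∀ b : ZMod 2, (zp z b * e) * (zp z b * e) = 1 := fun b => by
    calc (zp z b * e) * (zp z b * e) = zp z b * (e * zp z b) * e := by group
      _ = (zp z b * zp z b) * (e * e) := by rw [← zpc b e ez]; group
      _ = 1 := by rw [zpt, e2, one_mul]
  rcases sg_cases s' ⟨s4, s5⟩ with h | h | h | h <;> rw [h] at hs'
  · obtain ⟨b, hb⟩ := B.ext φz c.F.fz hs' c.F.actf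
    left
    have := fin f c.F.fz fe (p3_f c.F.fy) (zp z b) (yzp b) (zpc b f c.F.fz) (zpt b) hb
    rw [hψφ, this]
  · obtain ⟨b, hb⟩ := B.ext φz afaz hs' c.actAFA
    right
    have := fin _ afaz afae c.p3_afa (zp z b) (yzp b) (zpc b _ afaz) (zpt b) hb
    rw [hψφ, this]
  · have efz : e * f * z = z * (e * f) := by rw [mul_assoc, c.F.fz, ← mul_assoc, ez, mul_assoc]
    obtain ⟨b, hb⟩ := B.ext φz (by rw [← hee]; exact efz) hs' c.actEF
    rw [← hee, ← mul_assoc] at hb
    left
    have hc : (zp z b * e) * f = f * (zp z b * e) := by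
      rw [mul_assoc, ← fe, ← mul_assoc, zpc b f c.F.fz, mul_assoc]
    have := fin f c.F.fz fe (p3_f c.F.fy) (zp z b * e) (by
      rw [mul_assoc, ← ye, ← mul_assoc, yzp, mul_assoc]) hc (zet b) hb
    rw [hψφ, this]
  · have efz : e * (a * f * a) * z = z * (e * (a * f * a)) := by rw [mul_assoc, afaz, ← mul_assoc, ez, mul_assoc]
    obtain ⟨b, hb⟩ := B.ext φz (by rw [← hee]; exact efz) hs' c.actEAFA
    rw [← hee, ← mul_assoc] at hb
    right
    have hc : (zp z b * e) * (a * f * a) = (a * f * a) * (zp z b * e) := by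
      rw [mul_assoc, ← afae, ← mul_assoc, zpc b _ afaz, mul_assoc]
    have := fin _ afaz afae c.p3_afa (zp z b * e) (by
      rw [mul_assoc, ← ye, ← mul_assoc, yzp, mul_assoc]) hc (zet b) hb
    rw [hψφ, this]

/-- the conjugate of `f` by `d` -/
theorem fd_form {d : G} (D : DD z (tp a f y 4) a y d) : ∃ j < 3, d⁻¹ * f * d = y ^ j * f * (y ^ j)⁻¹ := by
  obtain ⟨e, he⟩ : ∃ e, e = tp a f y 4 := ⟨_, rfl⟩
  obtain ⟨dz, de, dy, ddd, da⟩ := D
  have zz := c.F.zz
  have ee : e * e = 1 := by rw [he]; exact c.e_e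
  have aa := c.F.aa
  have ff := c.F.fy.ff
  have ez : e * z = z * e := by rw [he]; exact c.e_z
  have fz := c.F.fz
  have fe : f * e = e * f := by rw [he]; exact c.f_e
  rw [← he] at dz de
  have dze : (z * e) * d = d * z := by
    calc (z * e) * d = z * (e * d) := by group
      _ = (z * d) * (z * e) := by rw [de]; group
      _ = d * (e * z) * e := by rw [dz]; group
      _ = d * z * (e * e) := by rw [ez]; group
      _ = d * z := by rw [ee, mul_one]
  have fze : f * (z * e) = (z * e) * f := by rw [← mul_assoc, fz, mul_assoc, fe, mul_assoc]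
  have f1 := c.f1
  have cj : ∀ t : G, t * y = y * t → (t * f * t⁻¹) * (t * f * t⁻¹) = 1 ∧ t * f * t⁻¹ ≠ 1 ∧ p3 y (t * f * t⁻¹) = 1 := by
    intro t ht
    refine ⟨?_, ?_, ?_⟩
    · calc (t * f * t⁻¹) * (t * f * t⁻¹) = t * (f * f) * t⁻¹ := by group
        _ = 1 := by rw [ff]; group
    · intro h
      apply f1
      calc f = t⁻¹ * (t * f * t⁻¹) * t := by group
        _ = 1 := by rw [h]; group
    · rw [p3_conj ht, p3_f c.F.fy]; group
  have dyi : d⁻¹ * y = y * d⁻¹ := by
    have : Commute y d := dy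
    exact this.inv_right.eq.symm
  -- `d⁻¹ f d`
  have A1 : ∃ j < 3, d⁻¹ * f * d = y ^ j * f * (y ^ j)⁻¹ ∨ d⁻¹ * f * d = y ^ j * (a * f * a) * (y ^ j)⁻¹ := by
    obtain ⟨q1, q2, q3⟩ := cj d⁻¹ dyi
    rw [inv_inv] at q1 q2 q3
    refine c.lemmaA ?_ ?_ q1 q2 q3
    · have e1 : d⁻¹ * (z * e) * d⁻¹⁻¹ = z := by rw [inv_inv, mul_assoc, dze]; group
      have := comm_of_conj (g := d⁻¹) fze rfl e1
      rwa [inv_inv] at this
    · have e1 : d⁻¹ * z * d⁻¹⁻¹ = e := by rw [inv_inv, mul_assoc, dz]; group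
      have := comm_of_conj (g := d⁻¹) fz rfl e1
      rw [inv_inv, he] at this
      exact this
  -- `d f d⁻¹`
  have A2 : ∃ j < 3, d * f * d⁻¹ = y ^ j * f * (y ^ j)⁻¹ ∨ d * f * d⁻¹ = y ^ j * (a * f * a) * (y ^ j)⁻¹ := by
    obtain ⟨q1, q2, q3⟩ := cj d dy.symm
    refine c.lemmaA ?_ ?_ q1 q2 q3
    · have e1 : d * e * d⁻¹ = z := by rw [← dz]; group
      exact comm_of_conj fe rfl e1
    · have e1 : d * (z * e) * d⁻¹ = e := by rw [← de]; group
      have := comm_of_conj fze rfl e1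
      rw [he] at this
      exact this
  obtain ⟨j, hj, h | h⟩ := A1
  · exact ⟨j, hj, h⟩
  · exfalso
    have ai : a⁻¹ = a := inv_eq_of_mul_eq_one_left aa
    have ya : y * a = a * y := c.F.ya
    have yja : ∀ n : ℕ, Commute (y ^ n) a := fun n => (show Commute y a from ya).pow_left n
    have yjd : ∀ n : ℕ, Commute (y ^ n) d := fun n => (show Commute y d from dy).pow_left n
    -- `(d a)⁻¹ f (d a) = y ^ j f y ^ (-j)`
    obtain ⟨g, hg⟩ : ∃ g, g = d * a := ⟨_, rfl⟩
    have gg : g * g = 1 := by rw [hg]; exact da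
    have gi : g⁻¹ = g := inv_eq_of_mul_eq_one_left gg
    have yjg : ∀ n : ℕ, y ^ n * g = g * y ^ n := fun n => by
      rw [hg]; exact ((yjd n).mul_right (yja n))
    have hg1 : g * f * g = y ^ j * f * (y ^ j)⁻¹ := by
      calc g * f * g = g⁻¹ * f * g := by rw [gi]
        _ = a⁻¹ * (d⁻¹ * f * d) * a := by rw [hg]; group
        _ = (a * y ^ j) * (a * f * a) * ((y ^ j)⁻¹ * a) := by rw [h, ai]; group
        _ = (y ^ j * a) * (a * f * a) * (a * (y ^ j)⁻¹) := by
            rw [← (yja j).eq, (yja j).inv_left.eq]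
        _ = y ^ j * (a * a) * f * (a * a) * (y ^ j)⁻¹ := by group
        _ = _ := by rw [aa, mul_one, mul_one]
    -- applying twice
    have hg2 : f = (y ^ (j + j)) * f * (y ^ (j + j))⁻¹ := by
      calc f = (g * g) * f * (g * g) := by rw [gg]; simp
        _ = g * (g * f * g) * g := by group
        _ = (g * y ^ j) * f * ((y ^ j)⁻¹ * g) := by rw [hg1]; group
        _ = y ^ j * (g * f * g) * (y ^ j)⁻¹ := by
            have : (y ^ j)⁻¹ * g = g * (y ^ j)⁻¹ := (show Commute (y ^ j) g from yjg j).inv_left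
            rw [← yjg j, this]; group
        _ = _ := by rw [hg1, pow_add]; group
    have fyne : ∀ n : ℕ, n < 3 → f * y ^ n = y ^ n * f → n = 0 := by
      intro n hn hc
      by_contra hn0
      have h1 : Commute f (y ^ n) := hc
      have h2 : Commute f y := by
        have hn' : n = 1 ∨ n = 2 := by omega
        rcases hn' with rfl | rfl
        · simpa using h1
        · have h3 : y = (y ^ 2) ^ 2 := by
            have : y ^ 3 = 1 := by rw [pow_succ, pow_two]; exact c.F.fy.yyy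
            calc y = y ^ 3 * y := by rw [this, one_mul]
              _ = (y ^ 2) ^ 2 := by group
          rw [h3]; exact h1.pow_right 2
      have h3 := c.F.fy.rel
      have h4 : y⁻¹ * f * y = f := by rw [mul_assoc, h2.eq]; group
      have h5 : y * f * y⁻¹ = f := by rw [← h2.eq]; group
      rw [h4, h5, ff] at h3
      exact f1 h3.symm
    have y3 : y ^ 3 = 1 := by rw [pow_succ, pow_two]; exact c.F.fy.yyy
    have hj0 : j = 0 := by
      have h1 : f * y ^ (j + j) = y ^ (j + j) * f := by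
        nth_rewrite 1 [hg2]; group
      have hj' : j = 0 ∨ j = 1 ∨ j = 2 := by omega
      rcases hj' with rfl | rfl | rfl
      · rfl
      · have := fyne 2 (by norm_num) (by simpa using h1)
        omega
      · have h2 : y ^ (2 + 2) = y ^ 1 := by
          rw [show 2 + 2 = 3 + 1 from rfl, pow_add, y3, one_mul]
        rw [h2] at h1
        have := fyne 1 (by norm_num) h1
        omega
    rw [hj0, pow_zero, one_mul, inv_one, mul_one] at h
    -- `X = d f d⁻¹` commutes with `a`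
    have hX : a * (d * f * d⁻¹) * a = d * f * d⁻¹ := by
      have h1 : a * d = d⁻¹ * a := by
        calc a * d = d⁻¹ * ((d * a) * (d * a)) * a⁻¹ := by group
          _ = d⁻¹ * a := by rw [da, ai]; group
      have h2 : d⁻¹ * a = a * d := h1.symm
      have h3 : d⁻¹ * d⁻¹ = d := by
        calc d⁻¹ * d⁻¹ = d⁻¹ * d⁻¹ * d⁻¹ * d := by group
          _ = (d * d * d)⁻¹ * d := by group
          _ = d := by rw [ddd]; group
      have h4 : d * d = d⁻¹ := by
        calc d * d = (d * d * d) * d⁻¹ := by group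
          _ = d⁻¹ := by rw [ddd, one_mul]
      calc a * (d * f * d⁻¹) * a = (a * d) * f * (d⁻¹ * a) := by group
        _ = (a * d) * f * (a * d) := by rw [h2]
        _ = (a * d) * (f * a * d) := by group
        _ = (d⁻¹ * a) * (f * a * d) := by rw [h1]
        _ = d⁻¹ * (a * f * a) * d := by group
        _ = d⁻¹ * (d⁻¹ * f * d) * d := by rw [h]
        _ = (d⁻¹ * d⁻¹) * f * (d * d) := by group
        _ = d * f * d⁻¹ := by rw [h3, h4]
    obtain ⟨i, hi, hXi⟩ := A2
    -- `f` commutes with `a`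
    have hfa : a * f * a = f := by
      have hyi : ∀ u : G, a * (y ^ i * u * (y ^ i)⁻¹) * a = y ^ i * (a * u * a) * (y ^ i)⁻¹ := by
        intro u
        calc a * (y ^ i * u * (y ^ i)⁻¹) * a = (a * y ^ i) * u * ((y ^ i)⁻¹ * a) := by group
          _ = (y ^ i * a) * u * (a * (y ^ i)⁻¹) := by rw [← (yja i).eq, (yja i).inv_left.eq]
          _ = _ := by group
      rcases hXi with h1 | h1
      · rw [h1, hyi] at hX
        exact mul_left_cancel (mul_right_cancel hX)
      · rw [h1, hyi] at hX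
        have h2 := mul_left_cancel (mul_right_cancel hX)
        calc a * f * a = a * (a * f * a) * a := h2.symm
          _ = (a * a) * f * (a * a) := by group
          _ = f := by rw [aa]; simp
    have h5 := c.F.anti
    have hfaf : f * a * f = a := by
      calc f * a * f = (a * f * a) * a * f := by rw [hfa]
        _ = a * f * (a * a) * f := by group
        _ = a * (f * f) := by rw [aa]; group
        _ = a := by rw [ff, mul_one]
    rw [hfaf, aa, mul_one] at h5
    exact c.B.pl.ne_one h5.symm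

end C3

end Cfsg.Agent.LE.J3U
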