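import Cfsg.Agent.LE.J2U.Good
import Cfsg.Agent.LE.J2Weak

/-!
# Groups of `J₃` type, I: the element `δ` and an involution outside `Q` (owner: helper80)
-/
set_option autoImplicit false
set_option linter.all false

namespace Cfsg.Agent.LE.J3U

open Subgroup Cfsg.Agent.H90 Equiv Cfsg.Agent.LE Cfsg.Agent.LE.J2U

variable {G : Type*} [Group G] [Finite G] {Q : Subgroup G} {z : G} {x : Fin 5 → G}

theorem comm_of_conj {g a b a' b' : G} (h : a * b = b * a) (ha : g * a * g⁻¹ = a') (hb : g * b * g⁻¹ = b') :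
    a' * b' = b' * a' := by
  rw [← ha, ← hb]; exact conj_comm h

theorem pair_comm (B : Base Q z x) {i j l : Fin 5} (hi : i ≠ l) (hj : j ≠ l) :
    (x i * x j) * x l = x l * (x i * x j) := by
  have zz := B.pl.sq
  have h1 := B.pts.anti j l hj
  have h2 := B.pts.anti i l hi
  have h3 := B.pts.comm_z B.pl i
  calc (x i * x j) * x l = x i * (x j * x l) := by group
    _ = (x i * z) * (x l * x j) := by rw [h1]; group
    _ = z * (x i * x l) * x j := by rw [h3]; group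
    _ = (z * z) * (x l * (x i * x j)) := by rw [h2]; group
    _ = _ := by rw [zz, one_mul]

theorem exists_delta (B : Base Q z x) (nwc : ∃ g : G, g * z * g⁻¹ ∈ Q ∧ g * z * g⁻¹ ≠ z) (l : Fin 5) :
    ∃ δ : G, δ * z * δ⁻¹ = x l ∧ δ * x l * δ⁻¹ = z * x l := by
  have zz := B.pl.sq
  have eQ := B.pts.mem l
  have e1 : x l ≠ 1 := by have := B.pts.ne_zp B.pl 0 l; rwa [zp_zero] at this
  have ez : x l ≠ z := by have := B.pts.ne_zp B.pl 1 l; rwa [zp_one] at this
  have ee := B.pts.sq l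
  have ec := B.pts.comm_z B.pl l
  obtain ⟨g, hg1, hg2⟩ := nwc
  obtain ⟨c, hcz, hc⟩ := B.conj_Q hg1 (conj_ne_one B.pl.ne_one) hg2 (conj_sq zz) eQ e1 ez ee
  obtain ⟨g1, hg1d⟩ : ∃ g1, g1 = c * g := ⟨_, rfl⟩
  have hg1e : g1 * z * g1⁻¹ = x l := by rw [← hc, hg1d]; group
  have hg1e' : g1⁻¹ * x l * g1⁻¹⁻¹ = z := by rw [← hg1e]; group
  obtain ⟨v, hv⟩ : ∃ v, v = g1⁻¹ * z * g1⁻¹⁻¹ := ⟨_, rfl⟩
  have vz : v * z = z * v := comm_of_conj (g := g1⁻¹) ec.symm hv.symm hg1e'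
  have vv : v * v = 1 := by rw [hv]; exact conj_sq zz
  have v1 : v ≠ 1 := by rw [hv]; exact conj_ne_one B.pl.ne_one
  have vnz : v ≠ z := by
    intro h
    apply ez
    rw [← hg1e]
    rw [hv] at h
    calc g1 * z * g1⁻¹ = g1 * (g1⁻¹ * z * g1⁻¹⁻¹) * g1⁻¹ := by rw [h]
      _ = z := by group
  have vQ : v ∈ Q := by
    by_contra hvQ
    obtain ⟨u, U⟩ := B.centV vz hvQ vv
    have hall : ∀ l : Fin 5, ∃ i j : Fin 5, i ≠ j ∧ i ≠ l ∧ j ≠ l := by decide
    obtain ⟨i, j, hij, hil, hjl⟩ := hall l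
    obtain ⟨p, hp⟩ : ∃ p, p = x i * x j := ⟨_, rfl⟩
    have p2 : p * p = z := by
      have := sq_pair B.pl B.pts B.cardQ hij 0
      rw [zp_zero, one_mul, ← hp] at this
      exact this
    have pe : p * x l = x l * p := by rw [hp]; exact pair_comm B hil hjl
    have pz : p * z = z * p := by
      rw [hp]; exact B.pl.central _ (Q.mul_mem (B.pts.mem i) (B.pts.mem j))
    have h1 : (g1⁻¹ * p * g1⁻¹⁻¹) * z = z * (g1⁻¹ * p * g1⁻¹⁻¹) := comm_of_conj pe rfl hg1e'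
    have h2 : (g1⁻¹ * p * g1⁻¹⁻¹) * v = v * (g1⁻¹ * p * g1⁻¹⁻¹) := comm_of_conj pz rfl hv.symm
    have h3 := U.sq _ (mem_inf_cent.mpr ⟨mem_cent.mpr h1, h2⟩)
    have h4 : (g1⁻¹ * p * g1⁻¹⁻¹) * (g1⁻¹ * p * g1⁻¹⁻¹) = v := by
      rw [hv, ← p2]; group
    exact v1 (by rw [← h4, h3])
  have wQ : v * z ∈ Q := Q.mul_mem vQ B.pl.mem
  have w1 : v * z ≠ 1 := fun h => vnz (by
    calc v = v * (z * z) := by rw [zz, mul_one]
      _ = (v * z) * z := by group
      _ = z := by rw [h, one_mul])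
  have wz : v * z ≠ z := fun h => v1 (mul_right_cancel (b := z) (by rw [h, one_mul]))
  have ww : (v * z) * (v * z) = 1 := by
    calc (v * z) * (v * z) = v * (z * v) * z := by group
      _ = (v * v) * (z * z) := by rw [← vz]; group
      _ = 1 := by rw [vv, zz, one_mul]
  obtain ⟨c2, hc2z, hc2⟩ := B.conj_Q eQ e1 ez ee wQ w1 wz ww
  refine ⟨g1 * c2, ?_, ?_⟩
  · calc g1 * c2 * z * (g1 * c2)⁻¹ = g1 * (c2 * z) * c2⁻¹ * g1⁻¹ := by group
      _ = g1 * z * g1⁻¹ := by rw [hc2z]; group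
      _ = x l := hg1e
  · calc g1 * c2 * x l * (g1 * c2)⁻¹ = g1 * (c2 * x l * c2⁻¹) * g1⁻¹ := by group
      _ = (g1 * v * g1⁻¹) * (g1 * z * g1⁻¹) := by rw [hc2]; group
      _ = z * x l := by rw [hg1e, hv]; group

set_option maxRecDepth 100000 in
theorem klein_form : ∀ σ : Perm (Fin 5), Perm.sign σ = 1 → σ * σ = 1 → σ ≠ 1 → σ 4 = 4 → σ = t1 ∨ σ = t2 ∨ σ = t3 := by
  decide +kernel

theorem klein_three {σ σ1 σ2 : Perm (Fin 5)} (h : σ = t1 ∨ σ = t2 ∨ σ = t3) (h1 : σ1 = t1 ∨ σ1 = t2 ∨ σ1 = t3)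
    (h2 : σ2 = t1 ∨ σ2 = t2 ∨ σ2 = t3) (h12 : σ1 * σ2 ≠ 1) : σ = σ1 ∨ σ = σ2 ∨ σ = σ1 * σ2 := by
  rcases h with rfl | rfl | rfl <;> rcases h1 with rfl | rfl | rfl <;> rcases h2 with rfl | rfl | rfl <;>
    revert h12 <;> decide

theorem klein_pair : ∀ σ : Perm (Fin 5), (σ = t1 ∨ σ = t2 ∨ σ = t3) → ∀ i j : Fin 5, i ≠ j → i ≠ 4 → j ≠ 4 →
    (∀ k, (if σ⁻¹ k = i ∨ σ⁻¹ k = j then (1 : ZMod 2) else 0) = if k = i ∨ k = j then 1 else 0) → σ i = j ∧ σ j = i := by
  intro σ hσ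
  rcases hσ with rfl | rfl | rfl <;> decide

/-- properties of the square roots of `x 4` -/
theorem root_prop (B : Base Q z x) {r : G} (rz : r * z = z * r) (re : r * x 4 = x 4 * r) (rr : r * r = x 4) :
    ∃ σ s, Act z x r σ s ∧ (σ = t1 ∨ σ = t2 ∨ σ = t3) ∧ ∀ i, s i + s (σ i) = if i = 4 then 0 else 1 := by
  have e1 : x 4 ≠ 1 := by have := B.pts.ne_zp B.pl 0 4; rwa [zp_zero] at this
  have ez : x 4 ≠ z := by have := B.pts.ne_zp B.pl 1 4; rwa [zp_one] at this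
  have rQ : r ∉ Q := by
    intro h
    rcases B.pl.sqr h with h1 | h1
    · exact e1 (rr.symm.trans h1)
    · exact ez (rr.symm.trans h1)
  obtain ⟨σ, hσ, s, hs, hact⟩ := B.act rz
  have h1 := act_mul B.pl rz hact hact
  rw [rr] at h1
  obtain ⟨h2, h3⟩ := act_unique B.pl B.pts (act_self B.pl B.pts 4) h1
  have h4 : σ 4 = 4 := by
    have h5 := hact 4
    rw [re, mul_inv_cancel_right] at h5
    have h6 : zp z 0 * x 4 = zp z (s 4) * x (σ 4) := by rw [zp_zero, one_mul]; exact h5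
    exact (B.pts.eq_of B.pl h6).1.symm
  have h5 : σ ≠ 1 := by
    rintro rfl
    exact rQ (B.mem_of_act_one rz hact)
  refine ⟨σ, s, hact, klein_form σ (Equiv.Perm.mem_alternatingGroup.mp hσ) h2.symm h5 h4, fun i => ?_⟩
  exact (congrFun h3 i).symm

theorem root_same (B : Base Q z x) {r q : G} (rz : r * z = z * r) (re : r * x 4 = x 4 * r) (rr : r * r = x 4)
    (qz : q * z = z * q) (qe : q * x 4 = x 4 * q) (qq : q * q = x 4) {σ : Perm (Fin 5)} {s t : Fin 5 → ZMod 2}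
    (h1 : Act z x r σ s) (h2 : Act z x q σ t) (hσ : σ = t1 ∨ σ = t2 ∨ σ = t3)
    (ht : ∀ i, t i + t (σ i) = if i = 4 then 0 else 1) :
    ∃ a : ZMod 2, q⁻¹ * r = zp z a ∨ q⁻¹ * r = zp z a * x 4 := by
  obtain ⟨u, hu⟩ : ∃ u, u = q⁻¹ * r := ⟨_, rfl⟩
  have hru : r = q * u := by rw [hu]; group
  have qiz : q⁻¹ * z = z * q⁻¹ := by rw [inv_mul_eq_iff_eq_mul, ← mul_assoc, qz]; group
  have qie : q⁻¹ * x 4 = x 4 * q⁻¹ := by rw [inv_mul_eq_iff_eq_mul, ← mul_assoc, qe]; group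
  have uz : u * z = z * u := by rw [hu, mul_assoc, rz, ← mul_assoc, qiz, mul_assoc]
  have ue : u * x 4 = x 4 * u := by rw [hu, mul_assoc, re, ← mul_assoc, qie, mul_assoc]
  have h3 := act_mul B.pl qiz (act_inv B.pl qz h2) h1
  rw [← hu, inv_mul_cancel] at h3
  have uQ : u ∈ Q := B.mem_of_act_one uz h3
  have key : (q * u * q⁻¹) * u = 1 := by
    have h4 : (q * u * q⁻¹) * x 4 * u = x 4 := by
      calc (q * u * q⁻¹) * x 4 * u = (q * u * q⁻¹) * (q * q) * u := by rw [qq]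
        _ = (q * u) * (q * u) := by group
        _ = x 4 := by rw [← hru, rr]
    have h5 : (q * u * q⁻¹) * x 4 = x 4 * (q * u * q⁻¹) := by
      calc (q * u * q⁻¹) * x 4 = q * u * (q⁻¹ * x 4) := by group
        _ = q * (u * x 4) * q⁻¹ := by rw [qie]; group
        _ = (q * x 4) * u * q⁻¹ := by rw [ue]; group
        _ = _ := by rw [qe]; group
    rw [h5, mul_assoc] at h4
    exact mul_left_cancel (a := x 4) (by rw [mul_one]; exact h4)
  rw [← hu]
  obtain ⟨a, h4 | ⟨i, h4⟩ | ⟨i, j, hij, h4⟩⟩ := mem_form B.pl B.pts B.cardQ uQ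
  · exact ⟨a, Or.inl h4⟩
  · by_cases hi : i = 4
    · subst hi; exact ⟨a, Or.inr h4⟩
    · exfalso
      have h5 := B.pts.anti i 4 hi
      rw [h4] at ue
      have h6 : zp z a * (x i * x 4) = zp z a * (x 4 * x i) := by
        calc zp z a * (x i * x 4) = zp z a * x i * x 4 := by group
          _ = x 4 * (zp z a * x i) := ue
          _ = (x 4 * zp z a) * x i := by group
          _ = zp z a * x 4 * x i := by rw [zp_comm (B.pts.comm_z B.pl 4)]
          _ = _ := by group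
      have h7 := mul_left_cancel h6
      rw [h7] at h5
      exact B.pl.ne_one (by simpa using h5.symm)
  · exfalso
    -- neither index is 4
    have no4 : ∀ i : Fin 5, i ≠ 4 → ∀ b : ZMod 2, u ≠ zp z b * (x i * x 4) ∧ u ≠ zp z b * (x 4 * x i) := by
      intro i hi b
      have h5 := B.pts.anti i 4 hi
      have h6 := B.pts.anti 4 i (Ne.symm hi)
      have c1 := zp_comm (B.pts.comm_z B.pl 4) b
      have s4 := B.pts.sq 4
      constructor
      · intro h7
        rw [h7] at ue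
        have h8 : zp z b * (x i) = zp z b * (x 4 * x i * x 4) := by
          calc zp z b * x i = zp z b * x i * (x 4 * x 4) := by rw [s4, mul_one]
            _ = zp z b * (x i * x 4) * x 4 := by group
            _ = (x 4 * zp z b) * (x i * x 4) := by rw [ue]; group
            _ = _ := by rw [c1]; group
        have h9 := mul_left_cancel h8
        rw [h6] at h9
        have h10 : x i = z * x i := by
          calc x i = z * (x i * x 4) * x 4 := h9
            _ = z * x i * (x 4 * x 4) := by group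
            _ = z * x i := by rw [s4, mul_one]
        exact B.pl.ne_one (mul_right_cancel (b := x i) (by rw [one_mul]; exact h10.symm))
      · intro h7
        rw [h7] at ue
        have h8 : zp z b * (x 4 * x i * x 4) = zp z b * x i := by
          calc zp z b * (x 4 * x i * x 4) = zp z b * (x 4 * x i) * x 4 := by group
            _ = (x 4 * zp z b) * (x 4 * x i) := by rw [ue]; group
            _ = zp z b * (x 4 * x 4) * x i := by rw [c1]; group
            _ = _ := by rw [s4]; group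
        have h9 := mul_left_cancel h8
        rw [h6] at h9
        have h10 : x i = z * x i := by
          calc x i = z * (x i * x 4) * x 4 := h9.symm
            _ = z * x i * (x 4 * x 4) := by group
            _ = z * x i := by rw [s4, mul_one]
        exact B.pl.ne_one (mul_right_cancel (b := x i) (by rw [one_mul]; exact h10.symm))
    have hi4 : i ≠ 4 := by
      rintro rfl
      exact (no4 j (Ne.symm hij) a).2 h4
    have hj4 : j ≠ 4 := by
      rintro rfl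
      exact (no4 i hij a).1 h4
    -- the action of `q u q⁻¹ = u⁻¹`
    have a1 : Act z x u 1 (fun k => if k = i ∨ k = j then 1 else 0) := by
      rw [h4]; exact act_zp_mul B.pl B.pts a (act_pair B.pl B.pts hij)
    have quz : q * u * z = z * (q * u) := by rw [mul_assoc, uz, ← mul_assoc, qz, mul_assoc]
    have a2 := act_mul B.pl quz (act_mul B.pl qz h2 a1) (act_inv B.pl qz h2)
    have hi : q * u * q⁻¹ = u⁻¹ := eq_inv_of_mul_eq_one_left key
    rw [hi] at a2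
    obtain ⟨-, a3⟩ := act_unique B.pl B.pts (act_inv B.pl uz a1) a2
    have a4 : ∀ k, (if σ⁻¹ k = i ∨ σ⁻¹ k = j then (1 : ZMod 2) else 0) = if k = i ∨ k = j then 1 else 0 := by
      intro k
      have := congrFun a3 k
      simp only [Equiv.Perm.coe_one, id, inv_one, Equiv.Perm.coe_mul, Function.comp_apply] at this
      have key2 : ∀ A B C : ZMod 2, A = B + (C + B) → C = A := by decide
      exact key2 _ _ _ this
    obtain ⟨b1, b2⟩ := klein_pair σ hσ i j hij hi4 hj4 a4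
    -- signs
    have c0 : q * (x i * x j) * q⁻¹ = x i * x j := by
      have e1 : q * (x i * x j) * q⁻¹ = (q * x i * q⁻¹) * (q * x j * q⁻¹) := by group
      rw [e1, h2 i, h2 j, b1, b2]
      have h5 := ht i
      rw [if_neg hi4, b1] at h5
      have h6 := B.pts.anti j i (Ne.symm hij)
      have c1 := zp_comm (B.pts.comm_z B.pl j) (t j)
      calc zp z (t i) * x j * (zp z (t j) * x i) = zp z (t i) * (x j * zp z (t j)) * x i := by group
        _ = zp z (t i) * zp z (t j) * (x j * x i) := by rw [c1]; group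
        _ = z * (z * (x i * x j)) := by rw [← zp_add B.pl.toXS, h5, zp_one, h6]
        _ = x i * x j := by rw [← mul_assoc, B.pl.sq, one_mul]
    have c1 : q * u * q⁻¹ = u := by
      calc q * u * q⁻¹ = (q * zp z a) * (x i * x j) * q⁻¹ := by rw [h4]; group
        _ = zp z a * (q * (x i * x j) * q⁻¹) := by rw [zp_comm qz]; group
        _ = u := by rw [c0, ← h4]
    rw [c1, h4, sq_pair B.pl B.pts B.cardQ hij a] at key
    exact B.pl.ne_one key

/-- **An involution outside `Q`.** -/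
theorem exists_v (B : Base Q z x) (nwc : ∃ g : G, g * z * g⁻¹ ∈ Q ∧ g * z * g⁻¹ ≠ z) :
    ∃ v : G, v * z = z * v ∧ v ∉ Q ∧ v * v = 1 := by
  by_contra hcon
  push Not at hcon
  obtain ⟨δ, hδ1, hδ2⟩ := exists_delta B nwc 4
  have zz := B.pl.sq
  have ee := B.pts.sq 4
  have ec := B.pts.comm_z B.pl 4
  have hδ3 : δ * (z * x 4) * δ⁻¹ = z := by
    calc δ * (z * x 4) * δ⁻¹ = (δ * z * δ⁻¹) * (δ * x 4 * δ⁻¹) := by group
      _ = x 4 * (z * x 4) := by rw [hδ1, hδ2]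
      _ = z * (x 4 * x 4) := by rw [← mul_assoc, ec]; group
      _ = z := by rw [ee, mul_one]
  have pf_ne : pf ≠ 1 ∧ pf * pf = 1 ∧ pf 4 = 4 ∧ Perm.sign pf = 1 := by decide
  obtain ⟨f, hfz, hf⟩ := B.exists_act (σ := pf) (Equiv.Perm.mem_alternatingGroup.mpr pf_ne.2.2.2) (s := 0) (by simp)
  have Af : A0 z x f pf := ⟨hfz, hf⟩
  have fQ : f ∉ Q := A0.not_mem B Af pf_ne.1
  have ff : f * f = z := by
    have h2 := A0.mul B Af Af
    rw [pf_ne.2.1] at h2
    rcases A0.ext B h2 (A0.one B) with h3 | h3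
    · exact absurd h3 (hcon f hfz fQ)
    · rw [h3, mul_one]
  have fe : f * x 4 = x 4 * f := by
    have := A0.conj B Af 4
    rw [pf_ne.2.2.1, mul_inv_eq_iff_eq_mul] at this
    exact this
  -- conjugates by `δ`
  have conjp : ∀ q : G, q * z = z * q → q * x 4 = x 4 * q → q * q = z →
      (δ * q * δ⁻¹) * z = z * (δ * q * δ⁻¹) ∧ (δ * q * δ⁻¹) * x 4 = x 4 * (δ * q * δ⁻¹) ∧
      (δ * q * δ⁻¹) * (δ * q * δ⁻¹) = x 4 := by
    intro q hqz hqe hqq
    have hqze : q * (z * x 4) = (z * x 4) * q := by rw [← mul_assoc, hqz, mul_assoc, hqe, mul_assoc]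
    refine ⟨comm_of_conj hqze rfl hδ3, comm_of_conj hqz rfl hδ1, ?_⟩
    rw [← hδ1, ← hqq]; group
  have pairp : ∀ i j : Fin 5, i ≠ j → i ≠ 4 → j ≠ 4 → (x i * x j) * z = z * (x i * x j) ∧
      (x i * x j) * x 4 = x 4 * (x i * x j) ∧ (x i * x j) * (x i * x j) = z := by
    intro i j hij hi hj
    refine ⟨B.pl.central _ (Q.mul_mem (B.pts.mem i) (B.pts.mem j)), pair_comm B hi hj, ?_⟩
    have := sq_pair B.pl B.pts B.cardQ hij 0
    rw [zp_zero, one_mul] at this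
    exact this
  obtain ⟨r1, r2, r3⟩ := conjp f hfz fe ff
  obtain ⟨p1, p2, p3⟩ := pairp 0 1 (by decide) (by decide) (by decide)
  obtain ⟨q1, q2, q3⟩ := pairp 0 2 (by decide) (by decide) (by decide)
  obtain ⟨m1, m2, m3⟩ := pairp 1 2 (by decide) (by decide) (by decide)
  have hz12 : (x 0 * x 1) * (x 0 * x 2) = z * (x 1 * x 2) := by
    have h5 := B.pts.anti 0 1 (by decide)
    calc (x 0 * x 1) * (x 0 * x 2) = z * (x 1 * x 0) * (x 0 * x 2) := by rw [h5]
      _ = z * x 1 * (x 0 * x 0) * x 2 := by group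
      _ = z * (x 1 * x 2) := by rw [B.pts.sq 0]; group
  have hz12' : z * (x 1 * x 2) * (z * (x 1 * x 2)) = z := by
    calc z * (x 1 * x 2) * (z * (x 1 * x 2)) = z * ((x 1 * x 2) * z) * (x 1 * x 2) := by group
      _ = (z * z) * ((x 1 * x 2) * (x 1 * x 2)) := by rw [m1]; group
      _ = z := by rw [zz, m3, one_mul]
  obtain ⟨P1, P2, P3⟩ := conjp _ p1 p2 p3
  obtain ⟨Q1, Q2, Q3⟩ := conjp _ q1 q2 q3
  obtain ⟨M1, M2, M3⟩ := conjp (z * (x 1 * x 2)) (by rw [mul_assoc, m1]) (by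
    rw [mul_assoc, m2, ← mul_assoc, ← ec, mul_assoc]) hz12'
  obtain ⟨σ, s, aσ, hσ, hs⟩ := root_prop B r1 r2 r3
  obtain ⟨σ1, s1, aσ1, hσ1, hs1⟩ := root_prop B P1 P2 P3
  obtain ⟨σ2, s2, aσ2, hσ2, hs2⟩ := root_prop B Q1 Q2 Q3
  obtain ⟨σ3, s3, aσ3, hσ3, hs3⟩ := root_prop B M1 M2 M3
  have hprod : (δ * (x 0 * x 1) * δ⁻¹) * (δ * (x 0 * x 2) * δ⁻¹) = δ * (z * (x 1 * x 2)) * δ⁻¹ := by
    rw [← hz12]; group
  have h4 := act_mul B.pl P1 aσ1 aσ2
  rw [hprod] at h4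
  have h5 := (act_unique B.pl B.pts aσ3 h4).1
  have t_ne : t1 ≠ 1 ∧ t2 ≠ 1 ∧ t3 ≠ 1 := by decide
  have h6 : σ1 * σ2 ≠ 1 := by
    rw [← h5]
    rcases hσ3 with h | h | h <;> rw [h]
    · exact t_ne.1
    · exact t_ne.2.1
    · exact t_ne.2.2
  have fin : ∀ q : G, q ∈ Q → (∃ a : ZMod 2, (δ * q * δ⁻¹)⁻¹ * (δ * f * δ⁻¹) = zp z a ∨
      (δ * q * δ⁻¹)⁻¹ * (δ * f * δ⁻¹) = zp z a * x 4) → False := by
    rintro q hq ⟨a, h⟩
    have hzQ : δ⁻¹ * z * δ ∈ Q := by
      have : δ⁻¹ * z * δ = z * x 4 := by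
        calc δ⁻¹ * z * δ = δ⁻¹ * (δ * (z * x 4) * δ⁻¹) * δ := by rw [hδ3]
          _ = z * x 4 := by group
      rw [this]; exact Q.mul_mem B.pl.mem (B.pts.mem 4)
    have heQ : δ⁻¹ * x 4 * δ ∈ Q := by
      have : δ⁻¹ * x 4 * δ = z := by rw [← hδ1]; group
      rw [this]; exact B.pl.mem
    have hzpQ : δ⁻¹ * zp z a * δ ∈ Q := by
      rcases zp_cases (z := z) a with ⟨_, h7⟩ | ⟨_, h7⟩
      · rw [h7]; simp
      · rw [h7]; exact hzQ
    apply fQ
    rcases h with h | h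
    · have : f = q * (δ⁻¹ * zp z a * δ) := by rw [← h]; group
      rw [this]; exact Q.mul_mem hq hzpQ
    · have : f = q * ((δ⁻¹ * zp z a * δ) * (δ⁻¹ * x 4 * δ)) := by
        have e3 : (δ⁻¹ * zp z a * δ) * (δ⁻¹ * x 4 * δ) = δ⁻¹ * (zp z a * x 4) * δ := by group
        rw [e3, ← h]; group
      rw [this]; exact Q.mul_mem hq (Q.mul_mem hzpQ heQ)
  have memp : ∀ i j : Fin 5, x i * x j ∈ Q := fun i j => Q.mul_mem (B.pts.mem i) (B.pts.mem j)
  rcases klein_three hσ hσ1 hσ2 h6 with h7 | h7 | h7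
  · subst h7
    exact fin _ (memp 0 1) (root_same B r1 r2 r3 P1 P2 P3 aσ aσ1 hσ hs1)
  · subst h7
    exact fin _ (memp 0 2) (root_same B r1 r2 r3 Q1 Q2 Q3 aσ aσ2 hσ hs2)
  · rw [← h5] at h7
    subst h7
    exact fin _ (Q.mul_mem B.pl.mem (memp 1 2)) (root_same B r1 r2 r3 M1 M2 M3 aσ aσ3 hσ hs3)

end Cfsg.Agent.LE.J3U
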