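import Cfsg.Agent.LE.J3U.Top

/-!
# The centralizer of the extraspecial group (owner: helper80)
-/
set_option autoImplicit false
set_option linter.all false

namespace Cfsg.Agent.LE.J3U

open Subgroup Cfsg.Agent.H90 Equiv Cfsg.Agent.LE Cfsg.Agent.LE.J2U

section

variable {G : Type*} [Group G] [Finite G] {Q : Subgroup G} {z : G}

/-- an element `u` with `[Q, u] ≤ ⟨z⟩` centralizes a subgroup of index at most two -/
theorem cent_ge (h : XS Q z) {u : G} (hu : ∀ q ∈ Q, q * u = u * q ∨ q * u = z * (u * q)) :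
    Nat.card Q ≤ 2 * Nat.card ↥(Q ⊓ centralizer ({u} : Set G)) := by
  by_cases hc : Q ≤ centralizer ({u} : Set G)
  · rw [inf_eq_left.mpr hc]; omega
  · rw [SetLike.not_le_iff_exists] at hc
    obtain ⟨a, ha, hay⟩ := hc
    set B := Q ⊓ centralizer ({u} : Set G) with hB
    have h1 : (Q : Set G) ⊆ (B : Set G) ∪ (fun t => a * t) '' (B : Set G) := by
      intro x hx
      by_cases hxy : x ∈ centralizer ({u} : Set G)
      · left; exact ⟨hx, hxy⟩
      · right
        refine ⟨a⁻¹ * x, ⟨Q.mul_mem (Q.inv_mem ha) hx, ?_⟩, by simp⟩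
        change a⁻¹ * x ∈ centralizer ({u} : Set G)
        rw [mem_centralizer_singleton_iff] at hxy hay ⊢
        have ea := (hu a ha).resolve_left hay
        have ex := (hu x hx).resolve_left hxy
        have hza : a⁻¹ * z = z * a⁻¹ := h.central _ (Q.inv_mem ha)
        have e1 : u * a⁻¹ = z * (a⁻¹ * u) := by
          have : a⁻¹ * (a * u) * a⁻¹ = a⁻¹ * (z * (u * a)) * a⁻¹ := by rw [ea]
          have e3 : a⁻¹ * (a * u) * a⁻¹ = u * a⁻¹ := by group
          have e4 : a⁻¹ * (z * (u * a)) * a⁻¹ = (a⁻¹ * z) * u := by group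
          rw [← e3, this, e4, hza]; group
        calc a⁻¹ * x * u = a⁻¹ * (x * u) := by group
          _ = (a⁻¹ * z) * (u * x) := by rw [ex]; group
          _ = (z * (a⁻¹ * u)) * x := by rw [hza]; group
          _ = u * a⁻¹ * x := by rw [← e1]
          _ = u * (a⁻¹ * x) := by group
    have h2 : Set.ncard (Q : Set G) ≤ Set.ncard (B : Set G) + Set.ncard ((fun t => a * t) '' (B : Set G)) :=
      (Set.ncard_le_ncard h1 (Set.toFinite _)).trans (Set.ncard_union_le _ _)
    rw [Set.ncard_image_of_injective _ (mul_right_injective a)] at h2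
    have h3 : Set.ncard (Q : Set G) = Nat.card Q := rfl
    have h4 : Set.ncard (B : Set G) = Nat.card B := rfl
    omega

/-- abelian subgroups containing `z` -/
theorem abel_le (h : XS Q z) {Y : Subgroup G} (hY : Y ≤ Q) (hz : z ∈ Y) (hc : ∀ u ∈ Y, ∀ v ∈ Y, u * v = v * u) :
    Nat.card Y * Nat.card Y ≤ 2 * Nat.card Q := by
  rw [← h.dual Y hY hz]
  apply Nat.mul_le_mul_left
  apply Subgroup.card_le_of_le
  intro y hy
  refine ⟨hY hy, ?_⟩
  show y ∈ centralizer _
  rw [mem_centralizer_iff]
  intro u hu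
  exact hc u hu y hy

end

theorem two_comm {X : Type*} [Group X] (e : X ≃* alternatingGroup (Fin 5)) (T : Subgroup X) (hT : IsPGroup 2 T) :
    ∀ u ∈ T, ∀ v ∈ T, u * v = v * u := by
  haveI : Fact (Nat.Prime 2) := ⟨Nat.prime_two⟩
  haveI : Finite X := Finite.of_equiv _ e.symm.toEquiv
  have hX : Nat.card X = 60 := by
    rw [Nat.card_congr e.toEquiv, nat_card_alternatingGroup]
    simp [Nat.card_eq_fintype_card, Nat.factorial]
  obtain ⟨S, hS⟩ := hT.exists_le_sylow
  have hc : Nat.card (S : Subgroup X) = 2 ^ 2 := by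
    have := S.card_eq_multiplicity
    rw [hX, show 60 = 2 ^ 2 * 15 by norm_num, Nat.factorization_mul (by norm_num) (by norm_num),
      Finsupp.add_apply, Nat.Prime.factorization_pow Nat.prime_two, Finsupp.single_eq_same,
      Nat.factorization_eq_zero_of_not_dvd (by norm_num)] at this
    exact this
  intro u hu v hv
  have := IsPGroup.commutative_of_card_eq_prime_sq hc
  exact congrArg Subtype.val (this ⟨u, hS hu⟩ ⟨v, hS hv⟩)

variable {G : Type*} [Group G] [Finite G]

theorem center_triv {X : Type*} [Group X] (e : X ≃* alternatingGroup (Fin 5)) {u : X} (hu : ∀ v, u * v = v * u) : u = 1 := by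
  have h1 : e u ∈ center (alternatingGroup (Fin 5)) := by
    rw [mem_center_iff]
    intro g
    obtain ⟨v, rfl⟩ := e.surjective g
    rw [← map_mul, ← map_mul, hu v]
  haveI : IsSimpleGroup (alternatingGroup (Fin 5)) := alternatingGroup.isSimpleGroup_five
  rcases (inferInstance : (center (alternatingGroup (Fin 5))).Normal).eq_bot_or_eq_top with h | h
  · rw [h, mem_bot] at h1
    exact (map_eq_one_iff e e.injective).1 h1
  · exfalso
    have h2 : ∀ a b : alternatingGroup (Fin 5), a * b = b * a := by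
      intro a b
      have : a ∈ center (alternatingGroup (Fin 5)) := by rw [h]; exact mem_top _
      exact (mem_center_iff.1 this b).symm
    have h3 : ∃ a b : alternatingGroup (Fin 5), a * b ≠ b * a := by
      refine ⟨⟨pf, ?_⟩, ⟨py, ?_⟩, ?_⟩
      · rw [Equiv.Perm.mem_alternatingGroup]; decide
      · rw [Equiv.Perm.mem_alternatingGroup]; decide
      · intro h4
        have := congrArg Subtype.val h4
        revert this
        decide
    obtain ⟨a, b, hab⟩ := h3
    exact hab (h2 a b)

/-- **The extraspecial group is self-centralizing** when the involution is not isolated. -/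
theorem cent_le_aux {t : G} (ht : orderOf t = 2) {C : Subgroup G} (hC : C = centralizer ({t} : Set G))
    (E : Subgroup C) [hn : E.Normal] (hX : Cfsg.IsExtraspecial 2 E) (hE : Nat.card E = 32)
    (e : C ⧸ E ≃* alternatingGroup (Fin 5))
    (hg : ∃ g : G, g * t * g⁻¹ ≠ t ∧ (g * t * g⁻¹) * t = t * (g * t * g⁻¹)) :
    centralizer (E : Set C) ≤ E := by
  by_contra hcon
  haveI : IsSimpleGroup (alternatingGroup (Fin 5)) := alternatingGroup.isSimpleGroup_five
  haveI hsimp : IsSimpleGroup (C ⧸ E) := e.isSimpleGroup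
  have hCm : ∀ w : G, w ∈ C ↔ w * t = t * w := by
    intro w
    rw [hC, mem_centralizer_singleton_iff]
  obtain ⟨ζ, hζ, -⟩ := XS.of_isExtraspecial hX
  -- `C = E K`
  have hKn : (centralizer (E : Set C)).Normal := inferInstance
  have hmap : (centralizer (E : Set C)).map (QuotientGroup.mk' E) = ⊤ := by
    rcases (hKn.map (QuotientGroup.mk' E) (QuotientGroup.mk'_surjective E)).eq_bot_or_eq_top with h | h
    · exfalso
      apply hcon
      intro k hk
      have : QuotientGroup.mk' E k ∈ (centralizer (E : Set C)).map (QuotientGroup.mk' E) := ⟨k, hk, rfl⟩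
      rw [h, mem_bot] at this
      exact (QuotientGroup.eq_one_iff k).1 this
    · exact h
  have hfac : ∀ c : C, ∃ k ∈ centralizer (E : Set C), ∃ q ∈ E, c = q * k := by
    intro c
    have : QuotientGroup.mk' E c ∈ (centralizer (E : Set C)).map (QuotientGroup.mk' E) := by rw [hmap]; exact mem_top _
    obtain ⟨k, hk, hkc⟩ := this
    refine ⟨k, hk, c * k⁻¹, ?_, by group⟩
    have h1 : (QuotientGroup.mk' E) (c * k⁻¹) = 1 := by rw [map_mul, map_inv, hkc, mul_inv_cancel]
    exact (QuotientGroup.eq_one_iff _).1 h1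
  -- `t = ζ`
  have htC : t ∈ C := by rw [hCm]
  have htc : ∀ c : C, c * (⟨t, htC⟩ : C) = ⟨t, htC⟩ * c := by
    intro c
    apply Subtype.ext
    exact (hCm c).1 c.2
  have htE : (⟨t, htC⟩ : C) ∈ E := by
    rw [← QuotientGroup.eq_one_iff]
    apply center_triv e
    intro v
    obtain ⟨c, rfl⟩ := QuotientGroup.mk_surjective v
    rw [← QuotientGroup.mk_mul, ← QuotientGroup.mk_mul, htc c]
  have htζ : (⟨t, htC⟩ : C) = ζ := by
    rcases hζ.nondeg _ htE (fun y _ => (htc y).symm) with h | h
    · exfalso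
      have : t = 1 := congrArg Subtype.val h
      rw [this, orderOf_one] at ht; omega
    · exact h
  have htt : t * t = 1 := by rw [← pow_two, ← ht]; exact pow_orderOf_eq_one t
  -- commutators
  have hcomm : ∀ c d : C, (QuotientGroup.mk' E) (c * d) = (QuotientGroup.mk' E) (d * c) →
      c * d = d * c ∨ c * d = ζ * (d * c) := by
    intro c d hcd
    obtain ⟨k, hk, q, hq, rfl⟩ := hfac c
    obtain ⟨l, hl, r, hr, rfl⟩ := hfac d
    have ck : ∀ x ∈ E, ∀ m ∈ centralizer (E : Set C), x * m = m * x := fun x hx m hm => (mem_centralizer_iff.1 hm) x hx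
    have e1 : q * k * (r * l) = (q * r) * (k * l) := by
      calc q * k * (r * l) = q * (k * r) * l := by group
        _ = q * (r * k) * l := by rw [ck r hr k hk]
        _ = (q * r) * (k * l) := by group
    have e2 : r * l * (q * k) = (r * q) * (l * k) := by
      calc r * l * (q * k) = r * (l * q) * k := by group
        _ = r * (q * l) * k := by rw [ck q hq l hl]
        _ = (r * q) * (l * k) := by group
    -- `[k, l] ∈ E ∩ K`
    have hkl : k * l * (l * k)⁻¹ ∈ E := by
      rw [e1, e2] at hcd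
      have h1 : (QuotientGroup.mk' E) (q * r) = 1 := (QuotientGroup.eq_one_iff _).2 (E.mul_mem hq hr)
      have h2 : (QuotientGroup.mk' E) (r * q) = 1 := (QuotientGroup.eq_one_iff _).2 (E.mul_mem hr hq)
      rw [map_mul, h1, one_mul, map_mul (QuotientGroup.mk' E) (r * q), h2, one_mul] at hcd
      apply (QuotientGroup.eq_one_iff _).1
      show (QuotientGroup.mk' E) (k * l * (l * k)⁻¹) = 1
      rw [map_mul, map_inv, hcd, mul_inv_cancel]
    have hkl2 : k * l * (l * k)⁻¹ ∈ centralizer (E : Set C) :=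
      mul_mem (mul_mem hk hl) (inv_mem (mul_mem hl hk))
    have hkl3 : k * l = l * k ∨ k * l = ζ * (l * k) := by
      rcases hζ.nondeg _ hkl (fun y hy => ((mem_centralizer_iff.1 hkl2) y hy).symm) with h | h
      · left; exact mul_inv_eq_one.1 h
      · right; exact mul_inv_eq_iff_eq_mul.1 h
    have hqr := hζ.comm q hq r hr
    have hζc : ∀ x : C, x * ζ = ζ * x := fun x => by rw [← htζ]; exact htc x
    rw [e1, e2]
    rcases hqr with h1 | h1 <;> rcases hkl3 with h2 | h2 <;> rw [h1, h2]
    · left; rfl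
    · right
      calc (r * q) * (ζ * (l * k)) = (r * q * ζ) * (l * k) := by group
        _ = ζ * (r * q * (l * k)) := by rw [hζc]; group
    · right; group
    · left
      calc ζ * (r * q) * (ζ * (l * k)) = ζ * ((r * q) * ζ) * (l * k) := by group
        _ = (ζ * ζ) * (r * q) * (l * k) := by rw [hζc]; group
        _ = r * q * (l * k) := by rw [hζ.sq, one_mul]
  obtain ⟨g, hgt, hgc⟩ := hg
  obtain ⟨x, hx⟩ : ∃ x, x = g * t * g⁻¹ := ⟨_, rfl⟩
  rw [← hx] at hgt hgc
  have hxC : x ∈ C := by rw [hCm]; exact hgc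
  -- `x` almost centralizes `E`
  have hcE := cent_ge hζ (u := (⟨x, hxC⟩ : C)) (by
    intro q hq
    apply hcomm
    rw [map_mul, map_mul, show (QuotientGroup.mk' E) q = 1 from (QuotientGroup.eq_one_iff _).2 hq, one_mul, mul_one])
  set Y := E ⊓ centralizer ({(⟨x, hxC⟩ : C)} : Set C) with hY
  have hYz : ζ ∈ Y := ⟨hζ.mem, by
    show ζ ∈ centralizer _
    rw [mem_centralizer_singleton_iff, ← htζ]; exact (htc _).symm⟩
  have hYa : ∀ u ∈ Y, ∀ v ∈ Y, u * v = v * u := by
    intro u hu v hv
    have hux : (u : G) * x = x * u := congrArg Subtype.val (mem_centralizer_singleton_iff.1 hu.2)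
    have hvx : (v : G) * x = x * v := congrArg Subtype.val (mem_centralizer_singleton_iff.1 hv.2)
    -- the conjugate subgroup
    have hmem : ∀ w : Y, g⁻¹ * ((w : C) : G) * g ∈ C := by
      intro w
      have hwx : ((w : C) : G) * x = x * (w : C) := congrArg Subtype.val (mem_centralizer_singleton_iff.1 w.2.2)
      rw [hCm]
      have h9 : t = g⁻¹ * x * g := by rw [hx]; group
      calc g⁻¹ * ((w : C) : G) * g * t = g⁻¹ * ((w : C) : G) * g * (g⁻¹ * x * g) := by rw [← h9]
        _ = g⁻¹ * (((w : C) : G) * x) * g := by group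
        _ = (g⁻¹ * x * g) * (g⁻¹ * ((w : C) : G) * g) := by rw [hwx]; group
        _ = t * (g⁻¹ * ((w : C) : G) * g) := by rw [← h9]
    let ψ : Y →* C := MonoidHom.mk' (fun w => ⟨g⁻¹ * ((w : C) : G) * g, hmem w⟩) (by
      intro a b
      apply Subtype.ext
      show g⁻¹ * (((a * b : Y) : C) : G) * g = g⁻¹ * ((a : C) : G) * g * (g⁻¹ * ((b : C) : G) * g)
      rw [show (((a * b : Y) : C) : G) = ((a : C) : G) * ((b : C) : G) from rfl]
      group)
    have hp : IsPGroup 2 Y := by
      have h2 : IsPGroup 2 E := by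
        apply IsPGroup.of_card (n := 5)
        rw [hE]; norm_num
      exact h2.to_le inf_le_left
    have hp2 : IsPGroup 2 ((QuotientGroup.mk' E).comp ψ).range := by
      intro ⟨w, a, ha⟩
      obtain ⟨k, hk⟩ := hp a
      refine ⟨k, ?_⟩
      apply Subtype.ext
      show w ^ 2 ^ k = 1
      rw [← ha, ← map_pow, hk, map_one]
    have h1 := two_comm e _ hp2 _ ⟨⟨u, hu⟩, rfl⟩ _ ⟨⟨v, hv⟩, rfl⟩
    have h2 : ψ ⟨u, hu⟩ * ψ ⟨v, hv⟩ = ψ ⟨v, hv⟩ * ψ ⟨u, hu⟩ ∨ ψ ⟨u, hu⟩ * ψ ⟨v, hv⟩ = ζ * (ψ ⟨v, hv⟩ * ψ ⟨u, hu⟩) := by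
      apply hcomm
      rw [map_mul, map_mul]
      exact h1
    have h3 := hcomm u v (by
      rw [map_mul, map_mul, show (QuotientGroup.mk' E) u = 1 from (QuotientGroup.eq_one_iff _).2 hu.1,
        show (QuotientGroup.mk' E) v = 1 from (QuotientGroup.eq_one_iff _).2 hv.1])
    rcases h3 with h3 | h3
    · exact h3
    · exfalso
      have h3' : (u : G) * v = t * (v * u) := by
        have := congrArg Subtype.val h3
        rw [← htζ] at this
        exact this
      have h4 : (u : G) * v = v * u ∨ (u : G) * v = x * (v * u) := by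
        rcases h2 with h2 | h2
        · left
          have h5 : g⁻¹ * (u : G) * g * (g⁻¹ * (v : G) * g) = g⁻¹ * (v : G) * g * (g⁻¹ * (u : G) * g) :=
            congrArg Subtype.val h2
          calc (u : G) * v = g * (g⁻¹ * (u : G) * g * (g⁻¹ * (v : G) * g)) * g⁻¹ := by group
            _ = v * u := by rw [h5]; group
        · right
          rw [← htζ] at h2
          have h5 : g⁻¹ * (u : G) * g * (g⁻¹ * (v : G) * g) = t * (g⁻¹ * (v : G) * g * (g⁻¹ * (u : G) * g)) :=
            congrArg Subtype.val h2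
          calc (u : G) * v = g * (g⁻¹ * (u : G) * g * (g⁻¹ * (v : G) * g)) * g⁻¹ := by group
            _ = x * (v * u) := by rw [h5, hx]; group
      have t1 : t ≠ 1 := by rintro rfl; rw [orderOf_one] at ht; omega
      rcases h4 with h4 | h4
      · rw [h4] at h3'
        apply t1
        have : 1 * ((v : G) * u) = t * (v * u) := by rw [one_mul]; exact h3'
        exact (mul_right_cancel this).symm
      · rw [h4] at h3'
        exact hgt (mul_right_cancel h3')
  have h5 := abel_le hζ (Y := Y) inf_le_left hYz hYa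
  rw [hE] at h5 hcE
  have h6 : 16 ≤ Nat.card Y := by omega
  have : 16 * 16 ≤ Nat.card Y * Nat.card Y := Nat.mul_le_mul h6 h6
  omega

/-- **The extraspecial group is self-centralizing** when the involution is not isolated. -/
theorem cent_le {t : G} (ht : orderOf t = 2) (E : Subgroup (centralizer ({t} : Set G))) [hn : E.Normal]
    (hX : Cfsg.IsExtraspecial 2 E) (hE : Nat.card E = 32)
    (e : (centralizer ({t} : Set G)) ⧸ E ≃* alternatingGroup (Fin 5))
    (hg : ∃ g : G, g * t * g⁻¹ ≠ t ∧ (g * t * g⁻¹) * t = t * (g * t * g⁻¹)) :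
    centralizer (E : Set (centralizer ({t} : Set G))) ≤ E :=
  cent_le_aux ht rfl E hX hE e hg

/-- with one class of involutions the involution is not isolated -/
theorem exists_conj_comm {t : G} (ht : orderOf t = 2) (E : Subgroup (centralizer ({t} : Set G)))
    (hX : Cfsg.IsExtraspecial 2 E) (hE : Nat.card E = 32) (hone : ∀ x y : G, orderOf x = 2 → orderOf y = 2 → IsConj x y) :
    ∃ g : G, g * t * g⁻¹ ≠ t ∧ (g * t * g⁻¹) * t = t * (g * t * g⁻¹) := by
  obtain ⟨ζ, hζ, -⟩ := XS.of_isExtraspecial hX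
  obtain ⟨u, hu, hu1, huz, huu⟩ := exists_invol hζ hE
  have key : ∃ x : centralizer ({t} : Set G), (x : G) ≠ t ∧ x * x = 1 ∧ x ≠ 1 := by
    by_cases h : (u : G) = t
    · refine ⟨ζ, ?_, hζ.sq, hζ.ne_one⟩
      intro h2
      exact huz (Subtype.ext (h.trans h2.symm))
    · exact ⟨u, h, huu, hu1⟩
  obtain ⟨x, hxt, hxx, hx1⟩ := key
  have hx2 : orderOf (x : G) = 2 := by
    apply orderOf_eq_prime
    · rw [pow_two]; exact congrArg Subtype.val hxx
    · intro h; exact hx1 (Subtype.ext h)
  obtain ⟨g, hg⟩ := isConj_iff.1 (hone t x ht hx2)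
  exact ⟨g, by rw [hg]; exact hxt, by rw [hg]; exact mem_centralizer_singleton_iff.1 x.2⟩

/-- the one-class hypothesis -/
theorem one_of {t : G} (ht : orderOf t = 2) (hone : ∀ x y : G, orderOf x = 2 → orderOf y = 2 → IsConj x y) :
    ∀ u : G, u * u = 1 → u ≠ 1 → ∃ g : G, g * t * g⁻¹ = u := by
  intro u uu u1
  exact isConj_iff.1 (hone t u ht (orderOf_eq_prime (by rw [pow_two]; exact uu) u1))

theorem card_quot {X : Type*} [Group X] (e : X ≃* alternatingGroup (Fin 5)) : Nat.card X = 60 := by
  rw [Nat.card_congr e.toEquiv, nat_card_alternatingGroup]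
  simp [Nat.card_eq_fintype_card, Nat.factorial]

/-- the setting from the weak hypotheses -/
theorem exists_c3' {t : G} (ht : orderOf t = 2) (E : Subgroup (centralizer ({t} : Set G))) [hn : E.Normal]
    (hX : Cfsg.IsExtraspecial 2 E) (hE : Nat.card E = 32)
    (e : (centralizer ({t} : Set G)) ⧸ E ≃* alternatingGroup (Fin 5))
    (hone : ∀ x y : G, orderOf x = 2 → orderOf y = 2 → IsConj x y) :
    ∃ (Q : Subgroup G) (f y a : G), C3 Q t f y a := by
  have h2c := cent_le ht E hX hE e (exists_conj_comm ht E hX hE hone)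
  obtain ⟨x, B⟩ := exists_base' ht E hX hE h2c (card_quot e)
  obtain ⟨f, y, a, c⟩ := exists_c3 B (one_of ht hone)
  exact ⟨_, f, y, a, c⟩

end Cfsg.Agent.LE.J3U
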