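import Mathlib

/-!
# Groups of order `50232960`: the Sylow subgroups for 17 and 19 (owner: helper80)
-/
set_option autoImplicit false
set_option linter.all false

namespace Cfsg.Agent.LE.J3U

open Subgroup MulAction

/-- data of `J₃` -/
structure JNum (J : Type*) [Group J] : Prop where
  card : Nat.card J = 50232960
  act : ∃ (Ω : Type) (_ : Finite Ω) (_ : MulAction J Ω), (∀ i : Ω, Nat.card (stabilizer J i) = 8160) ∧
    ∃ s : J, orderOf s = 17 ∧ {i : Ω | s • i = i}.ncard = 2
  nrm : ∃ p v : J, orderOf p = 19 ∧ v * p * v⁻¹ = p ^ 4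

/-- no involution commutes with an element of order `p` -/
def NoInv (J : Type*) [Group J] (p : ℕ) : Prop :=
  ∀ t u : J, orderOf t = 2 → orderOf u = p → t * u ≠ u * t

section

variable {J : Type*} [Group J] [Finite J]

theorem orderOf_conj' (g x : J) : orderOf (g * x * g⁻¹) = orderOf x := by
  have : MulAut.conj g x = g * x * g⁻¹ := rfl
  rw [← this]
  exact orderOf_injective (MulAut.conj g).toMonoidHom (MulAut.conj g).injective x

/-- kernel and image of the action of the normalizer -/
theorem norm_card (P : Subgroup J) : Nat.card (normalizer (P : Set J)) =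
    Nat.card (centralizer (P : Set J)) * Nat.card P.normalizerMonoidHom.range := by
  have h1 := P.normalizerMonoidHom.ker.card_mul_index
  rw [Subgroup.index_ker, Subgroup.normalizerMonoidHom_ker] at h1
  rw [← h1]
  congr 1
  have h2 : centralizer (P : Set J) ≤ normalizer (P : Set J) := Subgroup.centralizer_le_normalizer _
  exact Nat.card_congr (Subgroup.subgroupOfEquivOfLe h2).toEquiv

theorem sylow_card {p : ℕ} [Fact p.Prime] (hp : (Nat.card J).factorization p = 1) (P : Sylow p J) :
    Nat.card P = p := by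
  rw [P.card_eq_multiplicity, hp, pow_one]

theorem range_dvd {p : ℕ} [Fact p.Prime] {P : Subgroup J} (hP : Nat.card P = p) :
    Nat.card P.normalizerMonoidHom.range ∣ p - 1 := by
  haveI : IsCyclic P := isCyclic_of_prime_card hP
  have h1 := Subgroup.card_subgroup_dvd_card P.normalizerMonoidHom.range
  rw [IsCyclic.card_mulAut, hP, Nat.totient_prime Fact.out] at h1
  exact h1

theorem range_cyclic {p : ℕ} [Fact p.Prime] {P : Subgroup J} (hP : Nat.card P = p) :
    IsCyclic P.normalizerMonoidHom.range := by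
  haveI : IsCyclic P := isCyclic_of_prime_card hP
  haveI : IsCyclic (MulAut P) := by
    have e := (IsCyclic.mulAutMulEquiv P)
    rw [hP] at e
    exact isCyclic_of_surjective e.symm.toMonoidHom e.symm.surjective
  infer_instance

theorem le_cent {p : ℕ} [Fact p.Prime] {P : Subgroup J} (hP : Nat.card P = p) : P ≤ centralizer (P : Set J) := by
  haveI : IsCyclic P := isCyclic_of_prime_card hP
  letI : CommGroup P := IsCyclic.commGroup
  intro x hx
  rw [mem_centralizer_iff]
  intro y hy
  exact congrArg Subtype.val (mul_comm (⟨y, hy⟩ : P) ⟨x, hx⟩)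

/-- the centralizer has odd order -/
theorem odd_cent {p : ℕ} [hp : Fact p.Prime] (hn : NoInv J p) {P : Subgroup J} (hP : Nat.card P = p) :
    ¬ 2 ∣ Nat.card (centralizer (P : Set J)) := by
  intro h2
  haveI : Fact (Nat.Prime 2) := ⟨Nat.prime_two⟩
  obtain ⟨t, ht⟩ := exists_prime_orderOf_dvd_card' 2 h2
  obtain ⟨u, hu⟩ := exists_prime_orderOf_dvd_card' (G := P) p (by rw [hP])
  refine hn t u ?_ ?_ ?_
  · rw [Subgroup.orderOf_coe]; exact ht
  · rw [Subgroup.orderOf_coe]; exact hu
  · exact ((mem_centralizer_iff.1 t.2) u u.2).symm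

theorem quot_of {P : Subgroup J} (hC : centralizer (P : Set J) = P) :
    ∃ _ : (P.subgroupOf (normalizer (P : Set J))).Normal,
      Nonempty ((normalizer (P : Set J)) ⧸ P.subgroupOf (normalizer (P : Set J)) ≃* P.normalizerMonoidHom.range) := by
  have hk : P.normalizerMonoidHom.ker = P.subgroupOf (normalizer (P : Set J)) := by
    rw [Subgroup.normalizerMonoidHom_ker, hC]
  refine ⟨hk ▸ inferInstance, ?_⟩
  haveI : (P.subgroupOf (normalizer (P : Set J))).Normal := hk ▸ inferInstance
  exact ⟨(QuotientGroup.quotientMulEquivOfEq hk.symm).trans (QuotientGroup.quotientKerEquivRange _)⟩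

end

namespace JNum

variable {J : Type*} [Group J] [Finite J] (h : JNum J)
include h

theorem fac17 : (Nat.card J).factorization 17 = 1 := by
  rw [h.card, show 50232960 = 17 * 2954880 by norm_num, Nat.factorization_mul (by norm_num) (by norm_num),
    Finsupp.add_apply, Nat.Prime.factorization_self (by norm_num),
    Nat.factorization_eq_zero_of_not_dvd (by norm_num)]

theorem fac19 : (Nat.card J).factorization 19 = 1 := by
  rw [h.card, show 50232960 = 19 * 2643840 by norm_num, Nat.factorization_mul (by norm_num) (by norm_num),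
    Finsupp.add_apply, Nat.Prime.factorization_self (by norm_num),
    Nat.factorization_eq_zero_of_not_dvd (by norm_num)]

theorem card17 (P : Sylow 17 J) : Nat.card P = 17 := by
  haveI : Fact (Nat.Prime 17) := ⟨by norm_num⟩
  exact sylow_card h.fac17 P

theorem card19 (P : Sylow 19 J) : Nat.card P = 19 := by
  haveI : Fact (Nat.Prime 19) := ⟨by norm_num⟩
  exact sylow_card h.fac19 P

/-- fixed points of the Sylow subgroups for 17 -/
theorem exists_fix : ∃ (Ω : Type) (_ : Finite Ω) (_ : MulAction J Ω), (∀ i : Ω, Nat.card (stabilizer J i) = 8160) ∧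
    ∀ P : Sylow 17 J, (fixedPoints P Ω).ncard = 2 := by
  haveI : Fact (Nat.Prime 17) := ⟨by norm_num⟩
  obtain ⟨Ω, _, _, h1, s, hs, h2⟩ := h.act
  refine ⟨Ω, inferInstance, inferInstance, h1, ?_⟩
  -- the Sylow subgroup with `s`
  obtain ⟨P0, hP0⟩ := (IsPGroup.of_card (p := 17) (n := 1) (G := zpowers s) (by rw [Nat.card_zpowers, hs, pow_one])).exists_le_sylow
  have e0 : (P0 : Subgroup J) = zpowers s := by
    symm
    apply Subgroup.eq_of_le_of_card_ge hP0
    have := h.card17 P0
    rw [show Nat.card (P0 : Subgroup J) = 17 from this, Nat.card_zpowers, hs]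
  have f0 : fixedPoints P0 Ω = {i : Ω | s • i = i} := by
    ext i
    constructor
    · intro hi
      exact hi ⟨s, hP0 (mem_zpowers s)⟩
    · intro hi m
      have hm : (m : J) ∈ zpowers s := by rw [← e0]; exact m.2
      obtain ⟨k, hk⟩ := mem_zpowers_iff.1 hm
      show (m : J) • i = i
      rw [← hk]
      have : s ∈ stabilizer J i := hi
      exact mem_stabilizer_iff.1 (Subgroup.zpow_mem _ this k)
  intro P
  obtain ⟨g, hg⟩ := MulAction.exists_smul_eq J P0 P
  have : fixedPoints P Ω = (fun i => g • i) '' fixedPoints P0 Ω := by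
    ext i
    constructor
    · intro hi
      refine ⟨g⁻¹ • i, ?_, smul_inv_smul g i⟩
      intro m
      show (m : J) • g⁻¹ • i = g⁻¹ • i
      have h3 : g * m * g⁻¹ ∈ (P : Subgroup J) := by
        rw [← hg, Sylow.coe_subgroup_smul]
        exact Subgroup.smul_mem_pointwise_smul _ (MulAut.conj g) _ m.2
      have h4 := hi ⟨_, h3⟩
      have h5 : (g * m * g⁻¹) • i = i := h4
      rw [mul_smul, mul_smul, ← eq_inv_smul_iff] at h5
      exact h5
    · rintro ⟨j, hj, rfl⟩ m
      have h3 : g⁻¹ * m * g ∈ (P0 : Subgroup J) := by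
        have h3' : ∀ x ∈ (P : Subgroup J), g⁻¹ * x * g ∈ (P0 : Subgroup J) := by
          intro x h4
          rw [← hg, Sylow.coe_subgroup_smul, Subgroup.mem_pointwise_smul_iff_inv_smul_mem] at h4
          have : (MulAut.conj g)⁻¹ • x = g⁻¹ * x * g := by
            simp [MulAut.smul_def, ← map_inv]
          rwa [this] at h4
        exact h3' m m.2
      have h5 : (g⁻¹ * m * g) • j = j := hj ⟨_, h3⟩
      show (m : J) • g • j = g • j
      rw [mul_smul, mul_smul, inv_smul_eq_iff] at h5
      exact h5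
  rw [this, Set.ncard_image_of_injective _ (MulAction.injective g), f0, h2]

/-- a subgroup normalizing `P` has a subgroup of index at most two that fixes a point -/
theorem fix_of {Ω : Type} [Finite Ω] [MulAction J Ω] {P : Sylow 17 J} (hf : (fixedPoints P Ω).ncard = 2)
    {K : Subgroup J} (hK : K ≤ normalizer ((P : Subgroup J) : Set J)) :
    ∃ α : Ω, (orbit K α).ncard ∣ 2 ∧ α ∈ fixedPoints P Ω := by
  obtain ⟨α, β, hne, hab⟩ := Set.ncard_eq_two.1 hf
  have hα : α ∈ fixedPoints P Ω := by rw [hab]; simp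
  refine ⟨α, ?_, hα⟩
  have h1 : orbit K α ⊆ fixedPoints P Ω := by
    rintro _ ⟨k, rfl⟩ m
    show (m : J) • (k : J) • α = (k : J) • α
    have h2 : (k : J)⁻¹ * m * k ∈ (P : Subgroup J) := by
      have := (mem_normalizer_iff.1 ((normalizer ((P : Subgroup J) : Set J)).inv_mem (hK k.2)) (m : J)).1 m.2
      rwa [inv_inv] at this
    have h3 : ((k : J)⁻¹ * m * k) • α = α := hα ⟨_, h2⟩
    rw [mul_smul, mul_smul, inv_smul_eq_iff] at h3
    exact h3
  have h2 : (orbit K α).ncard ≤ 2 := by rw [← hf]; exact Set.ncard_le_ncard h1 (Set.toFinite _)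
  have h3 : 0 < (orbit K α).ncard := (Set.ncard_pos (Set.toFinite _)).2 ⟨α, mem_orbit_self _⟩
  have h4 : (orbit K α).ncard = 1 ∨ (orbit K α).ncard = 2 := by omega
  rcases h4 with h4 | h4 <;> rw [h4]
  exact one_dvd _

theorem dvd17 (P : Sylow 17 J) : Nat.card (normalizer ((P : Subgroup J) : Set J)) ∣ 16320 := by
  obtain ⟨Ω, _, _, h1, h2⟩ := h.exists_fix
  obtain ⟨α, h3, _⟩ := h.fix_of (h2 P) (le_refl _)
  set N := normalizer ((P : Subgroup J) : Set J) with hN
  have h4 := (stabilizer N α).card_mul_index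
  rw [index_stabilizer] at h4
  have h5 : Nat.card (stabilizer N α) ∣ 8160 := by
    rw [← h1 α]
    have h6 : Nat.card (stabilizer N α) = Nat.card ((stabilizer N α).map N.subtype) :=
      (Subgroup.card_map_of_injective N.subtype_injective).symm
    rw [h6]
    apply Subgroup.card_dvd_of_le
    rintro _ ⟨k, hk, rfl⟩
    exact hk
  rw [← h4, mul_comm, show 16320 = 2 * 8160 by norm_num]
  exact Nat.mul_dvd_mul h3 h5

/-- **The Sylow subgroups for 17.** -/
theorem seventeen (hn : NoInv J 17) (P : Sylow 17 J) : centralizer ((P : Subgroup J) : Set J) = P ∧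
    Nat.card (normalizer ((P : Subgroup J) : Set J)) = 136 ∧
    Nat.card (P : Subgroup J).normalizerMonoidHom.range = 8 := by
  haveI : Fact (Nat.Prime 17) := ⟨by norm_num⟩
  have hP : Nat.card (P : Subgroup J) = 17 := h.card17 P
  have h1 := norm_card (P : Subgroup J)
  have h2 := range_dvd hP
  have h3 := odd_cent hn hP
  have h4 := Subgroup.card_dvd_of_le (le_cent hP)
  have h5 := h.dvd17 P
  have h6 := card_sylow_modEq_one 17 J
  rw [P.card_eq_index_normalizer] at h6
  have h7 := (normalizer ((P : Subgroup J) : Set J)).card_mul_index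
  rw [h.card] at h7
  have h8 : Subgroup.normalizer ((P : Subgroup J) : Set J) = Subgroup.normalizer (P : Set J) := rfl
  rw [← h8] at h6
  rw [hP] at h4
  set n := Nat.card (normalizer ((P : Subgroup J) : Set J)) with hn'
  set i := (normalizer ((P : Subgroup J) : Set J)).index with hi'
  obtain ⟨c, hc⟩ : ∃ c, c = Nat.card (centralizer ((P : Subgroup J) : Set J)) := ⟨_, rfl⟩
  obtain ⟨r, hr⟩ : ∃ r, r = Nat.card (P : Subgroup J).normalizerMonoidHom.range := ⟨_, rfl⟩
  rw [← hc, ← hr] at h1
  rw [← hc] at h3 h4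
  rw [← hr] at h2
  have key : ∀ c ∈ Nat.divisors 16320, ∀ r ∈ Nat.divisors 16, (c % 2 = 1 ∧ c % 17 = 0 ∧ 50232960 / (c * r) % 17 = 1) →
      c = 17 ∧ r = 8 := by
    decide +kernel
  have hcd : c ∣ 16320 := (Dvd.intro _ h1.symm).trans h5
  have h9 : c = 17 ∧ r = 8 := by
    refine key c (Nat.mem_divisors.2 ⟨hcd, by norm_num⟩) r (Nat.mem_divisors.2 ⟨h2, by norm_num⟩) ⟨by omega, by omega, ?_⟩
    rw [← h1]
    have hpos : 0 < n := Nat.card_pos
    have h10 : 50232960 / n = i := by
      rw [← h7, Nat.mul_div_cancel_left _ hpos]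
    rw [h10]
    have := h6
    unfold Nat.ModEq at this
    omega
  refine ⟨?_, ?_, ?_⟩
  · symm
    apply Subgroup.eq_of_le_of_card_ge (le_cent hP)
    rw [hP, ← hc, h9.1]
  · rw [h1, h9.1, h9.2]
  · rw [← hr, h9.2]

/-- no element of order 17 commutes with an element of order 19 -/
theorem no_17_19 {s p : J} (hs : orderOf s = 17) (hp : orderOf p = 19) : s * p ≠ p * s := by
  haveI : Fact (Nat.Prime 17) := ⟨by norm_num⟩
  haveI : Fact (Nat.Prime 19) := ⟨by norm_num⟩
  intro hc
  obtain ⟨Ω, _, _, h1, h2⟩ := h.exists_fix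
  obtain ⟨P, hP⟩ := (IsPGroup.of_card (p := 17) (n := 1) (G := zpowers s)
    (by rw [Nat.card_zpowers, hs, pow_one])).exists_le_sylow
  have e0 : (P : Subgroup J) = zpowers s := by
    symm
    apply Subgroup.eq_of_le_of_card_ge hP
    have := h.card17 P
    rw [show Nat.card (P : Subgroup J) = 17 from this, Nat.card_zpowers, hs]
  have hK : zpowers p ≤ normalizer ((P : Subgroup J) : Set J) := by
    rw [e0]
    refine le_trans ?_ (Subgroup.centralizer_le_normalizer _)
    rw [zpowers_le, mem_centralizer_iff]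
    intro y hy
    obtain ⟨k, rfl⟩ := mem_zpowers_iff.1 hy
    exact (show Commute s p from hc).zpow_left k
  obtain ⟨α, h3, _⟩ := h.fix_of (h2 P) hK
  have h4 : (orbit (zpowers p) α).ncard ∣ 19 := by
    have h5 := (stabilizer (zpowers p) α).card_mul_index
    rw [index_stabilizer, Nat.card_zpowers, hp] at h5
    exact Dvd.intro_left _ h5
  have h5 : (orbit (zpowers p) α).ncard = 1 := by
    have := Nat.dvd_gcd h3 h4
    exact Nat.dvd_one.1 this
  obtain ⟨β, hβ⟩ := Set.ncard_eq_one.1 h5
  have h6 : α ∈ orbit (zpowers p) α := mem_orbit_self _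
  have h7 : p • α ∈ orbit (zpowers p) α := ⟨⟨p, mem_zpowers p⟩, rfl⟩
  rw [hβ, Set.mem_singleton_iff] at h6 h7
  have h8 : p ∈ stabilizer J α := by rw [mem_stabilizer_iff, h7, h6]
  have h9 : orderOf p ∣ 8160 := by
    rw [← h1 α, ← Subgroup.orderOf_mk p h8]
    exact orderOf_dvd_natCard _
  rw [hp] at h9
  omega

/-- **The Sylow subgroups for 19.** -/
theorem nineteen (hn : NoInv J 19) (P : Sylow 19 J) : centralizer ((P : Subgroup J) : Set J) = P ∧
    Nat.card (normalizer ((P : Subgroup J) : Set J)) = 171 ∧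
    Nat.card (P : Subgroup J).normalizerMonoidHom.range = 9 := by
  haveI : Fact (Nat.Prime 17) := ⟨by norm_num⟩
  haveI : Fact (Nat.Prime 19) := ⟨by norm_num⟩
  have hP : Nat.card (P : Subgroup J) = 19 := h.card19 P
  have h1 := norm_card (P : Subgroup J)
  have h2 := range_dvd hP
  have h3 := odd_cent hn hP
  have h4 := Subgroup.card_dvd_of_le (le_cent hP)
  have h17 : ¬ 17 ∣ Nat.card (centralizer ((P : Subgroup J) : Set J)) := by
    intro h5
    obtain ⟨s, hs⟩ := exists_prime_orderOf_dvd_card' 17 h5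
    obtain ⟨u, hu⟩ := exists_prime_orderOf_dvd_card' (G := (P : Subgroup J)) 19 (by rw [hP])
    refine h.no_17_19 (s := s) (p := u) ?_ ?_ ?_
    · rw [Subgroup.orderOf_coe]; exact hs
    · rw [Subgroup.orderOf_coe]; exact hu
    · exact ((mem_centralizer_iff.1 s.2) u u.2).symm
  -- an automorphism of order 9
  have h9 : 9 ∣ Nat.card (P : Subgroup J).normalizerMonoidHom.range := by
    obtain ⟨p, v, hp, hv⟩ := h.nrm
    obtain ⟨P0, hP0⟩ := (IsPGroup.of_card (p := 19) (n := 1) (G := zpowers p)
      (by rw [Nat.card_zpowers, hp, pow_one])).exists_le_sylow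
    have e0 : (P0 : Subgroup J) = zpowers p := by
      symm
      apply Subgroup.eq_of_le_of_card_ge hP0
      have := h.card19 P0
      rw [show Nat.card (P0 : Subgroup J) = 19 from this, Nat.card_zpowers, hp]
    obtain ⟨g, hg⟩ := MulAction.exists_smul_eq J P0 P
    -- move to `P`
    have hPe : (P : Subgroup J) = zpowers (g * p * g⁻¹) := by
      rw [← hg, Sylow.coe_subgroup_smul, e0]
      ext x
      rw [Subgroup.mem_pointwise_smul_iff_inv_smul_mem]
      have : (MulAut.conj g)⁻¹ • x = g⁻¹ * x * g := by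
        simp [MulAut.smul_def, ← map_inv]
      rw [this, mem_zpowers_iff, mem_zpowers_iff]
      constructor
      · rintro ⟨k, hk⟩
        refine ⟨k, ?_⟩
        rw [conj_zpow, hk]; group
      · rintro ⟨k, hk⟩
        refine ⟨k, ?_⟩
        rw [← hk, conj_zpow]; group
    obtain ⟨q, hq⟩ : ∃ q, q = g * p * g⁻¹ := ⟨_, rfl⟩
    obtain ⟨w, hw⟩ : ∃ w, w = g * v * g⁻¹ := ⟨_, rfl⟩
    rw [← hq] at hPe
    have hq19 : orderOf q = 19 := by rw [hq, orderOf_conj', hp]
    have hwq : w * q * w⁻¹ = q ^ 4 := by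
      rw [hw, hq, conj_pow, ← hv]; group
    have hqP : q ∈ (P : Subgroup J) := by rw [hPe]; exact mem_zpowers q
    have hpow : ∀ n : ℕ, w ^ n * q * (w ^ n)⁻¹ = q ^ (4 ^ n) := by
      intro n
      induction n with
      | zero => simp
      | succ n ih =>
        rw [pow_succ']
        calc w * w ^ n * q * (w * w ^ n)⁻¹ = w * (w ^ n * q * (w ^ n)⁻¹) * w⁻¹ := by group
          _ = (w * q * w⁻¹) ^ (4 ^ n) := by rw [ih, conj_pow]
          _ = q ^ (4 ^ (n + 1)) := by rw [hwq, ← pow_mul, pow_succ']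
    have hwN : w ∈ normalizer ((P : Subgroup J) : Set J) := by
      rw [Subgroup.mem_normalizer_iff_conj_image_eq]
      apply Set.eq_of_subset_of_ncard_le
      · rintro _ ⟨x, hx, rfl⟩
        rw [hPe] at hx ⊢
        obtain ⟨k, rfl⟩ := mem_zpowers_iff.1 hx
        show w * q ^ k * w⁻¹ ∈ zpowers q
        rw [← conj_zpow, hwq]
        exact Subgroup.zpow_mem _ (Subgroup.pow_mem _ (mem_zpowers q) _) _
      · rw [Set.ncard_image_of_injective _ (MulAut.conj w).injective]
      · exact Set.toFinite _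
    set W : normalizer ((P : Subgroup J) : Set J) := ⟨w, hwN⟩ with hW
    have hact : ∀ n : ℕ, ((P : Subgroup J).normalizerMonoidHom (W ^ n) ⟨q, hqP⟩ : J) = q ^ (4 ^ n) := by
      intro n
      rw [← hpow n]
      rfl
    have h10 : orderOf ((P : Subgroup J).normalizerMonoidHom W) = 9 := by
      have e1 : (P : Subgroup J).normalizerMonoidHom W ^ 9 = 1 := by
        rw [← map_pow]
        apply MulEquiv.ext
        intro x
        have hx : (x : J) ∈ zpowers q := by rw [← hPe]; exact x.2
        obtain ⟨k, hk⟩ := mem_zpowers_iff.1 hx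
        have hx' : x = (⟨q, hqP⟩ : (P : Subgroup J)) ^ k := Subtype.ext (by rw [← hk]; rfl)
        rw [hx', map_zpow, map_zpow]
        congr 1
        apply Subtype.ext
        rw [hact 9]
        show q ^ 4 ^ 9 = q
        rw [← pow_mod_orderOf, hq19]
        norm_num
      have e2 : ¬ (P : Subgroup J).normalizerMonoidHom W ^ 3 = 1 := by
        intro h11
        rw [← map_pow] at h11
        have h12 := hact 3
        rw [h11] at h12
        have h13 : q = q ^ 4 ^ 3 := h12
        rw [← pow_mod_orderOf, hq19] at h13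
        norm_num at h13
        have h14 : q ^ 6 = 1 := by
          have : q * q ^ 6 = q * 1 := by rw [mul_one, ← pow_succ']; exact h13.symm
          exact mul_left_cancel this
        have h15 := orderOf_dvd_of_pow_eq_one h14
        rw [hq19] at h15
        omega
      have h11 : orderOf ((P : Subgroup J).normalizerMonoidHom W) ∣ 3 ^ 2 := orderOf_dvd_of_pow_eq_one e1
      obtain ⟨k, hk, hk'⟩ := (Nat.dvd_prime_pow Nat.prime_three).1 h11
      interval_cases k
      · exfalso; apply e2; exact orderOf_dvd_iff_pow_eq_one.1 (by rw [hk']; norm_num)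
      · exfalso; apply e2; exact orderOf_dvd_iff_pow_eq_one.1 (by rw [hk']; norm_num)
      · exact hk'
    have h11 : orderOf ((P : Subgroup J).normalizerMonoidHom.rangeRestrict W) = 9 := by
      rw [← Subgroup.orderOf_coe]; exact h10
    rw [← h11]
    exact orderOf_dvd_natCard _
  have h6 := card_sylow_modEq_one 19 J
  rw [P.card_eq_index_normalizer] at h6
  have h7 := (normalizer ((P : Subgroup J) : Set J)).card_mul_index
  rw [h.card] at h7
  have h8 : Subgroup.normalizer ((P : Subgroup J) : Set J) = Subgroup.normalizer (P : Set J) := rfl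
  rw [← h8] at h6
  rw [hP] at h4
  set n := Nat.card (normalizer ((P : Subgroup J) : Set J)) with hn'
  set i := (normalizer ((P : Subgroup J) : Set J)).index with hi'
  obtain ⟨c, hc⟩ : ∃ c, c = Nat.card (centralizer ((P : Subgroup J) : Set J)) := ⟨_, rfl⟩
  obtain ⟨r, hr⟩ : ∃ r, r = Nat.card (P : Subgroup J).normalizerMonoidHom.range := ⟨_, rfl⟩
  rw [← hc, ← hr] at h1
  rw [← hc] at h3 h4 h17
  rw [← hr] at h2 h9
  obtain ⟨m, hm⟩ := h4
  have hm2 : ¬ 2 ∣ m := fun h10 => h3 (by rw [hm]; exact h10.mul_left _)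
  have hm17 : ¬ 17 ∣ m := fun h10 => h17 (by rw [hm]; exact h10.mul_left _)
  have hmd : m ∣ 135 := by
    obtain ⟨r', hr'⟩ := h9
    have h10 : m ∣ 135 * 2176 := by
      refine ⟨r' * i, ?_⟩
      have : 19 * m * (9 * r') * i = 50232960 := by rw [← hm, ← hr', ← h1]; exact h7
      have h11 : 171 * (m * (r' * i)) = 171 * (135 * 2176) := by
        calc 171 * (m * (r' * i)) = 19 * m * (9 * r') * i := by ring
          _ = 171 * (135 * 2176) := by rw [this]
      exact (Nat.eq_of_mul_eq_mul_left (by norm_num) h11).symm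
    have hco : Nat.Coprime m (2 ^ 7 * 17) := by
      apply Nat.Coprime.mul_right
      · exact ((Nat.Prime.coprime_iff_not_dvd Nat.prime_two).2 hm2).symm.pow_right 7
      · exact ((Nat.Prime.coprime_iff_not_dvd (by norm_num : Nat.Prime 17)).2 hm17).symm
    exact hco.dvd_of_dvd_mul_right (by norm_num at h10 ⊢; exact h10)
  have key : ∀ m ∈ Nat.divisors 135, ∀ r ∈ Nat.divisors 18, (r % 9 = 0 ∧ 50232960 / (19 * m * r) % 19 = 1) →
      m = 1 ∧ r = 9 := by
    decide +kernel
  have h10 : m = 1 ∧ r = 9 := by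
    refine key m (Nat.mem_divisors.2 ⟨hmd, by norm_num⟩) r (Nat.mem_divisors.2 ⟨h2, by norm_num⟩) ⟨by omega, ?_⟩
    rw [← hm, ← h1]
    have hpos : 0 < n := Nat.card_pos
    have h10 : 50232960 / n = i := by
      rw [← h7, Nat.mul_div_cancel_left _ hpos]
    rw [h10]
    have := h6
    unfold Nat.ModEq at this
    omega
  have hc19 : c = 19 := by rw [hm, h10.1]
  refine ⟨?_, ?_, ?_⟩
  · symm
    apply Subgroup.eq_of_le_of_card_ge (le_cent hP)
    rw [hP, ← hc, hc19]
  · rw [h1, hc19, h10.2]
  · rw [← hr, h10.2]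

end JNum

end Cfsg.Agent.LE.J3U
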