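import Cfsg.Agent.LE.J3U.Part
import Cfsg.Agent.CosetEnum.Level
import Cfsg.Agent.LE.J3U.I1Data
import Cfsg.Agent.LE.J3U.I1P0
import Cfsg.Agent.LE.J3U.I1P1
import Cfsg.Agent.LE.J3U.I1P2
import Cfsg.Agent.LE.J3U.I2Data
import Cfsg.Agent.LE.J3U.I2P0
import Cfsg.Agent.LE.J3U.I2P1
import Cfsg.Agent.LE.J3U.I2P2
import Cfsg.Agent.LE.J3U.I2P3
import Cfsg.Agent.LE.J3U.I2P4
import Cfsg.Agent.LE.J3U.I2P5
import Cfsg.Agent.LE.J3U.I2P6
import Cfsg.Agent.LE.J3U.I2P7
import Cfsg.Agent.LE.J3U.I2P8
import Cfsg.Agent.LE.J3U.I2P9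
import Cfsg.Agent.LE.J3U.I2P10
import Cfsg.Agent.LE.J3U.R0Data
import Cfsg.Agent.LE.J3U.R0P0
import Cfsg.Agent.LE.J3U.R0P1
import Cfsg.Agent.LE.J3U.R0P2
import Cfsg.Agent.LE.J3U.R0P3
import Cfsg.Agent.LE.J3U.R0P4
import Cfsg.Agent.LE.J3U.C0Data
import Cfsg.Agent.LE.J3U.C0P0
import Cfsg.Agent.LE.J3U.C0P1
import Cfsg.Agent.LE.J3U.C0P2
import Cfsg.Agent.LE.J3U.C0P3
import Cfsg.Agent.LE.J3U.C0P4
import Cfsg.Agent.LE.J3U.C0P5
import Cfsg.Agent.LE.J3U.C0P6
import Cfsg.Agent.LE.J3U.C0P7
import Cfsg.Agent.LE.J3U.C0P8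
import Cfsg.Agent.LE.J3U.C0P9
import Cfsg.Agent.LE.J3U.C0P10
import Cfsg.Agent.LE.J3U.C0P11
import Cfsg.Agent.LE.J3U.C1Data
import Cfsg.Agent.LE.J3U.C1P0
import Cfsg.Agent.LE.J3U.C1P1
import Cfsg.Agent.LE.J3U.C1P2
import Cfsg.Agent.LE.J3U.CZData
import Cfsg.Agent.LE.J3U.CZP0

/-! Coset enumeration certificate (generated; owner: helper80, tool of helper28). -/

set_option autoImplicit false
set_option maxRecDepth 1000000

namespace Cfsg.Agent.CosetEnum.J3U
open Cfsg.Agent.CosetEnum Cfsg.Agent.CosetEnum.Part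

namespace I1

theorem st : staticOK 11 iv (RL.map expand) subs P L = true := by decide +kernel

theorem seg : Part.Seg P L P.m :=
  (((Part.Seg.nil).snoc part0).snoc part1).snoc part2

theorem tg : Part.tgts P tl = true := by decide +kernel

theorem tlok : tl.all (fun z => z.all (isLet 11)) = true := by decide +kernel

theorem cert {G : Type*} [Group G] {g : ℕ → G} (hg : Good g 11 iv RL) (H : Subgroup G)
    (hs : ∀ r ∈ subs, (r.map g).prod ∈ H) : ∀ z ∈ tl, (z.map g).prod ∈ H :=
  Part.pmain g H 11 iv hg.inv (RL.map expand) subs (map_expand hg.rel) hs P L rfl st seg tlok tg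

end I1

namespace I2

theorem st : staticOK 11 iv (RL.map expand) subs P L = true := by decide +kernel

theorem seg : Part.Seg P L P.m :=
  (((((((((((Part.Seg.nil).snoc part0).snoc part1).snoc part2).snoc part3).snoc part4).snoc part5).snoc part6).snoc part7).snoc part8).snoc part9).snoc part10

theorem tg : Part.tgts P tl = true := by decide +kernel

theorem tlok : tl.all (fun z => z.all (isLet 11)) = true := by decide +kernel

theorem cert {G : Type*} [Group G] {g : ℕ → G} (hg : Good g 11 iv RL) (H : Subgroup G)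
    (hs : ∀ r ∈ subs, (r.map g).prod ∈ H) : ∀ z ∈ tl, (z.map g).prod ∈ H :=
  Part.pmain g H 11 iv hg.inv (RL.map expand) subs (map_expand hg.rel) hs P L rfl st seg tlok tg

end I2

namespace R0

theorem st : staticOK 11 iv (RL.map expand) subs P L = true := by decide +kernel

theorem seg : Part.Seg P L P.m :=
  (((((Part.Seg.nil).snoc part0).snoc part1).snoc part2).snoc part3).snoc part4

theorem tg : Part.tgts P tl = true := by decide +kernel

theorem tlok : tl.all (fun z => z.all (isLet 11)) = true := by decide +kernel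

theorem cert {G : Type*} [Group G] {g : ℕ → G} (hg : Good g 11 iv RL) (H : Subgroup G)
    (hs : ∀ r ∈ subs, (r.map g).prod ∈ H) : ∀ z ∈ tl, (z.map g).prod ∈ H :=
  Part.pmain g H 11 iv hg.inv (RL.map expand) subs (map_expand hg.rel) hs P L rfl st seg tlok tg

end R0

namespace C0

theorem st : staticOK 11 iv (RL.map expand) subs P L = true := by decide +kernel

theorem seg : Part.Seg P L P.m :=
  ((((((((((((Part.Seg.nil).snoc part0).snoc part1).snoc part2).snoc part3).snoc part4).snoc part5).snoc part6).snoc part7).snoc part8).snoc part9).snoc part10).snoc part11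

theorem tg : Part.tgts P tl = true := by decide +kernel

theorem tlok : tl.all (fun z => z.all (isLet 11)) = true := by decide +kernel

theorem cert {G : Type*} [Group G] {g : ℕ → G} (hg : Good g 11 iv RL) (H : Subgroup G)
    (hs : ∀ r ∈ subs, (r.map g).prod ∈ H) : ∀ z ∈ tl, (z.map g).prod ∈ H :=
  Part.pmain g H 11 iv hg.inv (RL.map expand) subs (map_expand hg.rel) hs P L rfl st seg tlok tg

end C0

namespace C1

theorem st : staticOK 11 iv (RL.map expand) subs P L = true := by decide +kernel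

theorem seg : Part.Seg P L P.m :=
  (((Part.Seg.nil).snoc part0).snoc part1).snoc part2

theorem tg : Part.tgts P tl = true := by decide +kernel

theorem tlok : tl.all (fun z => z.all (isLet 11)) = true := by decide +kernel

theorem cert {G : Type*} [Group G] {g : ℕ → G} (hg : Good g 11 iv RL) (H : Subgroup G)
    (hs : ∀ r ∈ subs, (r.map g).prod ∈ H) : ∀ z ∈ tl, (z.map g).prod ∈ H :=
  Part.pmain g H 11 iv hg.inv (RL.map expand) subs (map_expand hg.rel) hs P L rfl st seg tlok tg

end C1

namespace CZ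

theorem st : staticOK 11 iv (RL.map expand) subs P L = true := by decide +kernel

theorem seg : Part.Seg P L P.m :=
  (Part.Seg.nil).snoc part0

theorem tg : Part.tgts P tl = true := by decide +kernel

theorem tlok : tl.all (fun z => z.all (isLet 11)) = true := by decide +kernel

theorem cert {G : Type*} [Group G] {g : ℕ → G} (hg : Good g 11 iv RL) (H : Subgroup G)
    (hs : ∀ r ∈ subs, (r.map g).prod ∈ H) : ∀ z ∈ tl, (z.map g).prod ∈ H :=
  Part.pmain g H 11 iv hg.inv (RL.map expand) subs (map_expand hg.rel) hs P L rfl st seg tlok tg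

end CZ

end Cfsg.Agent.CosetEnum.J3U
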