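import Cfsg.Agent.LE.J3U.PartDef
import Cfsg.Agent.CosetEnum.Front

/-!
Soundness of partial coset enumeration certificates (owner: helper80).
-/

set_option autoImplicit false

namespace Cfsg.Agent.CosetEnum.Part

open Cfsg.Agent.CosetEnum

variable {G : Type*} [Group G]

/-- Everything that the check of a node gives. -/
def NodeOK (H : Subgroup G) (s w : ℕ → G) (P : Par) (A : ℕ → Prop) (L : LL) (j : ℕ) : Prop :=
  (∀ x y, L.Mem x y → FieldOK H s w P A j true x y) ∧
  (∀ x y x' y', L.Mem x y → L.Mem x' y' → fld (rowV P j) x < j → fld (rowV P j) x' < j → x = x') ∧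
  (Real P j ∨ LinkOK H s w P A j)

variable {H : Subgroup G} {s : ℕ → G} {P : Par} {A : ℕ → Prop}

theorem node_sound {w : ℕ → G} (hm : P.m ≤ 1048576) (h0 : w 0 = 1) {L : LL} (hL : L.OK H s A)
    (hic : ∀ x y, P.ic x y = true → A x ∧ A y ∧ s x * s y = 1)
    (htr : P.tr.All fun z _ => (∀ a ∈ z, A a) ∧ val s z = 1)
    {j v : ℕ} (hj : j < P.m) {cont : ℕ → Bool} (h : node P L j v cont = true) :
    NodeOK H s w P A L j ∧ ∃ v', cont v' = true := by
  unfold node at h
  rw [force_eq] at h
  rcases link_sound (H := H) (w := w) hm hic htr hj h with ⟨h1, v', h2⟩ | ⟨h1, hl, v', h2⟩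
  · obtain ⟨g1, _, g3, v'', p', g4⟩ := edges_sound (H := H) (w := w) hm h0 hL hj h2
    refine ⟨⟨g1, g3, Or.inl h1⟩, ?_⟩
    rcases sel_true g4 with ⟨_, g⟩ | ⟨_, g⟩
    · exact ⟨_, g⟩
    · exact ⟨_, (sel_true_left g).2⟩
  · obtain ⟨g1, _, g3, v'', p', g4⟩ := edges_sound (H := H) (w := w) hm h0 hL hj h2
    exact ⟨⟨g1, g3, Or.inr hl⟩, _, (sel_true_left g4).2⟩

theorem nodes_sound {w : ℕ → G} (hm : P.m ≤ 1048576) (h0 : w 0 = 1) {L : LL} (hL : L.OK H s A)
    (hic : ∀ x y, P.ic x y = true → A x ∧ A y ∧ s x * s y = 1)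
    (htr : P.tr.All fun z _ => (∀ a ∈ z, A a) ∧ val s z = 1)
    {c j v : ℕ} (hj : j + c ≤ P.m) (h : nodes P L c j v = true) :
    ∀ i, j ≤ i → i < j + c → NodeOK H s w P A L i := by
  induction c generalizing j v with
  | zero => intro i h1 h2; omega
  | succ c ih =>
    have h' : (force j fun j => node P L j v (fun v' => nodes P L c (Nat.succ j) v')) = true := h
    rw [force_eq] at h'
    obtain ⟨h1, v', h2⟩ := node_sound (H := H) (w := w) hm h0 hL hic htr (by omega) h'
    have h7 := ih (j := j.succ) (by rw [Nat.succ_eq_add_one]; omega) h2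
    intro i hi1 hi2
    rcases Nat.lt_or_ge j i with h9 | h9
    · exact h7 i h9 (by rw [Nat.succ_eq_add_one]; omega)
    · have : i = j := by omega
      rw [this]; exact h1

/-- total length of a list of chunks -/
def CP.len : CP → ℕ
  | .nil => 0
  | .cons c _ l => c + CP.len l

theorem chunks_len {L : LL} {j₁ : ℕ} {l : CP} {j : ℕ} (h : chunks P L j₁ l j = true) : j + l.len = j₁ := by
  induction l generalizing j with
  | nil =>
    have h' : Nat.beq j j₁ = true := h
    have := beq_true h'
    simpa [CP.len] using this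
  | cons c v l ih =>
    have h' : @Bool.rec (fun _ => Bool) false (force (Nat.add j c) (chunks P L j₁ l)) (nodes P L c j v) = true := h
    have h2 := (sel_true_left h').2
    rw [force_eq] at h2
    have := ih h2
    have e : Nat.add j c = j + c := rfl
    rw [e] at this
    rw [CP.len]
    omega

theorem chunks_sound {w : ℕ → G} (hm : P.m ≤ 1048576) (h0 : w 0 = 1) {L : LL} (hL : L.OK H s A)
    (hic : ∀ x y, P.ic x y = true → A x ∧ A y ∧ s x * s y = 1)
    (htr : P.tr.All fun z _ => (∀ a ∈ z, A a) ∧ val s z = 1)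
    {j₁ : ℕ} (hj₁ : j₁ ≤ P.m) {l : CP} {j : ℕ} (h : chunks P L j₁ l j = true) :
    ∀ i, j ≤ i → i < j₁ → NodeOK H s w P A L i := by
  induction l generalizing j with
  | nil =>
    have h' : Nat.beq j j₁ = true := h
    have h2 := beq_true h'
    intro i h3 h4; omega
  | cons c v l ih =>
    have hlen := chunks_len h
    have h' : @Bool.rec (fun _ => Bool) false (force (Nat.add j c) (chunks P L j₁ l)) (nodes P L c j v) = true := h
    obtain ⟨h3, h4⟩ := sel_true_left h'
    rw [force_eq] at h4
    rw [CP.len] at hlen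
    have g1 := nodes_sound (H := H) (w := w) hm h0 hL hic htr (by omega) h3
    have k1 := ih h4
    have e : Nat.add j c = j + c := rfl
    rw [e] at k1
    intro i h5 h6
    rcases Nat.lt_or_ge i (j + c) with h7 | h7
    · exact g1 i h5 h7
    · exact k1 i h7 h6

theorem wd_parent {L : LL} {w : ℕ → G} {j : ℕ} (hN : NodeOK H s w P A L j) {x y : ℕ} (hx : L.Mem x y)
    (h : fld (rowV P j) x < j) : wd P s L j = (s x)⁻¹ * wd P s L (fld (rowV P j) x) := by
  have hex : ∃ x, (∃ y, L.Mem x y) ∧ fld (rowV P j) x < j := ⟨x, ⟨y, hx⟩, h⟩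
  have hc := hex.choose_spec
  obtain ⟨⟨y', hy'⟩, h'⟩ := hc
  have heq : hex.choose = x := hN.2.1 _ _ _ _ hy' hx h' h
  conv_lhs => unfold wd
  rw [dif_pos hex, heq]

theorem valid_all (hm : P.m ≤ 1048576) {L : LL} (hL : L.OK H s A) (hS : L.Symm)
    (hA : ∀ x, A x → ∃ y, L.Mem x y)
    (hN : ∀ i < P.m, NodeOK H s (wd P s L) P A L i) (R : ℕ) (hR : R ≤ 17592184995840) :
    Valid H s (wd P s L) P A R := by
  induction R using Nat.strong_induction_on with
  | _ R ih =>
    intro j hj
    obtain ⟨hF, hU, hLk⟩ := hN j hj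
    refine ⟨fun he => ?_, fun x hx he => ?_⟩
    · rcases hLk with h1 | ⟨h1, h2, h3⟩
      · unfold Real at h1
        omega
      · have : tg (fld (rowV P j) 0) ≤ fld (rowV P j) 0 := Nat.mod_le _ _
        have h4 : fld (rowV P j) 0 < R := he
        have hr : fld (rowV P j) 0 - tg (fld (rowV P j) 0) < R := by omega
        exact ⟨h2.trans hj, h3 (ih _ hr (by omega))⟩
    · obtain ⟨y, hxy⟩ := hA x hx
      obtain ⟨_, hAy, hxy1⟩ := hxy.ok hL
      rcases hF x y hxy with ⟨h1, _⟩ | ⟨h1, h2, h3⟩
      · omega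
      · refine ⟨h2, ?_⟩
        rcases h3 with h3 | ⟨h3, h4, h5⟩ | ⟨h3, h4⟩
        · have ht : tg (fld (rowV P j) x) = fld (rowV P j) x := Nat.mod_eq_of_lt (by omega)
          rw [ht]
          unfold Rel
          rw [wd_parent (hN j hj) hxy h3]
          simp only [mul_assoc, mul_inv_cancel_left, inv_mul_cancel, H.one_mem]
        · have ht : tg (fld (rowV P j) x) = fld (rowV P j) x := Nat.mod_eq_of_lt (by omega)
          rw [ht] at h2 ⊢
          obtain ⟨x', hx'⟩ := hS x y hxy
          have h6 := wd_parent (hN _ h2) hx' (by rw [h5]; exact h4)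
          rw [h5] at h6
          unfold Rel
          rw [h6, eq_inv_of_mul_eq_one_left hxy1]
          simp only [inv_inv, mul_inv_rev, mul_assoc, mul_inv_cancel, inv_mul_cancel, inv_mul_cancel_left,
            mul_inv_cancel_left, mul_one, H.one_mem]
        · have htl : tg (fld (rowV P j) x) ≤ fld (rowV P j) x := Nat.mod_le _ _
          have htl' : tg (fld (rowV P j) x) < 1048576 := Nat.mod_lt _ (by norm_num)
          have hr : fld (rowV P j) x - tg (fld (rowV P j) x) < R := by omega
          rcases h4 with ⟨h4, h5⟩ | h4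
          · -- mirror
            obtain ⟨x', hx'⟩ := hS x y hxy
            set e := fld (rowV P j) x with he'
            have hmod : (e - tg e) % 1048576 = 0 := by
              show (e - e % 1048576) % 1048576 = 0
              omega
            have ht2 : tg (e - tg e + j) = j := by
              show (e - tg e + j) % 1048576 = j
              omega
            rcases (hN _ h2).1 y x' hx' with ⟨g1, _⟩ | ⟨g1, g2, g3⟩
            · rw [h5] at g1
              have : e - tg e ≤ 17592183947264 := by omega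
              omega
            · rw [h5] at g1 g2 g3
              rcases g3 with g3 | ⟨g3, _⟩ | ⟨g3, g4⟩
              · omega
              · omega
              · rcases g4 with ⟨g4, _⟩ | g4
                · omega
                · rw [ht2] at g4
                  have g5 := g4 (ih _ (by omega) (by omega))
                  have g6 := g5.symm
                  rwa [← eq_inv_of_mul_eq_one_left hxy1] at g6
          · exact h4 (ih _ hr (by omega))

/-- The nodes below `j` have been checked. -/
inductive Seg (P : Par) (L : LL) : ℕ → Prop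
  | nil : Seg P L 0
  | snoc {j j₁ : ℕ} {l : CP} : Seg P L j → chunks P L j₁ l j = true → Seg P L j₁

theorem Seg.sound {w : ℕ → G} (hm : P.m ≤ 1048576) (h0 : w 0 = 1) {L : LL} (hL : L.OK H s A)
    (hic : ∀ x y, P.ic x y = true → A x ∧ A y ∧ s x * s y = 1)
    (htr : P.tr.All fun z _ => (∀ a ∈ z, A a) ∧ val s z = 1) {j : ℕ} (h : Seg P L j) (hj : j ≤ P.m) :
    ∀ i < j, NodeOK H s w P A L i := by
  induction h with
  | nil => exact fun i hi => absurd hi (Nat.not_lt_zero _)
  | snoc h1 h2 ih =>
    rename_i j j₁ l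
    have hlen := chunks_len h2
    have g1 := ih (by omega)
    have k1 := chunks_sound (H := H) (w := w) hm h0 hL hic htr hj h2
    intro i hi
    rcases Nat.lt_or_ge i j with h7 | h7
    · exact g1 i h7
    · exact k1 i h7 hi

theorem tgts_mem {l : List (List ℕ)} (h : tgts P l = true) : ∀ z ∈ l, walkV P 17592184995840 z 0 = 0 := by
  induction l with
  | nil => intro z hz; simp at hz
  | cons z' l ih =>
    have h' : @Bool.rec (fun _ => Bool) false (tgts P l) (Nat.beq (walkV P 17592184995840 z' 0) 0) = true := h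
    obtain ⟨h1, h2⟩ := sel_true_left h'
    intro z hz
    rcases List.mem_cons.1 hz with rfl | hz
    · exact beq_true h1
    · exact ih h2 z hz

/-- Conclusion of a partial coset enumeration: the words `tl` lie in every subgroup that contains the words `subs`. -/
def PCert (ng : ℕ) (l : List (ℕ × ℕ)) (RL : List (List ℕ × ℕ)) (subs tl : List (List ℕ)) : Prop :=
  ∀ {G : Type} [Group G] (g : ℕ → G) (H : Subgroup G), (∀ x, g (ivL l x) = (g x)⁻¹) →
    (∀ r ∈ RL.map expand, (r.map g).prod = 1) → (∀ r ∈ subs, (r.map g).prod ∈ H) → ∀ z ∈ tl, (z.map g).prod ∈ H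

/-- **Partial coset enumeration.** -/
theorem pmain {G : Type*} [Group G] (g : ℕ → G) (H : Subgroup G) (ng : ℕ) (l : List (ℕ × ℕ))
    (hl : ∀ x, g (ivL l x) = (g x)⁻¹) (rels subs : List (List ℕ)) (hrels : ∀ r ∈ rels, (r.map g).prod = 1)
    (hsubs : ∀ r ∈ subs, (r.map g).prod ∈ H) (P : Par) (L : LL) (hic : P.ic = icG ng l)
    (hst : staticOK ng l rels subs P L = true) (hN : Seg P L P.m) {tl : List (List ℕ)}
    (htl : tl.all (fun z => z.all (isLet ng)) = true) (ht : tgts P tl = true) : ∀ z ∈ tl, (z.map g).prod ∈ H := by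
  simp only [staticOK, Bool.and_eq_true] at hst
  obtain ⟨⟨⟨⟨h1, h2⟩, h3⟩, h4⟩, h5⟩ := hst
  have hm := ble_true h4
  have hm0 := ble_true h5
  have hOK := LL.ok_of_okB hl hrels hsubs h1
  have hA : ∀ x, isLet ng x = true → ∃ y, L.Mem x y := by
    intro x hx
    apply LL.mem_of_lets
    have hx' := hx
    simp only [isLet, Bool.and_eq_true] at hx'
    have h6 := ble_true hx'.2
    simp only [List.all_eq_true, List.mem_range] at h3
    have h7 := h3 x (by omega)
    simpa [hx] using h7
  have hS : L.Symm := by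
    intro x y hxy
    obtain ⟨_, hy, _⟩ := hxy.ok hOK
    exact hA y hy
  have htr : P.tr.All fun z _ => (∀ a ∈ z, isLet ng a = true) ∧ val (fun x => (g x)⁻¹) z = 1 := by
    refine WT.all_of_allB ?_ h2
    intro z _ hz
    simp only [Bool.and_eq_true, List.all_eq_true] at hz
    refine ⟨hz.1, ?_⟩
    rw [val_inv, prod_of_isRel hl hrels hz.2, inv_one]
  have hic' : ∀ x y, P.ic x y = true → isLet ng x = true ∧ isLet ng y = true ∧ (g x)⁻¹ * (g y)⁻¹ = 1 := by
    intro x y hxy
    rw [hic] at hxy
    obtain ⟨hx, hy, h6⟩ := icG_spec ng l x y hxy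
    refine ⟨hx, hy, ?_⟩
    rw [h6, hl]
    simp
  have hV := valid_all hm hOK hS hA
    (Seg.sound (w := wd P (fun x => (g x)⁻¹) L) hm (wd_zero L) hOK hic' htr hN le_rfl) 17592184995840 le_rfl
  intro z hz
  have hz1 : ∀ a ∈ z, isLet ng a = true := by
    simp only [List.all_eq_true] at htl
    exact htl z hz
  have hw := tgts_mem ht z hz
  rcases walkV_sound hV (by norm_num) z hz1 (j := 0) (by omega) with h6 | ⟨_, h6⟩
  · rw [hw] at h6; exact absurd h6 (by norm_num)
  · rw [hw] at h6
    unfold Rel at h6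
    rw [wd_zero, inv_one, one_mul, mul_one, val_inv] at h6
    exact H.inv_mem_iff.1 h6

end Cfsg.Agent.CosetEnum.Part
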