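import Cfsg.Agent.CosetEnum.Basic

/-!
Partial coset enumeration certificates (owner: helper80, extension of helper28's `CosetEnum.Basic`):
the table need not be complete; the conclusion is only that certain words fix the coset `0`.
-/

set_option autoImplicit false

namespace Cfsg.Agent.CosetEnum.Part

open Cfsg.Agent.CosetEnum

local notation "sel(" c ", " a ", " b ")" => @Bool.rec (fun _ => Bool) b a c

/-- Check of the node `j`. -/
noncomputable def node (P : Par) (L : LL) (j v : Nat) (cont : Nat → Bool) : Bool :=
  force (rowV P j) fun w => link P j w v
    (fun v' => edges P j w true L (fun v'' p => sel(p, cont v'', sel(Nat.beq j 0, cont v'', false))) v' false)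
    (fun v' => edges P j w true L (fun v'' p => sel(p, cont v'', false)) v' false)

/-- Check of the nodes `j`, `j+1`, … (`c` of them). -/
noncomputable def nodes (P : Par) (L : LL) (c : Nat) : Nat → Nat → Bool :=
  @Nat.rec (fun _ => Nat → Nat → Bool) (fun _ _ => true)
    (fun _ ih j v => force j fun j => node P L j v (fun v' => ih (Nat.succ j) v')) c

/-- Lists of chunks of nodes: number of nodes, stream of certificates. -/
inductive CP
  | nil
  | cons (c v : Nat) (l : CP)

/-- Check of the nodes from `j` to `j₁`. -/
noncomputable def chunks (P : Par) (L : LL) (j₁ : Nat) (l : CP) : Nat → Bool :=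
  @CP.rec (fun _ => Nat → Bool) (fun j => Nat.beq j j₁)
    (fun c v _ ih j => sel(nodes P L c j v, force (Nat.add j c) ih, false)) l

/-- the words fix the coset `0` -/
noncomputable def tgts (P : Par) (l : List (List Nat)) : Bool :=
  @List.rec (List Nat) (fun _ => Bool) true (fun z _ ih => sel(Nat.beq (walkV P 17592184995840 z 0) 0, ih, false)) l

end Cfsg.Agent.CosetEnum.Part
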