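import Cfsg.Agent.LE.J3U.Rho

/-!
# Groups of `J₃` type, X: the presentation holds (owner: helper80)
-/
set_option autoImplicit false
set_option linter.all false

namespace Cfsg.Agent.LE.J3U

open Subgroup Cfsg.Agent.H90 Equiv Cfsg.Agent.LE Cfsg.Agent.LE.J2U Cfsg.Agent.CosetEnum

universe u

set_option maxRecDepth 100000 in
theorem perm_words : ∀ σ : Perm (Fin 5), Perm.sign σ = 1 → ∃ (i : Fin 2) (j l : Fin 3) (m : Fin 2) (n : Fin 3),
    σ = pf ^ i.val * pk ^ j.val * py ^ l.val * pf ^ m.val * py ^ n.val := by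
  decide +kernel

/-- the words -/
def rhoL : List ℕ := [10, 5, 9, 5, 10, 4, 10, 4, 9, 5, 10, 4, 10, 5, 9, 5, 10, 3, 4]
def cwL : List ℕ := [9, 4, 9, 5, 9, 5, 9, 4, 2, 10, 5, 9, 4, 9, 4, 10, 4, 9, 5, 10, 1, 2, 1, 4]
def cwI : List ℕ := [5, 1, 3, 1, 9, 4, 10, 5, 9, 5, 10, 5, 10, 4, 9, 3, 5, 10, 4, 10, 4, 10, 5, 10]
def vL : List ℕ := [11, 10, 11, 9, 11, 10, 11, 1, 11, 9, 11, 10, 11, 9, 11, 1]

/-- the relators of `J₃` -/
def j3RL : List (List ℕ × ℕ) := base3 ++ [([10, 1, 9, 2, 1, 3], 1), ([9, 11], 10), ([9, 11, 10, 11], 4), (rhoL, 1),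
  (cwL, 1)]

namespace C3

variable {G : Type u} [Group G] [Finite G] {Q : Subgroup G} {z f y a : G} (c : C3 Q z f y a)
include c

/-- generation of `C(z)` -/
theorem gen {k : G} (Ak : A0 z (tp a f y) k pk) (N : Subgroup G) (hf : f ∈ N) (hy : y ∈ N) (hk : k ∈ N) (hz : z ∈ N)
    (ha : a ∈ N) (he : tp a f y 4 ∈ N) {u : G} (hu : u * z = z * u) : u ∈ N := by
  have B := c.B
  have t0 : tp a f y 0 ∈ N := by
    have : tp a f y 0 = f * a * f := by simp [tp]
    rw [this]; exact N.mul_mem (N.mul_mem hf ha) hf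
  have t1 : tp a f y 1 ∈ N := by
    have : tp a f y 1 = y⁻¹ * (f * a * f) * y := by simp [tp]
    rw [this]; exact N.mul_mem (N.mul_mem (N.inv_mem hy) (N.mul_mem (N.mul_mem hf ha) hf)) hy
  have t2 : tp a f y 2 ∈ N := by
    have : tp a f y 2 = y * (f * a * f) * y⁻¹ := by simp [tp]
    rw [this]; exact N.mul_mem (N.mul_mem hy (N.mul_mem (N.mul_mem hf ha) hf)) (N.inv_mem hy)
  have t3 : tp a f y 3 ∈ N := by
    have : tp a f y 3 = a := by simp [tp]
    rw [this]; exact ha
  have tall : ∀ i, tp a f y i ∈ N := by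
    intro i
    fin_cases i
    · exact t0
    · exact t1
    · exact t2
    · exact t3
    · exact he
  have hzp : ∀ b, zp z b ∈ N := fun b => N.pow_mem hz _
  have hQ : ∀ q ∈ Q, q ∈ N := by
    intro q hq
    obtain ⟨b, h4 | ⟨i, h4⟩ | ⟨i, j, hij, h4⟩⟩ := mem_form B.pl B.pts B.cardQ hq
    · rw [h4]; exact hzp b
    · rw [h4]; exact N.mul_mem (hzp b) (tall i)
    · rw [h4]; exact N.mul_mem (hzp b) (N.mul_mem (tall i) (tall j))
  have P : ∀ σ : Perm (Fin 5), Perm.sign σ = 1 → ∃ v ∈ N, ∃ s, v * z = z * v ∧ Act z (tp a f y) v σ s := by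
    have mulP : ∀ σ τ : Perm (Fin 5), (∃ v ∈ N, ∃ s, v * z = z * v ∧ Act z (tp a f y) v σ s) →
        (∃ v ∈ N, ∃ s, v * z = z * v ∧ Act z (tp a f y) v τ s) →
        (∃ v ∈ N, ∃ s, v * z = z * v ∧ Act z (tp a f y) v (σ * τ) s) := by
      rintro σ τ ⟨v, hv, s, hvz, h1⟩ ⟨v', hv', s', hvz', h2⟩
      exact ⟨v * v', N.mul_mem hv hv', _, (show Commute v z from hvz).mul_left hvz', act_mul B.pl hvz h1 h2⟩
    have powP : ∀ (σ : Perm (Fin 5)) (n : ℕ), (∃ v ∈ N, ∃ s, v * z = z * v ∧ Act z (tp a f y) v σ s) →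
        (∃ v ∈ N, ∃ s, v * z = z * v ∧ Act z (tp a f y) v (σ ^ n) s) := by
      intro σ n h
      induction n with
      | zero => exact ⟨1, N.one_mem, 0, by simp, act_one B.pl⟩
      | succ n ih => rw [pow_succ]; exact mulP _ _ ih h
    have Pf : ∃ v ∈ N, ∃ s, v * z = z * v ∧ Act z (tp a f y) v pf s := ⟨f, hf, 0, c.Af.1, c.Af.2⟩
    have Py : ∃ v ∈ N, ∃ s, v * z = z * v ∧ Act z (tp a f y) v py s := ⟨y, hy, 0, c.Ay.1, c.Ay.2⟩
    have Pk : ∃ v ∈ N, ∃ s, v * z = z * v ∧ Act z (tp a f y) v pk s := ⟨k, hk, 0, Ak.1, Ak.2⟩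
    intro σ hσ
    obtain ⟨i, j, l, m, n, rfl⟩ := perm_words σ hσ
    exact mulP _ _ (mulP _ _ (mulP _ _ (mulP _ _ (powP _ _ Pf) (powP _ _ Pk)) (powP _ _ Py)) (powP _ _ Pf)) (powP _ _ Py)
  obtain ⟨σ, hσ, s, hs, hact⟩ := B.act hu
  obtain ⟨v, hv, s', hvz, hv'⟩ := P σ (Equiv.Perm.mem_alternatingGroup.mp hσ)
  have hviz : v⁻¹ * z = z * v⁻¹ := (show Commute v z from hvz).inv_left
  have h1 := act_mul B.pl hu hact (act_inv B.pl hvz hv')
  rw [mul_inv_cancel] at h1
  have h2 : u * v⁻¹ ∈ Q := B.mem_of_act_one ((show Commute u z from hu).mul_left hviz) h1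
  have h3 : u = (u * v⁻¹) * v := by group
  rw [h3]; exact N.mul_mem (hQ _ h2) hv

/-- an element of order 5 does not commute with two commuting involutions -/
theorem no_five {f1 f2 U : G} (ff : f1 * f1 = 1) (f1n : f1 ≠ 1) (ff2 : f2 * f2 = 1) (f2n : f2 ≠ 1) (hne : f2 ≠ f1)
    (hc : f2 * f1 = f1 * f2) (U5 : U ^ 5 = 1) (U1 : U ≠ 1) (h1 : U * f1 = f1 * U) (h2 : U * f2 = f2 * U) : False := by
  have B := c.B
  obtain ⟨g, hg⟩ := c.oc f1 ff f1n
  have e1 : g⁻¹ * f1 * g⁻¹⁻¹ = z := by rw [← hg]; group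
  obtain ⟨W, hW⟩ : ∃ W, W = g⁻¹ * U * g⁻¹⁻¹ := ⟨_, rfl⟩
  obtain ⟨t, ht⟩ : ∃ t, t = g⁻¹ * f2 * g⁻¹⁻¹ := ⟨_, rfl⟩
  have Wz : W * z = z * W := comm_of_conj h1 hW.symm e1
  have Wt : W * t = t * W := comm_of_conj h2 hW.symm ht.symm
  have tz : t * z = z * t := comm_of_conj hc ht.symm e1
  have tt : t * t = 1 := by rw [ht]; exact conj_sq ff2
  have t1 : t ≠ 1 := by rw [ht]; exact conj_ne_one f2n
  have tnz : t ≠ z := by
    intro h
    apply hne
    rw [← e1, ht] at h
    exact mul_left_cancel (mul_right_cancel h)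
  have W5 : W ^ 5 = 1 := by rw [hW, conj_pow, U5]; group
  have W1 : W ≠ 1 := by rw [hW]; exact conj_ne_one U1
  obtain ⟨σ, hσ, s, hs, hact⟩ := B.act Wz
  obtain ⟨τ, hτ, s', hs', hact'⟩ := B.act tz
  have hpow : ∀ n : ℕ, ∃ r, Act z (tp a f y) (W ^ n) (σ ^ n) r := by
    intro n
    induction n with
    | zero => exact ⟨0, by simpa using act_one B.pl⟩
    | succ n ih =>
      obtain ⟨r, hr⟩ := ih
      rw [pow_succ, pow_succ]
      exact ⟨_, act_mul B.pl ((show Commute W z from Wz).pow_left n) hr hact⟩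
  have hσ5 : σ ^ 5 = 1 := by
    obtain ⟨r, hr⟩ := hpow 5
    rw [W5] at hr
    exact (act_unique B.pl B.pts hr (act_one B.pl)).1
  have hσ1 : σ ≠ 1 := by
    rintro rfl
    have hWQ := B.mem_of_act_one Wz hact
    have h4 := B.pl.toXS.pow_four hWQ
    apply W1
    calc W = W ^ 5 * (W ^ 4)⁻¹ := by group
      _ = 1 := by rw [W5, h4]; simp
  obtain ⟨q1, q2⟩ := five_cent σ ⟨hσ5, hσ1⟩
  have hτσ : τ * σ = σ * τ := by
    have h3 := act_mul B.pl tz hact' hact
    have h4 := act_mul B.pl Wz hact hact'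
    rw [Wt] at h4
    exact (act_unique B.pl B.pts h3 h4).1
  have hττ : τ * τ = 1 := by
    have h3 := act_mul B.pl tz hact' hact'
    rw [tt] at h3
    exact (act_unique B.pl B.pts h3 (act_one B.pl)).1
  have hτ1 := q2 τ hτσ hττ
  rw [hτ1] at hact'
  have tQ := B.mem_of_act_one tz hact'
  obtain ⟨b, l, hl⟩ := invol_form B.pl B.pts B.cardQ tQ t1 tnz tt
  have h3 : W * t * W⁻¹ = t := by rw [Wt, mul_inv_cancel_right]
  rw [hl] at h3
  have h2 : W * (zp z b * tp a f y l) * W⁻¹ = zp z (b + s l) * tp a f y (σ l) := by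
    have e1 : W * (zp z b * tp a f y l) * W⁻¹ = (W * zp z b) * tp a f y l * W⁻¹ := by group
    rw [e1, zp_comm Wz, mul_assoc (zp z b), mul_assoc (zp z b), hact l, ← mul_assoc, ← zp_add B.pl.toXS]
  rw [h2] at h3
  exact q1 l (B.pts.eq_of B.pl h3).1

open Cfsg.Agent.CosetEnum.J3U in
/-- **The presentation.** -/
theorem exists_pres : ∃ k w d : G, E3 f y k z a (tp a f y 4) w ∧ DD z (tp a f y 4) a y d ∧
    A0 z (tp a f y) k pk ∧ Good (gg f y k z a (tp a f y 4) d w) 11 J2U.iv j3RL := by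
  obtain ⟨k, w, E, Ak, Aw⟩ := c.exists_e3
  obtain ⟨d, D⟩ := c.exists_dd
  refine ⟨k, w, d, E, D, Ak, ?_⟩
  have FD := c.fd E D
  have GD := gd_of E D
  obtain ⟨h5, hne, i, hi, h4⟩ := c.cy_rels E D
  have ww := E.ww
  have wi : w⁻¹ = w := inv_eq_of_mul_eq_one_left ww
  have ff := E.ff
  have fi : f⁻¹ = f := inv_eq_of_mul_eq_one_left ff
  have hFD : d⁻¹ * (f * (d * (y * (f * y⁻¹)))) = 1 := by
    calc d⁻¹ * (f * (d * (y * (f * y⁻¹)))) = (d⁻¹ * f * d) * (y * f * y⁻¹) := by group
      _ = y * (f * f) * y⁻¹ := by rw [FD]; group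
      _ = 1 := by rw [ff]; group
  have hdw : (d * w) ^ 10 = 1 := by
    have : (d * w) ^ 10 = (d * (w * d * w)) ^ 5 := by
      rw [show 10 = 2 * 5 by norm_num, pow_mul]
      congr 1
      rw [pow_two]; simp only [mul_assoc]
    rw [this, h5]
  have hv : d * (w * (d⁻¹ * w)) = d * (w * d * w)⁻¹ := by
    rw [mul_inv_rev, mul_inv_rev, wi]
  have y2 : y ^ 2 = y⁻¹ := by
    rw [pow_two]; exact eq_inv_of_mul_eq_one_left E.yyy
  have bas : ∀ p ∈ [([10, 1, 9, 2, 1, 3], 1), ([9, 11], 10)],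
      ((List.map (gg f y k z a (tp a f y 4) d w) p.1).prod) ^ p.2 = 1 := by
    intro p hp
    simp only [List.mem_cons, List.not_mem_nil, or_false] at hp
    rcases hp with rfl | rfl <;>
      simp only [List.map_cons, List.map_nil, List.prod_cons, List.prod_nil, mul_one, pow_one, gg]
    · exact hFD
    · exact hdw
  have hi' : i = 0 ∨ i = 1 ∨ i = 2 := by omega
  rcases hi' with rfl | rfl | rfl
  · -- the case of `J₃`
    rw [pow_zero] at h4
    have bas0 : ∀ p ∈ [([10, 1, 9, 2, 1, 3], 1), ([9, 11], 10), ([9, 11, 10, 11], 4)],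
        ((List.map (gg f y k z a (tp a f y 4) d w) p.1).prod) ^ p.2 = 1 := by
      intro p hp
      rw [show [([10, 1, 9, 2, 1, 3], 1), ([9, 11], 10), ([9, 11, 10, 11], 4)] =
        [([10, 1, 9, 2, 1, 3], 1), ([9, 11], 10)] ++ [([9, 11, 10, 11], 4)] from rfl, List.mem_append] at hp
      rcases hp with hp | hp
      · exact bas p hp
      · simp only [List.mem_cons, List.not_mem_nil, or_false] at hp
        subst hp
        simp only [List.map_cons, List.map_nil, List.prod_cons, List.prod_nil, mul_one, gg]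
        rw [hv, h4]
    have hrho := c.kill' E D rhoL (R0.cert (g := gg f y k z a (tp a f y 4) d w) (E.good D bas0)
      (centralizer ({z} : Set G)) E.subs_mem)
    have hrho1 : (List.map (gg f y k z a (tp a f y 4) d w) rhoL).prod = 1 := by
      rcases hrho with h | h
      · exact h
      · exfalso
        have hg := E.good D (ex := [([10, 1, 9, 2, 1, 3], 1), ([9, 11], 10), ([9, 11, 10, 11], 4), (rhoL ++ [6], 1)]) (by
          intro p hp
          rw [show [([10, 1, 9, 2, 1, 3], 1), ([9, 11], 10), ([9, 11, 10, 11], 4), (rhoL ++ [6], 1)] =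
            [([10, 1, 9, 2, 1, 3], 1), ([9, 11], 10), ([9, 11, 10, 11], 4)] ++ [(rhoL ++ [6], 1)] from rfl,
            List.mem_append] at hp
          rcases hp with hp | hp
          · exact bas0 p hp
          · simp only [List.mem_cons, List.not_mem_nil, or_false] at hp
            subst hp
            rw [pow_one, List.map_append, List.prod_append, h]
            simp only [List.map_cons, List.map_nil, List.prod_cons, List.prod_nil, mul_one, gg]
            exact E.zz)
        exact E.badP D fun H => RZ.cert (g := gg f y k z a (tp a f y 4) d w) hg H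
    have bas1 : ∀ p ∈ [([10, 1, 9, 2, 1, 3], 1), ([9, 11], 10), ([9, 11, 10, 11], 4), (rhoL, 1)],
        ((List.map (gg f y k z a (tp a f y 4) d w) p.1).prod) ^ p.2 = 1 := by
      intro p hp
      rw [show [([10, 1, 9, 2, 1, 3], 1), ([9, 11], 10), ([9, 11, 10, 11], 4), (rhoL, 1)] =
        [([10, 1, 9, 2, 1, 3], 1), ([9, 11], 10), ([9, 11, 10, 11], 4)] ++ [(rhoL, 1)] from rfl, List.mem_append] at hp
      rcases hp with hp | hp
      · exact bas0 p hp
      · simp only [List.mem_cons, List.not_mem_nil, or_false] at hp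
        subst hp
        rw [pow_one]; exact hrho1
    have hg1 := E.good D bas1
    -- the element `c`
    obtain ⟨γ, hγ⟩ : ∃ γ, γ = (List.map (gg f y k z a (tp a f y 4) d w) cwL).prod := ⟨_, rfl⟩
    have hγi : (List.map (gg f y k z a (tp a f y 4) d w) cwI).prod = γ⁻¹ := by
      rw [hγ]
      simp only [cwL, cwI, List.map_cons, List.map_nil, List.prod_cons, List.prod_nil, mul_one, gg, mul_inv_rev, inv_inv,
        fi, mul_assoc]
    have hC0 := C0.cert (g := gg f y k z a (tp a f y 4) d w) hg1 (centralizer ({z} : Set G)) E.subs_mem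
    have hconj : ∀ x : ℕ, x ∈ [1, 2, 4, 6, 7, 8] →
        γ * gg f y k z a (tp a f y 4) d w x * γ⁻¹ ∈ centralizer ({z} : Set G) := by
      intro x hx
      have h6 : cwL ++ x :: cwI ∈ C0.tl := by
        simp only [List.mem_cons, List.not_mem_nil, or_false] at hx
        rcases hx with rfl | rfl | rfl | rfl | rfl | rfl <;> decide
      have h7 := hC0 _ h6
      rw [List.map_append, List.prod_append, List.map_cons, List.prod_cons, ← hγ, hγi, ← mul_assoc] at h7
      exact h7
    have hcl : ∀ u : G, u * z = z * u → γ * u * γ⁻¹ ∈ centralizer ({z} : Set G) := by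
      intro u hu
      have h6 := c.gen Ak ((centralizer ({z} : Set G)).comap (MulAut.conj γ).toMonoidHom)
        (hconj 1 (by decide)) (hconj 2 (by decide)) (hconj 4 (by decide)) (hconj 6 (by decide)) (hconj 7 (by decide))
        (hconj 8 (by decide)) hu
      exact h6
    have hγz : γ ∈ centralizer ({z} : Set G) := by
      -- the map `u ↦ γ u γ⁻¹` of `C(z)` is bijective
      have hinj : Function.Injective (fun u : centralizer ({z} : Set G) =>
          (⟨γ * u * γ⁻¹, hcl u (mem_centralizer_singleton_iff.1 u.2)⟩ : centralizer ({z} : Set G))) := by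
        intro u v huv
        have := congrArg Subtype.val huv
        exact Subtype.ext (mul_left_cancel (mul_right_cancel this))
      have hsurj := Finite.surjective_of_injective hinj
      have h6 : γ * z * γ⁻¹ = 1 ∨ γ * z * γ⁻¹ = z := by
        apply c.B.pl.cent
        intro q hq
        obtain ⟨u, hu⟩ := hsurj ⟨q, mem_centralizer_singleton_iff.2 (c.B.pl.central q hq)⟩
        have hu' : γ * (u : G) * γ⁻¹ = q := congrArg Subtype.val hu
        have huz := mem_centralizer_singleton_iff.1 u.2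
        exact comm_of_conj huz.symm rfl hu'
      rcases h6 with h6 | h6
      · exact absurd h6 (conj_ne_one c.B.pl.ne_one)
      · rw [mem_centralizer_singleton_iff]
        exact mul_inv_eq_iff_eq_mul.1 h6
    have hγ1 : γ = 1 := by
      have h6 := c.kill' E D cwL (C1.cert (g := gg f y k z a (tp a f y 4) d w) hg1
        (centralizer ({z} : Set G)) (by
          intro r hr
          have h7 : r ∈ [[1], [2], [4], [6], [7], [8], [11]] ∨ r = cwL := by
            rw [show C1.subs = [[1], [2], [4], [6], [7], [8], [11]] ++ [cwL] from rfl, List.mem_append,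
              List.mem_singleton] at hr
            exact hr
          rcases h7 with h7 | h7
          · exact E.subs_mem r h7
          · rw [h7, ← hγ]; exact hγz))
      rw [← hγ] at h6
      rcases h6 with h6 | h6
      · exact h6
      · exfalso
        have hg := E.good D (ex := [([10, 1, 9, 2, 1, 3], 1), ([9, 11], 10), ([9, 11, 10, 11], 4), (rhoL, 1),
            (cwL ++ [6], 1)]) (by
          intro p hp
          rw [show [([10, 1, 9, 2, 1, 3], 1), ([9, 11], 10), ([9, 11, 10, 11], 4), (rhoL, 1), (cwL ++ [6], 1)] =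
            [([10, 1, 9, 2, 1, 3], 1), ([9, 11], 10), ([9, 11, 10, 11], 4), (rhoL, 1)] ++ [(cwL ++ [6], 1)] from rfl,
            List.mem_append] at hp
          rcases hp with hp | hp
          · exact bas1 p hp
          · simp only [List.mem_cons, List.not_mem_nil, or_false] at hp
            subst hp
            rw [pow_one, List.map_append, List.prod_append, ← hγ, h6]
            simp only [List.map_cons, List.map_nil, List.prod_cons, List.prod_nil, mul_one, gg]
            exact E.zz)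
        exact E.badP D fun H => CZ.cert (g := gg f y k z a (tp a f y 4) d w) hg H
    have bas2 : ∀ p ∈ [([10, 1, 9, 2, 1, 3], 1), ([9, 11], 10), ([9, 11, 10, 11], 4), (rhoL, 1), (cwL, 1)],
        ((List.map (gg f y k z a (tp a f y 4) d w) p.1).prod) ^ p.2 = 1 := by
      intro p hp
      rw [show [([10, 1, 9, 2, 1, 3], 1), ([9, 11], 10), ([9, 11, 10, 11], 4), (rhoL, 1), (cwL, 1)] =
        [([10, 1, 9, 2, 1, 3], 1), ([9, 11], 10), ([9, 11, 10, 11], 4), (rhoL, 1)] ++ [(cwL, 1)] from rfl,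
        List.mem_append] at hp
      rcases hp with hp | hp
      · exact bas1 p hp
      · simp only [List.mem_cons, List.not_mem_nil, or_false] at hp
        subst hp
        rw [pow_one, ← hγ]; exact hγ1
    exact E.good D bas2
  · -- the case of `J₂`
    exfalso
    rw [pow_one] at h4
    have hg := E.good D (ex := [([10, 1, 9, 2, 1, 3], 1), ([9, 11], 10),
        ([9, 11, 10, 11, 9, 11, 10, 11, 9, 11, 10, 11, 9, 11, 10, 11, 3], 1)]) (by
      intro p hp
      rw [show [([10, 1, 9, 2, 1, 3], 1), ([9, 11], 10),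
        ([9, 11, 10, 11, 9, 11, 10, 11, 9, 11, 10, 11, 9, 11, 10, 11, 3], 1)] =
        [([10, 1, 9, 2, 1, 3], 1), ([9, 11], 10)] ++
          [([9, 11, 10, 11, 9, 11, 10, 11, 9, 11, 10, 11, 9, 11, 10, 11, 3], 1)] from rfl, List.mem_append] at hp
      rcases hp with hp | hp
      · exact bas p hp
      · simp only [List.mem_cons, List.not_mem_nil, or_false] at hp
        subst hp
        simp only [List.map_cons, List.map_nil, List.prod_cons, List.prod_nil, mul_one, pow_one, gg]
        have : (d * (w * (d⁻¹ * w))) ^ 4 * y⁻¹ = 1 := by rw [hv, h4, mul_inv_cancel]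
        simpa only [pow_succ, pow_zero, one_mul, mul_assoc] using this)
    have hv1 := c.kill' E D vL (I1.cert (g := gg f y k z a (tp a f y 4) d w) hg
      (centralizer ({z} : Set G)) E.subs_mem)
    obtain ⟨U, hU⟩ : ∃ U, U = w * d⁻¹ * w * d * w * d⁻¹ * w := ⟨_, rfl⟩
    have hval : (List.map (gg f y k z a (tp a f y 4) d w) vL).prod = U * f * U⁻¹ * f := by
      rw [hU]
      simp only [vL, List.map_cons, List.map_nil, List.prod_cons, List.prod_nil, mul_one, gg, mul_inv_rev, inv_inv,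
        wi, mul_assoc]
    rw [hval] at hv1
    obtain ⟨g, hg'⟩ : ∃ g, g = w * d * w := ⟨_, rfl⟩
    rw [← hg'] at GD h5 hne
    have dy : d * y = y * d := D.dy.symm
    have gy : g * y = y * g := GD.gy.symm
    have hUg : U = g⁻¹ * d * g⁻¹ := by
      rw [hU, hg', mul_inv_rev, mul_inv_rev, wi]
      simp only [mul_assoc]
    have Uy : U * y = y * U := by
      rw [hUg]
      have h1 : Commute g⁻¹ y := (show Commute g y from gy).inv_left
      exact ((h1.mul_left dy).mul_left h1)
    have gggi : g⁻¹ * g⁻¹ = g := by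
      calc g⁻¹ * g⁻¹ = (g * g * g)⁻¹ * g := by group
        _ = g := by rw [GD.ggg]; simp
    have hUc : U = g⁻¹ * (d * g) * g⁻¹⁻¹ := by
      rw [hUg, inv_inv]
      calc g⁻¹ * d * g⁻¹ = g⁻¹ * d * (g * g * g) * g⁻¹ := by rw [GD.ggg, mul_one]
        _ = g⁻¹ * (d * g) * g := by group
    have U5 : U ^ 5 = 1 := by rw [hUc, conj_pow, h5]; group
    have U1 : U ≠ 1 := by rw [hUc]; exact conj_ne_one hne
    have f1 := c.f1
    have hrel := c.F.fy.rel
    have hcomm := c.F.fy.comm
    obtain ⟨f2, hf2⟩ : ∃ f2, f2 = y⁻¹ * f * y := ⟨_, rfl⟩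
    rw [← hf2] at hrel hcomm
    have f2f2 : f2 * f2 = 1 := by
      rw [hf2]
      calc y⁻¹ * f * y * (y⁻¹ * f * y) = y⁻¹ * (f * f) * y := by group
        _ = 1 := by rw [ff]; group
    have f2n : f2 ≠ 1 := by
      intro h
      apply f1
      calc f = y * (y⁻¹ * f * y) * y⁻¹ := by group
        _ = 1 := by rw [← hf2, h]; group
    have f2ne : f2 ≠ f := by
      intro h
      rw [h, ff] at hrel
      apply f1
      calc f = y⁻¹ * (y * f * y⁻¹) * y := by group
        _ = 1 := by rw [← hrel]; group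
    have Uyi : U⁻¹ * y = y * U⁻¹ := (show Commute U y from Uy).inv_left
    have Uyi' : U * y⁻¹ = y⁻¹ * U := (show Commute U y from Uy).inv_right
    have hfix : U * f * U⁻¹ = f := by
      rcases hv1 with h | h
      · calc U * f * U⁻¹ = (U * f * U⁻¹ * f) * f := by rw [mul_assoc _ f f, ff, mul_one]
          _ = f := by rw [h, one_mul]
      · exfalso
        have h6 : U * f * U⁻¹ = z * f := by
          calc U * f * U⁻¹ = (U * f * U⁻¹ * f) * f := by rw [mul_assoc _ f f, ff, mul_one]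
            _ = z * f := by rw [h]
        have h7 : U * f2 * U⁻¹ = z * f2 := by
          rw [hf2]
          calc U * (y⁻¹ * f * y) * U⁻¹ = (U * y⁻¹) * f * (y * U⁻¹) := by group
            _ = y⁻¹ * (U * f * U⁻¹) * y := by rw [Uyi', ← Uyi]; group
            _ = (y⁻¹ * z) * f * y := by rw [h6]; group
            _ = z * (y⁻¹ * f * y) := by
                have : y⁻¹ * z = z * y⁻¹ := c.F.yzI
                rw [this]; group
        have h8 : U * (y * f * y⁻¹) * U⁻¹ = z * (y * f * y⁻¹) := by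
          calc U * (y * f * y⁻¹) * U⁻¹ = (U * y) * f * (y⁻¹ * U⁻¹) := by group
            _ = (y * U) * f * (U⁻¹ * y⁻¹) := by
                have : y⁻¹ * U⁻¹ = U⁻¹ * y⁻¹ := by rw [← mul_inv_rev, ← mul_inv_rev, Uy]
                rw [this, Uy]
            _ = y * (U * f * U⁻¹) * y⁻¹ := by group
            _ = (y * z) * f * y⁻¹ := by rw [h6]; group
            _ = z * (y * f * y⁻¹) := by rw [c.F.yz]; group
        have h9 : U * (f * f2) * U⁻¹ = f * f2 := by
          calc U * (f * f2) * U⁻¹ = (U * f * U⁻¹) * (U * f2 * U⁻¹) := by group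
            _ = z * (f * z) * f2 := by rw [h6, h7]; group
            _ = (z * z) * (f * f2) := by rw [c.F.fz]; group
            _ = f * f2 := by rw [c.F.zz, one_mul]
        rw [hrel, h8] at h9
        exact c.B.pl.ne_one (mul_right_cancel (b := y * f * y⁻¹) (by rw [one_mul]; exact h9))
    have Uf : U * f = f * U := mul_inv_eq_iff_eq_mul.1 hfix
    have Uf2 : U * f2 = f2 * U := by
      rw [hf2]
      have h1 : Commute U y := Uy
      exact ((h1.inv_right.mul_right Uf).mul_right h1)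
    exact c.no_five ff f1 f2f2 f2n f2ne hcomm.symm U5 U1 Uf Uf2
  · exfalso
    rw [y2] at h4
    have hg := E.good D (ex := [([10, 1, 9, 2, 1, 3], 1), ([9, 11], 10),
        ([9, 11, 10, 11, 9, 11, 10, 11, 9, 11, 10, 11, 9, 11, 10, 11, 2], 1)]) (by
      intro p hp
      rw [show [([10, 1, 9, 2, 1, 3], 1), ([9, 11], 10),
        ([9, 11, 10, 11, 9, 11, 10, 11, 9, 11, 10, 11, 9, 11, 10, 11, 2], 1)] =
        [([10, 1, 9, 2, 1, 3], 1), ([9, 11], 10)] ++
          [([9, 11, 10, 11, 9, 11, 10, 11, 9, 11, 10, 11, 9, 11, 10, 11, 2], 1)] from rfl, List.mem_append] at hp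
      rcases hp with hp | hp
      · exact bas p hp
      · simp only [List.mem_cons, List.not_mem_nil, or_false] at hp
        subst hp
        simp only [List.map_cons, List.map_nil, List.prod_cons, List.prod_nil, mul_one, pow_one, gg]
        have : (d * (w * (d⁻¹ * w))) ^ 4 * y = 1 := by rw [hv, h4, inv_mul_cancel]
        simpa only [pow_succ, pow_zero, one_mul, mul_assoc] using this)
    exact E.badP D fun H => I2.cert (g := gg f y k z a (tp a f y 4) d w) hg H

end C3

end Cfsg.Agent.LE.J3U
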