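import Cfsg.Agent.LE.J3U.TMDef
import Cfsg.Agent.LE.J3U.TData

/-! Fixed points of a word (owner: helper80). -/

set_option autoImplicit false
set_option maxRecDepth 1000000

namespace Cfsg.Agent.CosetEnum.J3UT

theorem mv0 : allR (mvB P [1, 3] [0, 4079]) 0 2052 = true := by decide +kernel

end Cfsg.Agent.CosetEnum.J3UT
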