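import Cfsg.Agent.LE.J3U.Order
import Cfsg.Agent.LE.J3U.TM0
import Cfsg.Agent.LE.J3U.TM1
import Cfsg.Agent.LE.J3U.TM2
import Mathlib

/-!
# Relations of the third Janko group (owner: helper80)
-/
set_option autoImplicit false
set_option maxRecDepth 1000000
set_option linter.all false

namespace Cfsg.Agent.LE.J3U

open Subgroup Cfsg.Agent.CosetEnum MulAction

/-- the base -/
theorem ls_prod : Nat.card QJ = (J3UT.ls.map fun p => p.2.length).prod := by
  rw [cardJ]; decide +kernel

theorem ls_base : J3UT.ls.map Prod.fst = [0, 5476, 5] := by decide +kernel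

theorem word_one {w : List ℕ} (hw : wOK 13 w = true) (h : bfB J3UT.P [w] [0, 5476, 5] = true) :
    (w.map qj).prod = 1 := by
  have hpos := LJ.pos
  obtain ⟨A, letsk, cw, h1, h2, h3, h3k, h4, h5, h6, h7⟩ := LJ.ex
  have htop : Subgroup.closure (qj '' {x | x ∈ J3UT.lets}) = ⊤ := (subB_ClL h1).trans UJ.top
  have hu : ∀ x ∈ w, x ∈ J3UT.lets := by
    intro x hx
    simp only [wOK, List.all_eq_true] at hw
    exact (subB_mem h1).2 (hw x hx)
  have h8 : val (fun x => (qj x)⁻¹) w = 1 := by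
    refine eq_one_of_base h3 htop J3UT.chain ls_prod ?_
    intro p hp i hi
    apply Fin.ext
    rw [h3.word hu, hi]
    have h9 : p.1 ∈ ([0, 5476, 5] : List ℕ) := by
      rw [← ls_base]; exact List.mem_map_of_mem hp
    exact trivB_sound (allL_sound h p.1 h9) _ (List.mem_singleton.2 rfl)
  rw [val_inv, inv_eq_one] at h8
  exact h8

theorem word_eq {u v v' : List ℕ} (hinv : (v'.map qj).prod = ((v.map qj).prod)⁻¹)
    (hw : wOK 13 (u ++ v') = true) (h : bfB J3UT.P [u ++ v'] [0, 5476, 5] = true) :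
    (u.map qj).prod = (v.map qj).prod := by
  have := word_one hw h
  rw [List.map_append, List.prod_append, hinv] at this
  exact mul_inv_eq_one.1 this

theorem iz : qj 1 = (qj 1)⁻¹ := UJ.good.inv 1
theorem iw : qj 2 = (qj 2)⁻¹ := UJ.good.inv 2
theorem ib : qj 4 = (qj 3)⁻¹ := UJ.good.inv 3
theorem if_ : qj 5 = (qj 5)⁻¹ := UJ.good.inv 5
theorem iy : qj 7 = (qj 6)⁻¹ := UJ.good.inv 6
theorem ik : qj 9 = (qj 8)⁻¹ := UJ.good.inv 8
theorem ia : qj 10 = (qj 10)⁻¹ := UJ.good.inv 10
theorem ie : qj 11 = (qj 11)⁻¹ := UJ.good.inv 11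
theorem id_ : qj 13 = (qj 12)⁻¹ := UJ.good.inv 12

/-- `f` is conjugate to `a` -/
theorem f_conj : ∃ v : QJ, qj 5 * v = v * qj 10 := by
  refine ⟨qj 3 * (qj 9 * (qj 3 * (qj 5 * qj 3))), ?_⟩
  have h := word_one (w := [5, 3, 9, 3, 5, 3] ++ [10, 4, 5, 4, 8, 4]) (by decide +kernel) (by decide +kernel)
  simp only [List.cons_append, List.nil_append, List.map_cons, List.map_nil, List.prod_cons, List.prod_nil, mul_one] at h
  rw [← mul_inv_eq_one]
  simp only [mul_inv_rev, ← ia, ← ib, ← if_, ik, inv_inv]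
  rw [ik] at h
  simp only [mul_assoc] at h ⊢
  exact h

/-- the normalizer of `k d` -/
theorem kd_conj : ∃ v : QJ, v * (qj 8 * qj 12) = (qj 8 * qj 12) ^ 4 * v := by
  refine ⟨qj 1 * (qj 5 * (qj 3 * (qj 12 * (qj 9 * (qj 6 * qj 11))))), ?_⟩
  have h := word_one (w := [1, 5, 3, 12, 9, 6, 11, 8, 12] ++ [11, 7, 8, 13, 4, 5, 1, 13, 9, 13, 9, 13, 9, 13, 9])
    (by decide +kernel) (by decide +kernel)
  simp only [List.cons_append, List.nil_append, List.map_cons, List.map_nil, List.prod_cons, List.prod_nil, mul_one] at h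
  rw [← mul_inv_eq_one]
  simp only [pow_succ, pow_zero, one_mul, mul_inv_rev, ← iz, ← ie, ← ib, ← if_, ← id_, ik, ← iy, inv_inv]
  rw [ik] at h
  simp only [mul_assoc] at h ⊢
  exact h

/-- an element of order 17 -/
abbrev s17 : QJ := qj 1 * qj 3

theorem s17_pow : s17 ^ 17 = 1 := by
  have h := word_one (w := List.flatten (List.replicate 17 [1, 3])) (by decide +kernel) (by decide +kernel)
  simp only [List.replicate, List.flatten_cons, List.flatten_nil, List.append_nil, List.cons_append, List.nil_append,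
    List.map_cons, List.map_nil, List.prod_cons, List.prod_nil, mul_one] at h
  simpa only [s17, pow_succ, pow_zero, one_mul, mul_assoc] using h

end Cfsg.Agent.LE.J3U
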