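import Cfsg.Agent.LE.J3U.QFacts
import Cfsg.Agent.LE.J3U.Num

/-!
# The numerical data of the third Janko group (owner: helper80)
-/
set_option autoImplicit false
set_option maxRecDepth 1000000
set_option linter.all false

namespace Cfsg.Agent.LE.J3U

open Subgroup Cfsg.Agent.CosetEnum MulAction

theorem nontriv_kd : qj 8 * qj 12 ≠ 1 := by
  intro h
  have h1 : qj 8 = (qj 12)⁻¹ := eq_inv_of_mul_eq_one_left h
  have hpos := LJ.pos
  obtain ⟨A, letsk, cw, g1, g2, h3, h3k, h4, h5, h6, h7⟩ := LJ.ex
  have h8 := h3.word (u := [8, 12]) (by decide) ⟨0, by omega⟩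
  have h9 : val (fun x => (qj x)⁻¹) [8, 12] = 1 := by
    rw [val_inv]
    simp only [List.map_cons, List.map_nil, List.prod_cons, List.prod_nil, mul_one]
    rw [h, inv_one]
  rw [h9, one_smul] at h8
  have h10 : actW J3UT.P [8, 12] 0 ≠ 0 := by decide +kernel
  exact h10 h8.symm

theorem ord19 : orderOf (qj 8 * qj 12) = 19 := by
  haveI : Fact (Nat.Prime 19) := ⟨by norm_num⟩
  exact orderOf_eq_prime kd19 nontriv_kd

theorem s17_ne : s17 ≠ 1 := by
  intro h
  have hpos := LJ.pos
  obtain ⟨A, letsk, cw, g1, g2, h3, h3k, h4, h5, h6, h7⟩ := LJ.ex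
  have hm : 1 < J3UT.P.m := by decide +kernel
  have h8 := h3.word (u := [1, 3]) (by decide) ⟨1, hm⟩
  have h9 : val (fun x => (qj x)⁻¹) [1, 3] = 1 := by
    rw [val_inv]
    simp only [List.map_cons, List.map_nil, List.prod_cons, List.prod_nil, mul_one]
    rw [show qj 1 * qj 3 = 1 from h, inv_one]
  rw [h9, one_smul] at h8
  have h10 : actW J3UT.P [1, 3] 1 ≠ 1 := by decide +kernel
  exact h10 h8.symm

theorem ord17 : orderOf s17 = 17 := by
  haveI : Fact (Nat.Prime 17) := ⟨by norm_num⟩
  exact orderOf_eq_prime s17_pow s17_ne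

theorem card_stab : Nat.card (Cl qj 4) = 8160 := by
  have h10 : Nat.card QJ = J3UT.P.m * Nat.card (Cl qj 4) := LJ.card
  have hm : J3UT.P.m = 6156 := by decide +kernel
  rw [cardJ, hm] at h10
  omega

/-- **The data of the presented group.** -/
theorem numQ : JNum QJ := by
  refine ⟨cardJ, ?_, ?_⟩
  · have hpos := LJ.pos
    obtain ⟨A, letsk, cw, h1, h2, h3, h3k, h4, h5, h6, h7⟩ := LJ.ex
    refine ⟨Fin J3UT.P.m, inferInstance, A, ?_, s17, ord17, ?_⟩
    · intro i
      obtain ⟨g, rfl⟩ := exists_smul_eq QJ (⟨0, by omega⟩ : Fin J3UT.P.m) i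
      rw [MulAction.stabilizer_smul_eq_stabilizer_map_conj, Subgroup.card_map_of_injective (MulAut.conj g).injective, h7]
      exact card_stab
    · have hm : J3UT.P.m = 6156 := by decide +kernel
      have h0 : 0 < J3UT.P.m := by rw [hm]; norm_num
      have h4079 : 4079 < J3UT.P.m := by rw [hm]; norm_num
      have key : ∀ i : Fin J3UT.P.m, s17 • i = i ↔ actW J3UT.P [1, 3] i = i := by
        intro i
        have h8 := h3.word (u := [1, 3]) (by decide) i
        have h9 : val (fun x => (qj x)⁻¹) [1, 3] = s17⁻¹ := by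
          rw [val_inv]
          simp only [List.map_cons, List.map_nil, List.prod_cons, List.prod_nil, mul_one]
        rw [h9] at h8
        rw [← h8]
        constructor
        · intro h
          rw [show s17⁻¹ • i = i from by rw [inv_smul_eq_iff]; exact h.symm]
        · intro h
          have h10 : s17⁻¹ • i = i := Fin.ext h
          rw [inv_smul_eq_iff] at h10
          exact h10.symm
      have hset : {i : Fin J3UT.P.m | s17 • i = i} = {⟨0, h0⟩, ⟨4079, h4079⟩} := by
        ext i
        rw [Set.mem_ofPred_eq, key, Set.mem_insert_iff, Set.mem_singleton_iff]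
        constructor
        · intro h
          have hc : Cov (mvB J3UT.P [1, 3] [0, 4079]) 0 J3UT.P.m :=
            (((Cov.of J3UT.mv0 rfl).trans (Cov.of J3UT.mv1 rfl)).trans (Cov.of J3UT.mv2 rfl))
          have h8 := mvB_sound (hc i (Nat.zero_le _) i.2) h
          simp only [List.mem_cons, List.not_mem_nil, or_false] at h8
          rcases h8 with h8 | h8
          · left; exact Fin.ext h8
          · right; exact Fin.ext h8
        · rintro (rfl | rfl)
          · show actW J3UT.P [1, 3] 0 = 0
            decide +kernel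
          · show actW J3UT.P [1, 3] 4079 = 4079
            decide +kernel
      rw [hset, Set.ncard_pair]
      intro h
      have := congrArg Fin.val h
      norm_num at this
  · obtain ⟨v, hv⟩ := kd_conj
    exact ⟨_, v, ord19, by rw [mul_inv_eq_iff_eq_mul]; exact hv⟩

theorem numOf {J : Type*} [Group J] (e : QJ ≃* J) : JNum J := by
  refine ⟨by rw [← Nat.card_congr e.toEquiv, cardJ], ?_, ?_⟩
  · obtain ⟨Ω, _, A, h1, s, hs, h2⟩ := numQ.act
    refine ⟨Ω, inferInstance, MulAction.compHom Ω e.symm.toMonoidHom, ?_, e s, ?_, ?_⟩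
    · intro i
      rw [← h1 i]
      refine Nat.card_congr ⟨fun g => ⟨e.symm g.1, g.2⟩, fun g => ⟨e g.1, ?_⟩, fun g => ?_, fun g => ?_⟩
      · have : e.symm (e g.1) • i = i := by rw [MulEquiv.symm_apply_apply]; exact g.2
        exact this
      · apply Subtype.ext; exact e.apply_symm_apply _
      · apply Subtype.ext; exact e.symm_apply_apply _
    · rw [MulEquiv.orderOf_eq]; exact hs
    · rw [← h2]
      congr 1
      ext i
      show e.symm (e s) • i = i ↔ s • i = i
      rw [MulEquiv.symm_apply_apply]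
  · obtain ⟨p, v, hp, hv⟩ := numQ.nrm
    exact ⟨e p, e v, by rw [MulEquiv.orderOf_eq]; exact hp, by rw [← map_inv, ← map_mul, ← map_mul, hv, map_pow]⟩

end Cfsg.Agent.LE.J3U
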