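import Cfsg.Agent.LE.J3U.Bsw2
import Cfsg.Agent.LE.J3U.SCerts

/-!
# Groups of `J₃` type, VIII: the relations of `C(y)` (owner: helper80)
-/
set_option autoImplicit false
set_option linter.all false

namespace Cfsg.Agent.LE.J3U

open Subgroup Cfsg.Agent.H90 Equiv Cfsg.Agent.LE Cfsg.Agent.LE.J2U Cfsg.Agent.CosetEnum

universe u

section rel

variable {G : Type u} [Group G] {f y k z a e w d : G}

theorem E3.subs_mem (E : E3 f y k z a e w) : ∀ r ∈ [[1], [2], [4], [6], [7], [8], [11]],
    (List.map (gg f y k z a e d w) r).prod ∈ centralizer ({z} : Set G) := by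
  intro r hr
  simp only [List.mem_cons, List.not_mem_nil, or_false] at hr
  rw [mem_centralizer_singleton_iff]
  rcases hr with rfl | rfl | rfl | rfl | rfl | rfl | rfl <;>
    simp only [List.map_cons, List.map_nil, List.prod_cons, List.prod_nil, mul_one, gg]
  · exact E.fz
  · exact E.yz
  · exact E.kz
  · exact E.az
  · exact E.ez
  · exact E.wz

theorem E3.no_d (E : E3 f y k z a e w) (D : DD z e a y d) (h : d ∈ centralizer ({z} : Set G)) : False := by
  rw [mem_centralizer_singleton_iff, D.dz] at h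
  exact E.nez (mul_left_cancel h).symm

/-- usage of the collapse certificates -/
theorem E3.badP (E : E3 f y k z a e w) (D : DD z e a y d)
    (C : ∀ H : Subgroup G, (∀ r ∈ [[1], [2], [4], [6], [7], [8], [11]], (List.map (gg f y k z a e d w) r).prod ∈ H) →
      ∀ r ∈ [[9]], (List.map (gg f y k z a e d w) r).prod ∈ H) : False := by
  have h := C (centralizer ({z} : Set G)) E.subs_mem [9] (by simp)
  simp only [List.map_cons, List.map_nil, List.prod_cons, List.prod_nil, mul_one, gg] at h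
  exact E.no_d D h

/-- the amalgam of two groups `S₄` -/
def amRL (m n : ℕ) : List (List ℕ × ℕ) := [([1, 2], 2), ([1, 3], 2), ([2, 3, 2, 3, 1], 1), ([4, 4, 4], 1),
  ([5, 1, 4, 3], 1), ([5, 3, 4, 3, 1], 1), ([4, 2], 2), ([6, 6, 6], 1), ([7, 1, 6, 2], 1), ([7, 2, 6, 2, 1], 1),
  ([6, 3], 2), ([4, 6], m), ([4, 7], n)]

def gam (z a e d g : G) : ℕ → G
  | 1 => z | 2 => a | 3 => e | 4 => d | 5 => d⁻¹ | 6 => g | 7 => g⁻¹ | _ => 1

/-- the relations of the amalgam -/
structure Am (z a e d g : G) : Prop where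
  zz : z * z = 1
  aa : a * a = 1
  ee : e * e = 1
  az : a * z = z * a
  ez : e * z = z * e
  ae : a * e = z * (e * a)
  dz : z * d = d * e
  de : e * d = d * (z * e)
  ddd : d * d * d = 1
  da : (d * a) * (d * a) = 1
  gz : z * g = g * a
  ga : a * g = g * (z * a)
  ggg : g * g * g = 1
  ge : (g * e) * (g * e) = 1

theorem Am.good {g : G} (A : Am z a e d g) {m n : ℕ} (hm : (d * g) ^ m = 1) (hn : (d * g⁻¹) ^ n = 1) :
    Good (gam z a e d g) 7 [(4, 5), (6, 7)] (amRL m n) := by
  have zi : z⁻¹ = z := inv_eq_of_mul_eq_one_left A.zz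
  have ai : a⁻¹ = a := inv_eq_of_mul_eq_one_left A.aa
  have ei : e⁻¹ = e := inv_eq_of_mul_eq_one_left A.ee
  refine ⟨?_, ?_, ?_⟩
  · intro x
    match x with
    | 0 => simp [ivL, gam]
    | 1 => simp [ivL, gam, zi]
    | 2 => simp [ivL, gam, ai]
    | 3 => simp [ivL, gam, ei]
    | 4 => simp [ivL, gam]
    | 5 => simp [ivL, gam]
    | 6 => simp [ivL, gam]
    | 7 => simp [ivL, gam]
    | (n + 8) => simp [ivL, gam]
  · intro x hx
    match x with
    | 0 => rfl
    | 1 | 2 | 3 | 4 | 5 | 6 | 7 => exact absurd hx (by decide)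
    | (n + 8) => rfl
  · intro r hr
    simp only [amRL, List.mem_cons, List.not_mem_nil, or_false] at hr
    rcases hr with rfl | rfl | rfl | rfl | rfl | rfl | rfl | rfl | rfl | rfl | rfl | rfl | rfl <;>
    simp only [List.map_cons, List.map_nil, List.prod_cons, List.prod_nil, mul_one, pow_succ, pow_zero, one_mul, gam]
    · exact cc1 A.az A.zz A.aa
    · exact cc1 A.ez A.zz A.ee
    · calc a * (e * (a * (e * z))) = (a * e) * (a * e) * z := by group
        _ = (z * (e * a)) * (a * e) * z := by rw [← A.ae]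
        _ = z * e * (a * a) * e * z := by group
        _ = z * (e * e) * z := by rw [A.aa]; group
        _ = 1 := by rw [A.ee, mul_one, A.zz]
    · rw [← mul_assoc]; exact A.ddd
    · rw [← A.dz, ← mul_assoc z, A.zz]; group
    · calc d⁻¹ * (e * (d * (e * z))) = d⁻¹ * (e * d) * (e * z) := by group
        _ = z * (e * e) * z := by rw [A.de]; group
        _ = 1 := by rw [A.ee, mul_one, A.zz]
    · exact A.da
    · rw [← mul_assoc]; exact A.ggg
    · rw [← A.gz, ← mul_assoc z, A.zz]; group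
    · calc g⁻¹ * (a * (g * (a * z))) = g⁻¹ * (a * g) * (a * z) := by group
        _ = z * (a * a) * z := by rw [A.ga]; group
        _ = 1 := by rw [A.aa, mul_one, A.zz]
    · exact A.ge
    · exact hm
    · exact hn

end rel

open Cfsg.Agent.CosetEnum.J3U in
/-- which amalgams are not trivial -/
theorem Am.mn {G : Type u} [Group G] {z a e d g : G} (A : Am z a e d g) (z1 : z ≠ 1) {m n : ℕ}
    (hm : (d * g) ^ m = 1) (hn : (d * g⁻¹) ^ n = 1)
    (h : (m = 5 ∧ (n = 3 ∨ n = 4 ∨ n = 5)) ∨ (m = 7 ∧ (n = 3 ∨ n = 4 ∨ n = 7))) : m = 5 ∧ n = 4 := by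
  have key : ∀ (C : ∀ H : Subgroup G, (∀ r ∈ ([] : List (List ℕ)), (List.map (gam z a e d g) r).prod ∈ H) →
      ∀ r ∈ [[1]], (List.map (gam z a e d g) r).prod ∈ H), False := by
    intro C
    have h := C ⊥ (by simp) [1] (by simp)
    simp only [List.map_cons, List.map_nil, List.prod_cons, List.prod_nil, mul_one, gam, mem_bot] at h
    exact z1 h
  have hg := A.good hm hn
  rcases h with ⟨rfl, rfl | rfl | rfl⟩ | ⟨rfl, rfl | rfl | rfl⟩
  · exact (key fun H => A53.cert (g := gam z a e d g) hg H).elim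
  · exact ⟨rfl, rfl⟩
  · exact (key fun H => A55.cert (g := gam z a e d g) hg H).elim
  · exact (key fun H => A73.cert (g := gam z a e d g) hg H).elim
  · exact (key fun H => A74.cert (g := gam z a e d g) hg H).elim
  · exact (key fun H => A77.cert (g := gam z a e d g) hg H).elim

namespace C3

variable {G : Type u} [Group G] [Finite G] {Q : Subgroup G} {z f y a : G} (c : C3 Q z f y a)
include c

open Cfsg.Agent.CosetEnum.J3U in
theorem fd {k w d : G} (E : E3 f y k z a (tp a f y 4) w) (D : DD z (tp a f y 4) a y d) :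
    d⁻¹ * f * d = y * f * y⁻¹ := by
  obtain ⟨j, hj, h⟩ := c.fd_form D
  have hj' : j = 0 ∨ j = 1 ∨ j = 2 := by omega
  have ff := E.ff
  rcases hj' with rfl | rfl | rfl
  · exfalso
    rw [pow_zero, one_mul, inv_one, mul_one] at h
    have hg := E.good D (ex := [([10, 1, 9, 1], 1)]) (by
      intro p hp
      simp only [List.mem_cons, List.not_mem_nil, or_false] at hp
      subst hp
      simp only [List.map_cons, List.map_nil, List.prod_cons, List.prod_nil, mul_one, pow_one, gg]
      calc d⁻¹ * (f * (d * f)) = (d⁻¹ * f * d) * f := by group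
        _ = 1 := by rw [h, ff])
    exact E.badP D fun H => Q1.cert (g := gg f y k z a (tp a f y 4) d w) hg H
  · rw [pow_one] at h; exact h
  · exfalso
    have y2 : y ^ 2 = y⁻¹ := by
      rw [pow_two]; exact eq_inv_of_mul_eq_one_left E.yyy
    rw [y2, inv_inv] at h
    have hg := E.good D (ex := [([10, 1, 9, 3, 1, 2], 1)]) (by
      intro p hp
      simp only [List.mem_cons, List.not_mem_nil, or_false] at hp
      subst hp
      simp only [List.map_cons, List.map_nil, List.prod_cons, List.prod_nil, mul_one, pow_one, gg]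
      calc d⁻¹ * (f * (d * (y⁻¹ * (f * y)))) = (d⁻¹ * f * d) * (y⁻¹ * f * y) := by group
        _ = y⁻¹ * (f * f) * y := by rw [h]; group
        _ = 1 := by rw [ff]; group)
    exact E.badP D fun H => Q2.cert (g := gg f y k z a (tp a f y 4) d w) hg H

theorem am_bar {k w d : G} (E : E3 f y k z a (tp a f y 4) w) (D : DD z (tp a f y 4) a y d) :
    Am (mq y z) (mq y a) (mq y (tp a f y 4)) (mq y d) (mq y (w * d * w)) := by
  obtain ⟨zzb, aab, eeb, azb, ezb, aeb, z1⟩ := c.bar E
  have GD := gd_of E D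
  have ey := c.y_e.symm
  have zy : z * y = y * z := c.F.yz.symm
  have ay : a * y = y * a := c.F.ya.symm
  have dy : d * y = y * d := D.dy.symm
  obtain ⟨g, hg⟩ : ∃ g, g = w * d * w := ⟨_, rfl⟩
  rw [← hg] at GD ⊢
  have gy : g * y = y * g := GD.gy.symm
  obtain ⟨e, he⟩ : ∃ e, e = tp a f y 4 := ⟨_, rfl⟩
  rw [← he] at ey eeb ezb aeb D GD ⊢
  have mulc : ∀ u v : G, u * y = y * u → v * y = y * v → (u * v) * y = y * (u * v) := fun u v hu hv =>
    (show Commute u y from hu).mul_left hv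
  refine ⟨zzb, aab, eeb, azb, ezb, aeb, ?_, ?_, ?_, ?_, ?_, ?_, ?_, ?_⟩
  · rw [← mq_mul zy dy, D.dz, mq_mul dy ey]
  · rw [← mq_mul ey dy, D.de, mq_mul dy (mulc _ _ zy ey), mq_mul zy ey]
  · rw [← mq_mul dy dy, ← mq_mul (mulc _ _ dy dy) dy, D.ddd, mq_one]
  · rw [← mq_mul dy ay, ← mq_mul (mulc _ _ dy ay) (mulc _ _ dy ay), D.da, mq_one]
  · rw [← mq_mul zy gy, GD.gz, mq_mul gy ay]
  · rw [← mq_mul ay gy, GD.ga, mq_mul gy (mulc _ _ zy ay), mq_mul zy ay]
  · rw [← mq_mul gy gy, ← mq_mul (mulc _ _ gy gy) gy, GD.ggg, mq_one]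
  · rw [← mq_mul gy ey, ← mq_mul (mulc _ _ gy ey) (mulc _ _ gy ey), GD.ge, mq_one]

open Cfsg.Agent.CosetEnum.J3U in
/-- **The relations of `C(y)`.** -/
theorem cy_rels {k w d : G} (E : E3 f y k z a (tp a f y 4) w) (D : DD z (tp a f y 4) a y d) :
    (d * (w * d * w)) ^ 5 = 1 ∧ (d * (w * d * w)) ≠ 1 ∧ ∃ i : ℕ, i < 3 ∧ (d * (w * d * w)⁻¹) ^ 4 = y ^ i := by
  have FD := c.fd E D
  have GD := gd_of E D
  have ww := E.ww
  have wi : w⁻¹ = w := inv_eq_of_mul_eq_one_left ww
  have ff := E.ff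
  have fi : f⁻¹ = f := inv_eq_of_mul_eq_one_left ff
  obtain ⟨g, hg⟩ : ∃ g, g = w * d * w := ⟨_, rfl⟩
  rw [← hg] at GD ⊢
  have dy : d * y = y * d := D.dy.symm
  have gy : g * y = y * g := GD.gy.symm
  have dgy : (d * g) * y = y * (d * g) := (show Commute d y from dy).mul_left gy
  have dGy : (d * g⁻¹) * y = y * (d * g⁻¹) := (show Commute d y from dy).mul_left (show Commute g y from gy).inv_left
  -- the relator for `f ^ d`
  have hFD : d⁻¹ * (f * (d * (y * (f * y⁻¹)))) = 1 := by
    calc d⁻¹ * (f * (d * (y * (f * y⁻¹)))) = (d⁻¹ * f * d) * (y * f * y⁻¹) := by group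
      _ = y * (f * f) * y⁻¹ := by rw [FD]; group
      _ = 1 := by rw [ff]; group
  have hdw : ∀ n : ℕ, (d * w) ^ (2 * n) = (d * g) ^ n := by
    intro n
    rw [pow_mul]
    congr 1
    rw [pow_two, hg]; group
  -- powers of `d g`
  have key : ∀ n : ℕ, (d * g) ^ n ∈ zpowers y → (d * g) ^ n = 1 := by
    intro n hn
    obtain ⟨j, hj⟩ := mem_zpowers_iff.1 hn
    have h1 : w * (d * g) * w = g * d := by
      rw [hg]
      calc w * (d * (w * d * w)) * w = w * d * w * d * (w * w) := by group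
        _ = _ := by rw [ww, mul_one]
    have h2 : (g * d) ^ n = (d * g) ^ n := by
      have h3 : g * d = d⁻¹ * (d * g) * d := by group
      have h4 : (d⁻¹ * (d * g) * d) ^ n = d⁻¹ * (d * g) ^ n * d := by
        have := conj_pow (a := d⁻¹) (b := d * g) (i := n)
        rw [inv_inv] at this
        exact this
      have h5 : (d * g) ^ n * d = d * (d * g) ^ n := by
        rw [← hj]; exact ((show Commute d y from dy).zpow_right j).symm
      rw [h3, h4, mul_assoc, h5, inv_mul_cancel_left]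
    have h3 : w * (d * g) ^ n * w = (g * d) ^ n := by
      have h4 : (w * (d * g) * w⁻¹) ^ n = w * (d * g) ^ n * w⁻¹ := conj_pow
      rw [wi, h1] at h4
      exact h4.symm
    have h4 : w * y ^ j * w = (y ^ j)⁻¹ := by
      have h5 : (w * y * w⁻¹) ^ j = w * y ^ j * w⁻¹ := conj_zpow
      rw [wi, E.wy] at h5
      rw [← h5, inv_zpow]
    have h5 : (y ^ j)⁻¹ = y ^ j := by rw [← h4, hj, h3, h2]
    rw [← hj]
    apply c.one_of_sq (zpow_mem (mem_zpowers y) j)
    nth_rewrite 1 [← h5]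
    exact inv_mul_cancel _
  -- exclusion of the orders 3 and 4
  have no3 : ¬ (d * g) ^ 3 = 1 := by
    intro h
    have hgood := E.good D (ex := [([10, 1, 9, 2, 1, 3], 1), ([9, 11], 6)]) (by
      intro p hp
      simp only [List.mem_cons, List.not_mem_nil, or_false] at hp
      rcases hp with rfl | rfl <;>
        simp only [List.map_cons, List.map_nil, List.prod_cons, List.prod_nil, mul_one, pow_one, gg]
      · exact hFD
      · rw [show 6 = 2 * 3 by norm_num, hdw, h])
    exact E.badP D fun H => S3.cert (g := gg f y k z a (tp a f y 4) d w) hgood H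
  have no4 : ¬ (d * g) ^ 4 = 1 := by
    intro h
    have hgood := E.good D (ex := [([10, 1, 9, 2, 1, 3], 1), ([9, 11], 8)]) (by
      intro p hp
      simp only [List.mem_cons, List.not_mem_nil, or_false] at hp
      rcases hp with rfl | rfl <;>
        simp only [List.map_cons, List.map_nil, List.prod_cons, List.prod_nil, mul_one, pow_one, gg]
      · exact hFD
      · rw [show 8 = 2 * 4 by norm_num, hdw, h])
    exact E.badP D fun H => S4.cert (g := gg f y k z a (tp a f y 4) d w) hgood H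
  obtain ⟨m, n, hm, hn, hmn⟩ : ∃ m n : ℕ, (d * g) ^ m ∈ zpowers y ∧ (d * g⁻¹) ^ n ∈ zpowers y ∧
      ((m = 5 ∧ (n = 3 ∨ n = 4 ∨ n = 5)) ∨ (m = 7 ∧ (n = 3 ∨ n = 4 ∨ n = 7))) := by
    rcases c.orders E with h | h
    · obtain ⟨m, hm, h1⟩ := h _ dgy
      obtain ⟨n, hn, h2⟩ := h _ dGy
      refine ⟨m, n, h1, h2, Or.inl ⟨?_, hn⟩⟩
      rcases hm with rfl | rfl | rfl
      · exact absurd (key 3 h1) no3
      · exact absurd (key 4 h1) no4
      · rfl
    · obtain ⟨m, hm, h1⟩ := h _ dgy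
      obtain ⟨n, hn, h2⟩ := h _ dGy
      refine ⟨m, n, h1, h2, Or.inr ⟨?_, hn⟩⟩
      rcases hm with rfl | rfl | rfl
      · exact absurd (key 3 h1) no3
      · exact absurd (key 4 h1) no4
      · rfl
  have A := c.am_bar E D
  rw [← hg] at A
  have hm' : (mq y d * mq y g) ^ m = 1 := by
    rw [← mq_mul dy gy, ← mq_pow dgy]
    exact (mq_eq_one ((show Commute (d * g) y from dgy).pow_left m)).2 hm
  have hn' : (mq y d * (mq y g)⁻¹) ^ n = 1 := by
    rw [← mq_inv gy, ← mq_mul dy ((show Commute g y from gy).inv_left), ← mq_pow dGy]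
    exact (mq_eq_one ((show Commute (d * g⁻¹) y from dGy).pow_left n)).2 hn
  obtain ⟨rfl, rfl⟩ := A.mn (c.bar E).2.2.2.2.2.2 hm' hn' hmn
  refine ⟨key 5 hm, fun h => no3 (by rw [h, one_pow]), ?_⟩
  obtain ⟨j, hj⟩ := mem_zpowers_iff.1 hn
  refine ⟨(j % 3).toNat, by omega, ?_⟩
  rw [← zpow_natCast y, Int.toNat_of_nonneg (Int.emod_nonneg j (by norm_num)), ← hj]
  have := zpow_mod_orderOf y j
  rw [c.ordy] at this
  exact this.symm

end C3

end Cfsg.Agent.LE.J3U
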