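import Cfsg.Agent.LE.J3U.Rels
import Cfsg.Agent.LE.J3U.PCerts

/-!
# Groups of `J₃` type, IX: the presentation (owner: helper80)
-/
set_option autoImplicit false
set_option linter.all false

namespace Cfsg.Agent.LE.J3U

open Subgroup Cfsg.Agent.H90 Equiv Cfsg.Agent.LE Cfsg.Agent.LE.J2U Cfsg.Agent.CosetEnum

universe u

set_option maxRecDepth 100000 in
theorem five_cent : ∀ σ : Perm (Fin 5), σ ^ 5 = 1 ∧ σ ≠ 1 → (∀ i, σ i ≠ i) ∧
    ∀ τ : Perm (Fin 5), τ * σ = σ * τ → τ * τ = 1 → τ = 1 := by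
  decide +kernel

namespace C3

variable {G : Type u} [Group G] [Finite G] {Q : Subgroup G} {z f y a : G} (c : C3 Q z f y a)
include c

theorem cent_pts {v : G} (h : ∀ i, v * tp a f y i = tp a f y i * v) (hz : v * z = z * v) : v = 1 ∨ v = z := by
  apply c.B.pl.cent
  intro q hq
  have hzp : ∀ b, v * zp z b = zp z b * v := fun b => zp_comm hz b
  obtain ⟨b, h4 | ⟨i, h4⟩ | ⟨i, j, hij, h4⟩⟩ := mem_form c.B.pl c.B.pts c.B.cardQ hq
  · rw [h4]; exact hzp b
  · rw [h4, ← mul_assoc, hzp, mul_assoc, h i, mul_assoc]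
  · rw [h4, ← mul_assoc, hzp, mul_assoc, ← mul_assoc v, h i, mul_assoc (tp a f y i), h j, ← mul_assoc (tp a f y i),
      ← mul_assoc]

theorem cent4 {v : G} (hz : v * z = z * v) (h0 : v * tp a f y 0 = tp a f y 0 * v)
    (h1 : v * tp a f y 1 = tp a f y 1 * v) (h3 : v * a = a * v) (h4 : v * tp a f y 4 = tp a f y 4 * v) :
    v = 1 ∨ v = z := by
  have ha : tp a f y 3 = a := by simp [tp]
  have h2 : v * tp a f y 2 = tp a f y 2 * v := by
    have e : tp a f y 2 = (tp a f y 0 * tp a f y 1)⁻¹ * tp a f y 4 * (tp a f y 3)⁻¹ := by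
      rw [Four.t4_eq]; group
    have c0 : Commute v (tp a f y 0) := h0
    have c1 : Commute v (tp a f y 1) := h1
    have c3 : Commute v (tp a f y 3) := by rw [ha]; exact h3
    have c4 : Commute v (tp a f y 4) := h4
    rw [e]
    exact (((c0.mul_right c1).inv_right.mul_right c4).mul_right c3.inv_right)
  apply c.cent_pts _ hz
  intro i
  fin_cases i
  · exact h0
  · exact h1
  · exact h2
  · show v * tp a f y 3 = tp a f y 3 * v
    rw [ha]; exact h3
  · exact h4

theorem conj_mem {z v p t : G} (h : p * v * p⁻¹ ∈ centralizer ({z} : Set G)) (ht : p⁻¹ * z * p = t) :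
    v * t = t * v := by
  rw [mem_centralizer_singleton_iff] at h
  have := comm_of_conj (g := p⁻¹) h (a' := v) (b' := t) (by group) (by rw [← ht]; group)
  exact this

theorem kill {k w d : G} (E : E3 f y k z a (tp a f y 4) w) (D : DD z (tp a f y 4) a y d) {v : G}
    (h0 : v ∈ centralizer ({z} : Set G)) (h1 : d * v * d⁻¹ ∈ centralizer ({z} : Set G))
    (h2 : (d * w) * v * (d * w)⁻¹ ∈ centralizer ({z} : Set G))
    (h3 : (d * w * f) * v * (d * w * f)⁻¹ ∈ centralizer ({z} : Set G))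
    (h4 : (d * w * f * y) * v * (d * w * f * y)⁻¹ ∈ centralizer ({z} : Set G)) : v = 1 ∨ v = z := by
  have wi : w⁻¹ = w := inv_eq_of_mul_eq_one_left E.ww
  have fi : f⁻¹ = f := inv_eq_of_mul_eq_one_left E.ff
  have t0 : tp a f y 0 = f * a * f := by simp [tp]
  have t1 : tp a f y 1 = y⁻¹ * (f * a * f) * y := by simp [tp]
  have e1 : d⁻¹ * z * d = tp a f y 4 := by rw [mul_assoc, D.dz]; group
  have e2 : (d * w)⁻¹ * z * (d * w) = a := by
    calc (d * w)⁻¹ * z * (d * w) = w⁻¹ * (d⁻¹ * z * d) * w := by group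
      _ = w * tp a f y 4 * w := by rw [e1, wi]
      _ = a * (w * w) := by rw [E.we]; group
      _ = a := by rw [E.ww, mul_one]
  have e3 : (d * w * f)⁻¹ * z * (d * w * f) = tp a f y 0 := by
    calc (d * w * f)⁻¹ * z * (d * w * f) = f⁻¹ * ((d * w)⁻¹ * z * (d * w)) * f := by group
      _ = tp a f y 0 := by rw [e2, fi, t0]
  have e4 : (d * w * f * y)⁻¹ * z * (d * w * f * y) = tp a f y 1 := by
    calc (d * w * f * y)⁻¹ * z * (d * w * f * y) = y⁻¹ * ((d * w * f)⁻¹ * z * (d * w * f)) * y := by group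
      _ = tp a f y 1 := by rw [e3, t0, t1]
  refine c.cent4 (mem_centralizer_singleton_iff.1 h0) ?_ ?_ ?_ ?_
  · exact conj_mem (Q := Q) (a := a) (f := f) (y := y) c h3 e3
  · exact conj_mem (Q := Q) (a := a) (f := f) (y := y) c h4 e4
  · exact conj_mem (Q := Q) (a := a) (f := f) (y := y) c h2 e2
  · exact conj_mem (Q := Q) (a := a) (f := f) (y := y) c h1 e1

theorem kill' {k w d : G} (E : E3 f y k z a (tp a f y 4) w) (D : DD z (tp a f y 4) a y d) (vl : List ℕ)
    (h : ∀ r ∈ [vl, 9 :: (vl ++ [10]), 9 :: 11 :: (vl ++ [11, 10]), 9 :: 11 :: 1 :: (vl ++ [1, 11, 10]),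
      9 :: 11 :: 1 :: 2 :: (vl ++ [3, 1, 11, 10])],
      (List.map (gg f y k z a (tp a f y 4) d w) r).prod ∈ centralizer ({z} : Set G)) :
    (List.map (gg f y k z a (tp a f y 4) d w) vl).prod = 1 ∨ (List.map (gg f y k z a (tp a f y 4) d w) vl).prod = z := by
  have wi : w⁻¹ = w := inv_eq_of_mul_eq_one_left E.ww
  have fi : f⁻¹ = f := inv_eq_of_mul_eq_one_left E.ff
  obtain ⟨v, hv⟩ : ∃ v, v = (List.map (gg f y k z a (tp a f y 4) d w) vl).prod := ⟨_, rfl⟩
  have h0 := h vl (by simp)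
  have h1 := h (9 :: (vl ++ [10])) (by simp)
  have h2 := h (9 :: 11 :: (vl ++ [11, 10])) (by simp)
  have h3 := h (9 :: 11 :: 1 :: (vl ++ [1, 11, 10])) (by simp)
  have h4 := h (9 :: 11 :: 1 :: 2 :: (vl ++ [3, 1, 11, 10])) (by simp)
  simp only [List.map_cons, List.map_append, List.map_nil, List.prod_cons, List.prod_append, List.prod_nil, mul_one,
    ← hv] at h0 h1 h2 h3 h4
  simp only [gg] at h1 h2 h3 h4
  rw [← hv]
  refine c.kill E D h0 ?_ ?_ ?_ ?_
  · have : d * v * d⁻¹ = d * (v * d⁻¹) := by group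
    rw [this]; exact h1
  · have : (d * w) * v * (d * w)⁻¹ = d * (w * (v * (w * d⁻¹))) := by
      simp only [mul_inv_rev, wi, fi, mul_assoc]
    rw [this]; exact h2
  · have : (d * w * f) * v * (d * w * f)⁻¹ = d * (w * (f * (v * (f * (w * d⁻¹))))) := by
      simp only [mul_inv_rev, wi, fi, mul_assoc]
    rw [this]; exact h3
  · have : (d * w * f * y) * v * (d * w * f * y)⁻¹ = d * (w * (f * (y * (v * (y⁻¹ * (f * (w * d⁻¹))))))) := by
      simp only [mul_inv_rev, wi, fi, mul_assoc]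
    rw [this]; exact h4

end C3

end Cfsg.Agent.LE.J3U
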