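import Cfsg.Agent.CosetEnum.Level
import Cfsg.Agent.CosetEnum.BaseFix

/-! Fixed points of words in tables (owner: helper80). -/

set_option autoImplicit false

namespace Cfsg.Agent.CosetEnum

open MulAction

/-- the word `u` moves the point `i`, or `i` is one of the points of the list -/
noncomputable def mvB (P : Par) (u pts : List Nat) (i : Nat) : Bool :=
  @Bool.rec (fun _ => Bool) true (anyL (Nat.beq i) pts) (Nat.beq (actW P u i) i)

theorem mvB_sound {P : Par} {u pts : List Nat} {i : Nat} (h : mvB P u pts i = true) (hi : actW P u i = i) :
    i ∈ pts := by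
  have h' : @Bool.rec (fun _ => Bool) true (anyL (Nat.beq i) pts) (Nat.beq (actW P u i) i) = true := h
  rw [hi, Nat.beq_refl] at h'
  exact mem_of_anyBeq h'

/-- the words fix all the points of a list -/
noncomputable def bfB (P : Par) (us : List (List Nat)) (bs : List Nat) : Bool :=
  allL (fun b => trivB P us b) bs

end Cfsg.Agent.CosetEnum
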