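import Cfsg.Agent.LE.J3U.Emb
import Cfsg.Agent.LE.J3U.QNum
import Cfsg.Agent.StrEmb.Basic
import Cfsg.Agent.LE.J2Weak

/-!
# Groups of `J₃` type, XII: the subgroup `J₃` is everything (owner: helper80)
-/
set_option autoImplicit false
set_option linter.all false

namespace Cfsg.Agent.LE.J3U

open Subgroup Cfsg.Agent.CosetEnum Cfsg.Agent.H90 Equiv Cfsg.Agent.LE Cfsg.Agent.LE.J2U

universe u

section odd

variable {J : Type*} [Group J] [Finite J]

/-- no subgroup of odd order is transitive on the involutions -/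
theorem JNum.no_odd (h : JNum J) (hn : NoInv J 17) (D : Subgroup J) (hD : ¬ 2 ∣ Nat.card D) (hd : 26163 ∣ Nat.card D) :
    False := by
  haveI : Fact (Nat.Prime 17) := ⟨by norm_num⟩
  have h1 : Nat.card D ∣ 50232960 := by rw [← h.card]; exact Subgroup.card_subgroup_dvd_card D
  obtain ⟨m, hm⟩ := hd
  have hm15 : m ∣ 15 := by
    have h2 : m ∣ 15 * 128 := by
      rw [hm] at h1
      have : 26163 * m ∣ 26163 * (15 * 128) := by norm_num; exact h1
      exact Nat.dvd_of_mul_dvd_mul_left (by norm_num) this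
    have h3 : ¬ 2 ∣ m := fun h4 => hD (by rw [hm]; exact h4.mul_left _)
    have hco : Nat.Coprime m (2 ^ 7) := ((Nat.Prime.coprime_iff_not_dvd Nat.prime_two).2 h3).symm.pow_right 7
    exact hco.dvd_of_dvd_mul_right (by norm_num at h2 ⊢; exact h2)
  obtain ⟨P⟩ : Nonempty (Sylow 17 D) := inferInstance
  have hP : Nat.card (P : Subgroup D) = 17 := by
    apply sylow_card
    have h2 : (Nat.card D).factorization 17 ≤ 1 := by
      have := (Nat.factorization_le_iff_dvd Nat.card_pos.ne' (by norm_num)).2 h1 17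
      rw [← h.card, h.fac17] at this
      exact this
    have h3 : 0 < (Nat.card D).factorization 17 := by
      apply Nat.Prime.factorization_pos_of_dvd (by norm_num) Nat.card_pos.ne'
      rw [hm]; exact (show 17 ∣ 26163 by norm_num).mul_right _
    omega
  -- the image
  obtain ⟨R, hR⟩ : ∃ R, R = (P : Subgroup D).map D.subtype := ⟨_, rfl⟩
  have hRc : Nat.card R = 17 := by
    rw [hR, Subgroup.card_map_of_injective D.subtype_injective, hP]
  obtain ⟨S, hS⟩ := (IsPGroup.of_card (p := 17) (n := 1) (G := R) (by rw [hRc, pow_one])).exists_le_sylow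
  have e0 : (S : Subgroup J) = R := by
    symm
    apply Subgroup.eq_of_le_of_card_ge hS
    have := h.card17 S
    rw [show Nat.card (S : Subgroup J) = 17 from this, hRc]
  obtain ⟨-, h136, -⟩ := h.seventeen hn S
  rw [e0] at h136
  have hN : (normalizer ((P : Subgroup D) : Set D)).map D.subtype ≤ normalizer (R : Set J) := by
    rw [hR]; exact Subgroup.le_normalizer_map _
  have hNc : Nat.card (normalizer ((P : Subgroup D) : Set D)) ∣ 136 := by
    rw [← h136, ← Subgroup.card_map_of_injective D.subtype_injective]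
    exact Subgroup.card_dvd_of_le hN
  have hNo : ¬ 2 ∣ Nat.card (normalizer ((P : Subgroup D) : Set D)) := fun h2 =>
    hD (h2.trans (Subgroup.card_subgroup_dvd_card _))
  have hN17 : 17 ∣ Nat.card (normalizer ((P : Subgroup D) : Set D)) := by
    have h17P : 17 ∣ Nat.card (P : Subgroup D) := by rw [hP]
    exact h17P.trans (Subgroup.card_dvd_of_le Subgroup.le_normalizer)
  have h17 : Nat.card (normalizer ((P : Subgroup D) : Set D)) = 17 := by
    apply Nat.dvd_antisymm _ hN17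
    have hco : Nat.Coprime (Nat.card (normalizer ((P : Subgroup D) : Set D))) (2 ^ 3) :=
      ((Nat.Prime.coprime_iff_not_dvd Nat.prime_two).2 hNo).symm.pow_right 3
    exact hco.dvd_of_dvd_mul_right (by norm_num; exact hNc)
  have h6 := card_sylow_modEq_one 17 D
  have h8 : Nat.card (Sylow 17 D) = (normalizer ((P : Subgroup D) : Set D)).index := by
    rw [P.coe_coe]; exact P.card_eq_index_normalizer
  have h7 := (normalizer ((P : Subgroup D) : Set D)).card_mul_index
  rw [h8] at h6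
  rw [h17, hm] at h7
  have h9 : (normalizer ((P : Subgroup D) : Set D)).index = 1539 * m :=
    Nat.eq_of_mul_eq_mul_left (by norm_num : 0 < 17) (by rw [h7, ← mul_assoc, show 17 * 1539 = 26163 by norm_num])
  rw [h9] at h6
  unfold Nat.ModEq at h6
  have key : ∀ m ∈ Nat.divisors 15, 1539 * m % 17 ≠ 1 % 17 := by decide
  exact key m (Nat.mem_divisors.2 ⟨hm15, by norm_num⟩) h6

end odd

theorem relIndex_of_orbit {G : Type*} [Group G] [Finite G] {C H D : Subgroup G} (hDH : D ≤ H)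
    (h : ∀ x ∈ H, ∃ d ∈ D, d⁻¹ * x ∈ C) : C.relIndex D = C.relIndex H := by
  have h1 : ∀ K : Subgroup G, C.relIndex K = (MulAction.orbit K (QuotientGroup.mk 1 : G ⧸ C)).ncard := by
    intro K
    rw [← MulAction.index_stabilizer]
    unfold Subgroup.relIndex
    congr 1
    ext k
    rw [MulAction.mem_stabilizer_iff, mem_subgroupOf]
    show (k : G) ∈ C ↔ (k : G) • (QuotientGroup.mk 1 : G ⧸ C) = QuotientGroup.mk 1
    rw [MulAction.Quotient.smul_mk, smul_eq_mul, mul_one, eq_comm, QuotientGroup.eq, inv_one, one_mul]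
  rw [h1, h1]
  congr 1
  ext x
  constructor
  · rintro ⟨d, rfl⟩
    exact ⟨⟨d, hDH d.2⟩, rfl⟩
  · rintro ⟨k, rfl⟩
    obtain ⟨d, hd, hdk⟩ := h k k.2
    refine ⟨⟨d, hd⟩, ?_⟩
    show (d : G) • (QuotientGroup.mk 1 : G ⧸ C) = (k : G) • (QuotientGroup.mk 1 : G ⧸ C)
    rw [MulAction.Quotient.smul_mk, MulAction.Quotient.smul_mk, smul_eq_mul, smul_eq_mul, mul_one, mul_one,
      QuotientGroup.eq]
    exact hdk

namespace C3

variable {G : Type u} [Group G] [Finite G] {Q : Subgroup G} {z f y a : G} (c : C3 Q z f y a)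
include c

theorem noInv {p : ℕ} (hp : p.Prime) (hp2 : ¬ p ∣ 1920) : NoInv G p := by
  intro t u ht hu hc
  have tt : t * t = 1 := by rw [← pow_two, ← ht]; exact pow_orderOf_eq_one t
  have t1 : t ≠ 1 := by rintro rfl; rw [orderOf_one] at ht; omega
  obtain ⟨g, hg⟩ := c.oc t tt t1
  have h1 : (g⁻¹ * u * g) * z = z * (g⁻¹ * u * g) := by
    have h2 : g⁻¹ * t * g⁻¹⁻¹ = z := by rw [← hg]; group
    have := comm_of_conj hc.symm (show g⁻¹ * u * g⁻¹⁻¹ = g⁻¹ * u * g by rw [inv_inv]) h2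
    exact this
  have h2 : orderOf (g⁻¹ * u * g) = p := by
    have := orderOf_conj' g⁻¹ u
    rw [inv_inv] at this
    rw [this, hu]
  have h3 := orderOf_dvd_natCard (⟨g⁻¹ * u * g, mem_centralizer_singleton_iff.2 h1⟩ : centralizer ({z} : Set G))
  rw [Subgroup.orderOf_mk, h2, c.B.cardC] at h3
  exact hp2 h3

theorem one_class {H : Subgroup G} (hC : ∀ u : G, u * z = z * u → u ∈ H) {d : G} (hd : d ∈ H)
    (D : DD z (tp a f y 4) a y d) (hv : ∃ v ∈ H, f * v = v * a) {t : G} (ht : t ∈ H) (tt : t * t = 1) (t1 : t ≠ 1) :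
    ∃ h ∈ H, h * z * h⁻¹ = t := by
  have B := c.B
  haveI : Fact (Nat.Prime 2) := ⟨Nat.prime_two⟩
  obtain ⟨S, hS⟩ := B.exists_sylow
  have hSH : (S : Subgroup G) ≤ H := fun s hs => hC s (mem_centralizer_singleton_iff.1 (hS hs))
  -- conjugate into `C(z)`
  obtain ⟨T, hT⟩ := (IsPGroup.of_card (p := 2) (n := 1) (G := zpowers (⟨t, ht⟩ : H)) (by
    rw [Nat.card_zpowers, Subgroup.orderOf_mk, pow_one]
    exact orderOf_eq_prime (by rw [pow_two, tt]) t1)).exists_le_sylow
  obtain ⟨g, hg⟩ := MulAction.exists_smul_eq H T (S.subtype hSH)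
  have h1 : (g : G) * t * (g : G)⁻¹ ∈ (S : Subgroup G) := by
    have h2 : g * ⟨t, ht⟩ * g⁻¹ ∈ ((S.subtype hSH : Sylow 2 H) : Subgroup H) := by
      rw [← hg, Sylow.coe_subgroup_smul]
      exact Subgroup.smul_mem_pointwise_smul _ (MulAut.conj g) _ (hT (mem_zpowers _))
    exact h2
  have h2 := mem_centralizer_singleton_iff.1 (hS h1)
  have h3 : (g : G) * t * (g : G)⁻¹ * ((g : G) * t * (g : G)⁻¹) = 1 := conj_sq tt
  have h4 : (g : G) * t * (g : G)⁻¹ ≠ 1 := conj_ne_one t1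
  have key : ∃ h ∈ H, h * z * h⁻¹ = (g : G) * t * (g : G)⁻¹ := by
    have heQ : tp a f y 4 ∈ Q := B.pts.mem 4
    have hez : d⁻¹ * z * d⁻¹⁻¹ = tp a f y 4 := by
      rw [inv_inv, mul_assoc, D.dz]; group
    have haz : ∃ h ∈ H, h * z * h⁻¹ = a := by
      have a1 : a ≠ 1 := by have := B.pts.ne_zp B.pl 0 3; rwa [zp_zero] at this
      have az : a ≠ z := by have := B.pts.ne_zp B.pl 1 3; rwa [zp_one] at this
      obtain ⟨w, hw, hwe⟩ := B.conj_Q heQ c.e1 c.ez c.e_e c.aQ a1 az c.F.aa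
      refine ⟨w * d⁻¹, H.mul_mem (hC w hw) (H.inv_mem hd), ?_⟩
      calc w * d⁻¹ * z * (w * d⁻¹)⁻¹ = w * (d⁻¹ * z * d⁻¹⁻¹) * w⁻¹ := by group
        _ = a := by rw [hez, hwe]
    by_cases hQ : (g : G) * t * (g : G)⁻¹ ∈ Q
    · by_cases hz : (g : G) * t * (g : G)⁻¹ = z
      · exact ⟨1, H.one_mem, by rw [hz]; group⟩
      · obtain ⟨w, hw, hwe⟩ := B.conj_Q heQ c.e1 c.ez c.e_e hQ h4 hz h3
        refine ⟨w * d⁻¹, H.mul_mem (hC w hw) (H.inv_mem hd), ?_⟩
        calc w * d⁻¹ * z * (w * d⁻¹)⁻¹ = w * (d⁻¹ * z * d⁻¹⁻¹) * w⁻¹ := by group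
          _ = _ := by rw [hez, hwe]
    · obtain ⟨w, hw, hwe⟩ := B.conj_involution c.F.fz c.fQ c.F.fy.ff h2 hQ (Or.inl h3)
      obtain ⟨v, hvH, hv⟩ := hv
      obtain ⟨h, hh, hha⟩ := haz
      refine ⟨w * v * h, H.mul_mem (H.mul_mem (hC w hw) hvH) hh, ?_⟩
      have e1 : v * a * v⁻¹ = f := by rw [← hv]; group
      calc w * v * h * z * (w * v * h)⁻¹ = w * (v * (h * z * h⁻¹) * v⁻¹) * w⁻¹ := by group
        _ = _ := by rw [hha, e1, hwe]
  obtain ⟨h, hh, he⟩ := key
  refine ⟨(g : G)⁻¹ * h, H.mul_mem (H.inv_mem g.2) hh, ?_⟩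
  calc (g : G)⁻¹ * h * z * ((g : G)⁻¹ * h)⁻¹ = (g : G)⁻¹ * (h * z * h⁻¹) * g := by group
    _ = t := by rw [he]; group

/-- **The uniqueness theorem.** -/
theorem iso : ∃ φ : QJ ≃* G, φ (qj 1) = z ∧ (φ (qj 5) = f ∧ φ (qj 6) = y ∧ φ (qj 10) = a) := by
  obtain ⟨k, w, d, φ, hinj, hφ, D, hC⟩ := c.exists_emb
  have hz : φ (qj 1) = z := hφ 1
  have hf : φ (qj 5) = f := hφ 5
  have hy : φ (qj 6) = y := hφ 6
  have ha : φ (qj 10) = a := hφ 10
  have hd : d ∈ φ.range := ⟨qj 12, hφ 12⟩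
  have hv : ∃ v ∈ φ.range, f * v = v * a := by
    obtain ⟨v, hv⟩ := f_conj
    exact ⟨φ v, ⟨v, rfl⟩, by rw [← hf, ← ha, ← map_mul, hv, map_mul]⟩
  have hone : ∀ t ∈ φ.range, t * t = 1 → t ≠ 1 → ∃ h ∈ φ.range, h * z * h⁻¹ = t :=
    fun t ht tt t1 => c.one_class hC hd D hv ht tt t1
  suffices htop : φ.range = ⊤ by
    refine ⟨MulEquiv.ofBijective φ ⟨hinj, MonoidHom.range_eq_top.1 htop⟩, hz, hf, hy, ha⟩
  by_contra hne
  obtain ⟨H, hH⟩ : ∃ H, H = φ.range := ⟨_, rfl⟩
  rw [← hH] at hC hd hv hone hne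
  have e : QJ ≃* H := (MonoidHom.ofInjective hinj).trans (MulEquiv.subgroupCongr hH.symm)
  have hnum : JNum H := numOf e
  have hse : Cfsg.IsStronglyEmbedded H := by
    refine ⟨hne, ?_, ?_⟩
    · rw [hnum.card]; decide
    · intro g hg
      rw [← Nat.not_even_iff_odd, even_iff_two_dvd]
      intro h2
      haveI : Fact (Nat.Prime 2) := ⟨Nat.prime_two⟩
      obtain ⟨t, ht⟩ := exists_prime_orderOf_dvd_card' 2 h2
      have ht' : orderOf (t : G) = 2 := by rw [Subgroup.orderOf_coe]; exact ht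
      have tt : (t : G) * t = 1 := by rw [← pow_two, ← ht']; exact pow_orderOf_eq_one _
      have t1 : (t : G) ≠ 1 := by intro h; rw [h, orderOf_one] at ht'; omega
      obtain ⟨htH, s, hs, hst⟩ := Subgroup.mem_inf.1 t.2
      have hst : g * s * g⁻¹ = t := hst
      have ss : s * s = 1 := by
        have h5 : s = g⁻¹ * t * g⁻¹⁻¹ := by rw [← hst]; group
        rw [h5]; exact conj_sq tt
      have s1 : s ≠ 1 := by
        rintro rfl
        apply t1; rw [← hst]; group
      obtain ⟨h, hh, hh'⟩ := hone t htH tt t1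
      obtain ⟨h', hh1, hh1'⟩ := hone s hs ss s1
      apply hg
      have h6 : (h⁻¹ * g * h') * z = z * (h⁻¹ * g * h') := by
        have h7 : g * (h' * z * h'⁻¹) * g⁻¹ = h * z * h⁻¹ := by rw [hh1', hst, hh']
        calc h⁻¹ * g * h' * z = h⁻¹ * (g * (h' * z * h'⁻¹) * g⁻¹) * g * h' := by group
          _ = z * (h⁻¹ * g * h') := by rw [h7]; group
      have h7 : g = h * (h⁻¹ * g * h') * h'⁻¹ := by group
      rw [h7]
      exact H.mul_mem (H.mul_mem hh (hC _ h6)) (H.inv_mem hh1)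
  obtain ⟨g, hg⟩ : ∃ g, g ∉ H := by
    by_contra h
    push Not at h
    exact hne ((Subgroup.eq_top_iff' H).2 h)
  have hzH : z ∈ H := hC z rfl
  have hz2 : orderOf z = 2 := orderOf_eq_prime (by rw [pow_two]; exact c.B.pl.sq) c.B.pl.ne_one
  -- the order of `D`
  obtain ⟨D', hD'⟩ : ∃ D', D' = H ⊓ H.map (MulAut.conj g).toMonoidHom := ⟨_, rfl⟩
  have hodd : Odd (Nat.card D') := by rw [hD']; exact hse.2.2 g hg
  have hDH : D' ≤ H := by rw [hD']; exact inf_le_left
  have hidx : (centralizer ({z} : Set G)).relIndex D' = (centralizer ({z} : Set G)).relIndex H := by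
    apply relIndex_of_orbit hDH
    intro x hx
    have hx2 : orderOf (x * z * x⁻¹) = 2 := by rw [orderOf_conj', hz2]
    obtain ⟨d', hd', he⟩ := StrEmb.exists_conj_inf hse hg hz2 hzH hx2 (H.mul_mem (H.mul_mem hx hzH) (H.inv_mem hx))
    refine ⟨d', by rw [hD']; exact hd', ?_⟩
    rw [mem_centralizer_singleton_iff]
    calc d'⁻¹ * x * z = d'⁻¹ * (x * z * x⁻¹) * x := by group
      _ = d'⁻¹ * (d' * z * d'⁻¹) * x := by rw [he]
      _ = z * (d'⁻¹ * x) := by group
  have hCH : centralizer ({z} : Set G) ≤ H := fun u hu => hC u (mem_centralizer_singleton_iff.1 hu)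
  have hidx2 : (centralizer ({z} : Set G)).relIndex H = 26163 := by
    have h5 := ((centralizer ({z} : Set G)).subgroupOf H).card_mul_index
    have h6 : Nat.card ((centralizer ({z} : Set G)).subgroupOf H) = 1920 := by
      rw [Nat.card_congr (Subgroup.subgroupOfEquivOfLe hCH).toEquiv]; exact c.B.cardC
    rw [h6, hnum.card] at h5
    unfold Subgroup.relIndex
    omega
  have h26 : 26163 ∣ Nat.card D' := by
    rw [← hidx2, ← hidx]
    exact Subgroup.relIndex_dvd_card _ _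
  have hno : NoInv H 17 := by
    intro t u ht hu hc
    exact c.noInv (p := 17) (by norm_num) (by norm_num) t u (by rw [Subgroup.orderOf_coe]; exact ht)
      (by rw [Subgroup.orderOf_coe]; exact hu) (congrArg Subtype.val hc)
  have h5 : Nat.card (D'.subgroupOf H) = Nat.card D' := Nat.card_congr (Subgroup.subgroupOfEquivOfLe hDH).toEquiv
  refine hnum.no_odd hno (D'.subgroupOf H) ?_ ?_
  · rw [h5, ← even_iff_two_dvd, Nat.not_even_iff_odd]; exact hodd
  · rw [h5]; exact h26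

end C3

end Cfsg.Agent.LE.J3U
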